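import Cfsg.Agent.H0.RU2

/-! S2196: the chunk `HEIS` (Heisenberg divisibility). -/

set_option autoImplicit false
set_option linter.unusedSectionVars false
set_option linter.unusedVariables false

open Module MulAction H13.R3 H12 H0.RU
open H11 (hermT frob)
open H11.RS (PO)

namespace H25.RU

universe u

variable {F : Type u} [Field F] [Fintype F] {q : ℕ} {hF : Fintype.card F = q ^ 2}
  {V : Type u} [AddCommGroup V] [Module F V] [Fintype V] {C : CForm (hermT hF) V}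
  {G : Type u} [Group G] [Fintype G] [DistribMulAction G V] [SMulCommClass G F V]

theorem ex_uu' (un : Un C G) {x s : V} {c : F} (hx : C.B x x = 0) (hs : C.B x s = 0)
    (hc : c + frob hF c = C.B s s) : ∃ g : G, Uu C g x s c := un.ex_uu hx hs hc
theorem ext' (un : Un C G) {g k : G} (h : ∀ v : V, g • v = k • v) : g = k := un.ext h
theorem uu_tr {g : G} {x : V} {c : F} : Uu C g x 0 c ↔ Tr C g x (-c) := Uu.tr

theorem uu_mul {g k : G} {x s s' : V} {c c' : F} (hx : C.B x x = 0) (hs : C.B x s = 0)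
    (hs' : C.B x s' = 0) (h : Uu C g x s c) (h' : Uu C k x s' c') :
    Uu C (g * k) x (s + s') (c + c' + C.B s s') := fun w => by
  rw [mul_smul, h', h]
  simp only [map_add, map_sub, map_smul, hx, hs', Bsw hs, smul_eq_mul, mul_zero, add_zero, sub_zero,
    LinearMap.add_apply]
  module

theorem uu_ext (un : Un C G) {g k : G} {x s : V} {c : F} (h : Uu C g x s c) (h' : Uu C k x s c) :
    g = k := un.uu_unique h h'
theorem uu_one {x : V} : Uu C (1 : G) x 0 0 := fun w => by simp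
theorem uu_trc (un : Un C G) {g : G} {x s : V} {c : F} (hx : Is C x) (hs : C.B x s = 0)
    (h : Uu C g x s c) : c + frob hF c = C.B s s := un.uu_trc h hx hs
theorem tr_th (un : Un C G) {g : G} {x : V} {a : F} (hx : Is C x) (h : Tr C g x a) :
    a + frob hF a = 0 := un.tr_trc h hx
theorem ex_tr' (un : Un C G) {x : V} {a : F} (hx : C.B x x = 0) (ha : a + frob hF a = 0) :
    ∃ g : G, Tr C g x a := un.ex_tr hx ha
theorem tr_sml {g : G} {x : V} {a l : F} : Tr C g (l • x) a ↔ Tr C g x (a * (l * frob hF l)) :=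
  Tr.sml

theorem card_TS (un : Un C G) : ((TS C G).card : ℤ) = (q - 1) * Np q (finrank F V) := by
  have q3 := un.q3
  have n6 := un.n6
  have h1 := dcount ({v | Is C v} ×ˢ {a : F | a + frob hF a = 0 ∧ a ≠ 0}) (TS C G : Set G)
    (fun b t => Tr C t b.1 b.2) (m := 1) (n := q ^ 2 - 1) (fun b hb => ?_) fun t ht => ?_
  · have h2 : {a : F | a + frob hF a = 0 ∧ a ≠ 0}.ncard + 1 = q := by
      refine Eq.trans ?_ (ncard_trc (hF := hF) (map_zero _))
      rw [← Set.ncard_insert_of_notMem (a := 0) (fun h => h.2 rfl)]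
      congr 1; ext a
      exact ⟨by rintro (rfl | h); exacts [by simp only [Set.mem_ofPred_eq, map_zero, add_zero], h.1],
        fun h => (eq_or_ne a 0).imp_right fun n => ⟨h, n⟩⟩
    rw [Set.ncard_prod, Set.ncard_coe_finset, mul_one] at h1
    have h3 := ncard_is un.nd (by omega : 1 ≤ finrank F V)
    rw [← Np_mul (by omega)] at h3
    have h4 : 1 ≤ q ^ 2 := Nat.one_le_pow _ _ (by omega)
    zify [h4] at h1 h2
    have h5 : (q : ℤ) ^ 2 - 1 ≠ 0 := by nlinarith [show (3 : ℤ) ≤ q by exact_mod_cast q3]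
    refine mul_right_cancel₀ h5 ?_
    rw [← h1, h3, ← h2]; ring
  · obtain ⟨g, hg⟩ := ex_tr' un hb.1.2 hb.2.1
    rw [Set.ncard_eq_one]
    refine ⟨g, Set.eq_singleton_iff_unique_mem.2 ⟨⟨mem_TS.2 ⟨_, _, hb.1, hb.2.2, hg⟩, hg⟩,
      fun k hk => ext' un fun v => (hk.2 v).trans (hg v).symm⟩⟩
  · obtain ⟨v, a, iv, ha, h⟩ := mem_TS.1 ht
    have e : q ^ 2 - 1 = {l : F | l ≠ 0}.ncard := by
      rw [← hF, show {l : F | l ≠ 0} = {0}ᶜ from rfl, Set.ncard_compl, Set.ncard_singleton,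
        Nat.card_eq_fintype_card]
    rw [e]
    refine (Set.ncard_congr (fun l _ => (l • v, a / (l * frob hF l))) (fun l hl => ?_)
      (fun l l' _ _ e => smul_left_injective F iv.1 (Prod.ext_iff.1 e).1) ?_).symm
    · have n : l * frob hF l ≠ 0 := mul_ne_zero hl (fr_ne hl)
      have h' : Tr C t (l • v) (a / (l * frob hF l)) := by rwa [tr_sml, div_mul_cancel₀ _ n]
      exact ⟨⟨iv.sml hl, tr_th un (iv.sml hl) h', div_ne_zero ha n⟩, h'⟩
    · rintro ⟨v', a'⟩ ⟨⟨iv', -, ha'⟩, h'⟩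
      obtain ⟨y, -, hy⟩ := ex_par un.nd iv'
      have e1 := (h' y).symm.trans (h y)
      simp only [Bone hy, mul_one, add_right_inj] at e1
      obtain ⟨l, rfl⟩ : ∃ l : F, v' = l • v :=
        ⟨a'⁻¹ * (a * C.B v y), by rw [mul_smul, ← e1, inv_smul_smul₀ ha']⟩
      have hl : l ≠ 0 := fun e => iv'.1 (by simp [e])
      refine ⟨l, hl, Prod.ext rfl ?_⟩
      obtain ⟨z, -, hz⟩ := ex_par un.nd iv
      have e2 := (tr_sml.1 h' z).symm.trans (h z)
      simp only [Bone hz, mul_one, add_right_inj] at e2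
      exact (eq_div_of_mul_eq (mul_ne_zero hl (fr_ne hl)) (smul_left_injective F iv.1 e2)).symm

/-- a real form of a nondegenerate subspace -/
theorem ex_real (nd : C.Nondeg) (d : ℕ) : ∀ U : Submodule F V, C.NondegOn U → finrank F U = d →
    ∃ S : AddSubgroup V, (∀ s ∈ S, s ∈ U) ∧ (S : Set V).ncard = q ^ d ∧
      ∀ s ∈ S, ∀ s' ∈ S, C.B s s' = C.B s' s := by
  induction d with
  | zero => exact fun U _ _ => ⟨⊥, by simp, by simp, by simp⟩
  | succ d ih =>
    intro U hU hd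
    obtain ⟨v, hv, h1⟩ := ex_nrmv hU (by rintro rfl; simp at hd) (map_one _) one_ne_zero
    have pr : ∀ u ∈ U, u - C.B v u • v ∈ U ⊓ C.perp (F ∙ v) := fun u hu =>
      ⟨U.sub_mem hu (U.smul_mem _ hv), mem_pp_sp.2 (by simp [h1])⟩
    have v0 : v ∉ U ⊓ C.perp (F ∙ v) := fun e => by simpa [h1] using mem_pp_sp.1 e.2
    have hs : U ⊓ C.perp (F ∙ v) ⊔ (F ∙ v) = U := le_antisymm
      (sup_le inf_le_left ((Submodule.span_singleton_le_iff_mem _ _).2 hv)) fun u hu => by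
        rw [← sub_add_cancel u (C.B v u • v)]
        exact Submodule.add_mem_sup (pr u hu) (Submodule.smul_mem _ _ (Submodule.mem_span_singleton_self v))
    obtain ⟨S, s1, s2, s3⟩ := ih (U ⊓ C.perp (F ∙ v)) (fun x hx h0 => hU x hx.1 fun u hu => by
      simpa [Bsw (mem_pp_sp.1 hx.2)] using h0 _ (pr u hu)) (by
      have := finrank_sup_sp v0; rw [hs] at this; omega)
    have s4 : ∀ s ∈ S, C.B v s = 0 := fun s h => mem_pp_sp.1 (s1 s h).2
    refine ⟨{ carrier := (fun b : F × V => b.1 • v + b.2) '' ({b | frob hF b = b} ×ˢ S)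
              zero_mem' := ⟨(0, 0), ⟨map_zero _, S.zero_mem⟩, by simp⟩
              add_mem' := ?_
              neg_mem' := ?_ }, ?_, ?_, ?_⟩
    · rintro _ _ ⟨a, ha, rfl⟩ ⟨b, hb, rfl⟩
      refine ⟨a + b, ⟨?_, S.add_mem ha.2 hb.2⟩, by simp only [Prod.fst_add, Prod.snd_add]; module⟩
      simp only [Set.mem_ofPred_eq, Prod.fst_add, map_add]
      rw [ha.1, hb.1]
    · rintro _ ⟨a, ha, rfl⟩
      refine ⟨-a, ⟨?_, S.neg_mem ha.2⟩, by simp only [Prod.fst_neg, Prod.snd_neg]; module⟩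
      simp only [Set.mem_ofPred_eq, Prod.fst_neg, map_neg]
      rw [ha.1]
    · rintro _ ⟨a, ha, rfl⟩
      exact U.add_mem (U.smul_mem _ hv) (s1 _ ha.2).1
    · change Set.ncard (_ '' _) = _
      rw [Set.InjOn.ncard_image, Set.ncard_prod, ncard_fix, s2, pow_succ']
      intro a ha b hb e
      have e1 := congrArg (C.B v) e
      simp only [map_add, map_smul, h1, s4 _ ha.2, s4 _ hb.2, smul_eq_mul, mul_one, add_zero] at e1
      exact Prod.ext e1 (by simpa [e1] using e)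
    · rintro _ ⟨a, ha, rfl⟩ _ ⟨b, hb, rfl⟩
      simp only [map_add, map_smulₛₗ, LinearMap.add_apply, LinearMap.smul_apply, h1, s4 _ ha.2,
        s4 _ hb.2, Bsw (s4 _ ha.2), Bsw (s4 _ hb.2), s3 _ ha.2 _ hb.2, hs_eq, RingHom.id_apply,
        show frob hF a.1 = a.1 from ha.1, show frob hF b.1 = b.1 from hb.1, smul_eq_mul]
      ring

theorem heis (ha : HA.{u}) (H : Subgroup G) : HEIS C H := by
  intro un η Y hY
  have q3 := un.q3
  have n6 := un.n6
  obtain ⟨e, -, ie⟩ := ex_is (C := C) (U := ⊤) (by rw [finrank_top]; omega)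
  obtain ⟨e', ie', he⟩ := ex_par un.nd ie
  have he' := Bone he
  have ndW := nd_pp_ln un.nd ie.2 ie'.2 (he' ▸ one_ne_zero)
  have dW := fr_pp_ln un.nd (ind_of_ne ie.2 (he' ▸ one_ne_zero))
  obtain ⟨S, s1, s2, s3⟩ := ex_real un.nd _ _ ndW rfl
  have se : ∀ s ∈ S, C.B e s = 0 := fun s h => (mem_pp_ln.1 (s1 s h)).1
  have se' : ∀ s ∈ S, C.B e' s = 0 := fun s h => (mem_pp_ln.1 (s1 s h)).2
  let M : Submonoid G :=
    { carrier := {g | ∃ s ∈ S, ∃ c, Uu C g e s c}
      one_mem' := ⟨0, S.zero_mem, 0, uu_one⟩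
      mul_mem' := by
        rintro g k ⟨s, hs, c, h⟩ ⟨s', hs', c', h'⟩
        exact ⟨_, S.add_mem hs hs', _, uu_mul ie.2 (se s hs) (se s' hs') h h'⟩ }
  let M0 : Submonoid G :=
    { carrier := {g | ∃ c, Uu C g e 0 c}
      one_mem' := ⟨0, uu_one⟩
      mul_mem' := by
        rintro g k ⟨c, h⟩ ⟨c', h'⟩
        exact ⟨_, by simpa using uu_mul ie.2 (map_zero _) (map_zero _) h h'⟩ }
  have inv : ∀ N : Submonoid G, ∀ g ∈ N, g⁻¹ ∈ N := fun N g hg => by
    have : g⁻¹ = g ^ (orderOf g - 1) := by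
      rw [inv_eq_iff_mul_eq_one, ← pow_succ', Nat.sub_add_cancel (orderOf_pos g), pow_orderOf_eq_one]
    exact this ▸ N.pow_mem hg _
  let A : Subgroup G := { M with inv_mem' := inv M _ }
  let Z : Subgroup G := { M0 with inv_mem' := inv M0 _ }
  have cA : Nat.card A = q ^ (finrank F V - 1) := by
    have h1 := dcount {b : V × F | b.1 ∈ S ∧ b.2 + frob hF b.2 = C.B b.1 b.1} (A : Set G)
      (fun b g => Uu C g e b.1 b.2) (m := 1) (n := 1) (fun b hb => ?_) fun g hg => ?_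
    · rw [ncard_pairs _ S (m := q) (fun b hb => hb.1) fun s hs => by
        refine Eq.trans ?_ (ncard_trc (hF := hF) (c := C.B s s) (Bs s s)); congr 1; ext c
        exact ⟨fun h => h.2, fun h => ⟨hs, h⟩⟩, s2, mul_one, mul_one, ← pow_succ] at h1
      rw [show finrank F V - 1 = finrank F (C.perp (ln F e e')) + 1 by omega, h1]; rfl
    · obtain ⟨g, hg⟩ := ex_uu' un ie.2 (se _ hb.1) hb.2
      rw [Set.ncard_eq_one]
      exact ⟨g, Set.eq_singleton_iff_unique_mem.2 ⟨⟨⟨_, hb.1, _, hg⟩, hg⟩,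
        fun k hk => uu_ext un hk.2 hg⟩⟩
    · obtain ⟨s, hs, c, h⟩ := hg
      rw [Set.ncard_eq_one]
      refine ⟨(s, c), Set.eq_singleton_iff_unique_mem.2 ⟨⟨⟨hs, uu_trc un ie (se s hs) h⟩, h⟩, ?_⟩⟩
      rintro ⟨s', c'⟩ ⟨⟨hs', -⟩, h'⟩
      have e1 := (h' e').symm.trans (h e')
      simp only [he', Bsw (se' s hs), Bsw (se' s' hs'), one_smul, zero_smul, sub_zero, mul_one] at e1
      have e2 := congrArg (C.B e') e1
      simp only [map_add, map_sub, map_smul, se' s hs, se' s' hs', he, smul_eq_mul, mul_one,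
        sub_right_inj] at e2
      exact Prod.ext (by simpa [e2] using e1) e2
  refine (ha G H A Z (TS C G) η Y (fun t ht t' ht' => un.ts_isConj ht ht')
    (fun g h => ⟨0, S.zero_mem, h⟩) ?_ ?_ ?_ ?_ hY).elim fun m hm => ?_
  rotate_right
  · have hT : ((TS C G).card : ℂ) = (q - 1) * Np q (finrank F V) := by exact_mod_cast card_TS un
    rw [hT, cA, Nat.cast_pow] at hm
    refine ⟨⟨m, hm⟩, fun j c hj hc e => ?_⟩
    obtain ⟨i, hi⟩ : ∃ i, finrank F V - 1 = j + i + 1 := ⟨finrank F V - 2 - j, by omega⟩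
    have q1 : (q : ℂ) - 1 ≠ 0 := sub_ne_zero.2 (by exact_mod_cast (by omega : q ≠ 1))
    have q0 : (q : ℂ) ^ j ≠ 0 := pow_ne_zero _ (by exact_mod_cast (by omega : q ≠ 0))
    have h1 : (c : ℂ) * finrank ℂ Y = q * (Np q (finrank F V) * q ^ i * m) := by
      refine mul_left_cancel₀ (mul_ne_zero q1 q0) ?_
      rw [← mul_assoc, ← e, hm, hi]; ring
    have h2 : c * (finrank ℂ Y : ℤ) = q * (Np q (finrank F V) * q ^ i * m) := by exact_mod_cast h1
    exact Int.natCast_dvd_natCast.1 (hc.symm.dvd_of_dvd_mul_left ⟨_, h2⟩)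
  · obtain ⟨a, a0, h⟩ := ex_th (hF := hF)
    obtain ⟨g, hg⟩ := ex_tr' un ie.2 h
    refine fun e0 => a0 ?_
    have : g ∈ Z := ⟨-a, uu_tr.2 (by rwa [neg_neg])⟩
    rw [e0, Subgroup.mem_bot] at this
    simpa [this, he', ie.1] using hg e'
  · rintro g ⟨s, hs, c, h⟩ k ⟨s', hs', c', h'⟩
    refine uu_ext un (uu_mul ie.2 (se s hs) (se s' hs') h h') ?_
    rw [add_comm s, add_comm c, s3 s hs s' hs']
    exact uu_mul ie.2 (se s' hs') (se s hs) h' h
  · rintro z ⟨c, h⟩ z1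
    refine mem_TS.2 ⟨e, -c, ie, fun c0 => z1 (uu_ext (x := e) un ?_ uu_one), uu_tr.1 h⟩
    rwa [neg_eq_zero.1 c0] at h
  · rintro g ⟨s, hs, c, h⟩ hZ z ⟨a, hz⟩
    obtain ⟨γ, hγ⟩ := ex_trc (hF := hF) (map_one _)
    obtain ⟨s', hs', h1⟩ := ndW.exists_eq (s1 s hs) (fun s0 => hZ ⟨c, s0 ▸ h⟩) (-a * γ)
    have e1 := (mem_pp_ln.1 hs').1
    obtain ⟨c', hc'⟩ := ex_trc (Bs (C := C) s' s')
    obtain ⟨k, hk⟩ := ex_uu' un ie.2 e1 hc'
    have e2 := uu_trc un ie (map_zero _) hz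
    refine isConj_iff.2 ⟨k, mul_inv_eq_of_eq_mul (uu_ext un (uu_mul ie.2 e1 (se s hs) hk h) ?_)⟩
    have := uu_mul ie.2 (by simpa using se s hs) e1 (uu_mul ie.2 (se s hs) (map_zero _) h hz) hk
    simp only [add_zero, map_zero] at this e2
    convert this using 1
    · exact add_comm _ _
    · rw [← Bs s s', h1, map_mul, map_neg]
      linear_combination a * hγ - frob hF γ * e2

end H25.RU
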