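/-
Centralizer `2^{1+4}_-.S₄`, part 1: computations in the model.
-/
import Cfsg.Agent.H25.AG0

set_option autoImplicit false
set_option synthInstance.maxSize 2000

namespace H25.AG
variable {p : Fin 4}

def lY : List (K p) := [k 2, k 4, k 8, k 16]
def lH : List (K p) := [k 32, k 64, k 96, (k 2 : K p)] ++ lT
def xa (p : Fin 4) : K p := k (32 + 24 * (p.1 % 2))
abbrev pA (i : K p) : Prop := pT i ∧ i * k 160 = k 160 * i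
abbrev pB (i : K p) : Prop := pT i ∧ i * k 166 = k 166 * i

theorem f_nz : ∀ p, ∀ i : K p, i = 1 ∨ i = k 1 ∨ ∃ g ∈ lY, co i g = k 1 ∨ ∃ g' ∈ lY, co (co i g) g' = k 1 := by
  decide +kernel
theorem f_cE : ∀ p, ∀ i : K p, (∀ g ∈ lY, i * g = g * i) → i = 1 ∨ i = k 1 := by decide +kernel
theorem f_n : ∀ p, ∀ i : K p, pT i → ∀ g ∈ lH, pT (g * i * g⁻¹) ∧ (pU i → pU (g * i * g⁻¹)) := by decide +kernel
theorem f_U : ∀ p, ∀ u : K p, pU u → (u = 1 ∨ u = k 1 ∨ u = k 30 ∨ u = k 1 * k 30) ∧ pT u ∧ u * u = 1 ∧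
    (u ≠ 1 → u ≠ k 1 → ∀ v, pU v → v = 1 ∨ v = k 1 ∨ v = u ∨ v = k 1 * u) := by decide +kernel
theorem f_T : ∀ p, ∀ i : K p, pT i → pM i ∧ pU (i * i) ∧ pS i := by decide +kernel
theorem f_Tc : ∀ p, ∀ i : K p, pM i → pT i ∨ ∃ j ∈ [k 128, k 34, k 66], pM j ∧ ¬ pU (co i j * co i j) := by
  decide +kernel
theorem f_S : ∀ p, ∀ i : K p, (pE i ∨ pE (k 2 * i)) ∧ (pM i ∨ pM (k 2 * i)) ∧ (pQ i → pS i ∧ (pT i ∨ pT (k 2 * i))) ∧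
    (pS i → pQ (i * i) ∧ (pT i ∨ pT (k 2 * i) ∨ pT (k 32 * i) ∨ pT (k 40 * i))) := by decide +kernel
theorem f_c : ∀ p, (k 128 : K p) * k 32 * (k 128)⁻¹ = k 64 ∧ (k 224 : K p) * k 64 * (k 224)⁻¹ = k 96 ∧
    (k 128 : K p) * k 40 * (k 128)⁻¹ = k 66 ∧ (k 224 : K p) * k 66 * (k 224)⁻¹ = k 98 ∧
    (k 128 : K p) * k 128 * (k 128 * k 128) * (k 128 * k 128) = 1 ∧ (1 : K p) * 1 = 1 ∧ (k 1 : K p) ≠ 1 ∧
    (k 1 : K p) * k 1 = 1 := by decide +kernel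
theorem f_N : ∀ p, pT (k 6 : K p) ∧ pT (k 10 : K p) ∧ (k 6 : K p) * k 6 = k 1 ∧ (k 10 : K p) * k 10 = k 1 ∧
    (k 6 : K p) * k 10 * (k 6 * k 10) = k 1 ∧ pU (k 1 : K p) ∧ pU (k 30 : K p) ∧ ∀ g ∈ lY, pS (g : K p) := by
  decide +kernel
theorem f_I : ∀ p, (k 2 : K p) * k 2 = 1 ∧ ¬ pU (k 2 : K p) ∧ pS (k 2 : K p) ∧ pS (k 12 : K p) ∧ pS (k 20 : K p) ∧
    (k 12 : K p) * k 2 = k 2 * k 12 ∧ (k 20 : K p) * k 2 = k 2 * k 20 ∧ (k 12 : K p) * k 12 = k 1 ∧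
    (k 20 : K p) * k 20 = k 1 ∧ (k 12 : K p) * k 20 * (k 12 * k 20) = k 1 ∧ ¬ pM (k 2 : K p) := by decide +kernel
theorem f_a : ∀ p, xa p * xa p = 1 ∧ pT (k 32 * xa p) ∧ pS (xa p) ∧ ¬ pM (xa p) ∧ k 24 * xa p = xa p * k 24 ∧
    (k 24 : K p) * k 24 = k 1 ∧ pT (k 24 : K p) ∧ cnt (fun i => pE i ∧ i * xa p = xa p * i) = 16 := by decide +kernel
theorem f_A : ∀ p, ∀ w : K p, pT w → w * w = 1 → ¬ pU w → cnt (fun i => pT i ∧ i * w = w * i) = 16 ∧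
    ∀ i, pT i → i * w = w * i → i * i = 1 := by decide +kernel
theorem f_x : ∀ p, (((k 40 : K p) * k 40 = k 1 ∧ ∀ i : K p, pS i → i * i = 1 → pM i → pT i) ∨ (k 40 : K p) * k 40 = 1) ∧
    pM (k 40 : K p) ∧ ¬ pT (k 40 : K p) ∧ pS (k 40 : K p) ∧ cnt (fun i : K p => i * k 40 = k 40 * i ∧ pM i) = 8 ∧
    ∀ v ∈ [(k 30 : K p), k 1 * k 30], ∃ t ∈ [k 170, k 172], pT t ∧ t * k 40 * t⁻¹ = k 40 * v := by decide +kernel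
theorem f_q : ∀ p, ∀ q : K p, q * q = 1 → pS q → ¬ pT q → pM q → ∀ i, i * q = q * i → pM i →
    pU i ∨ ¬ pT i ∧ pU (q * i) := by decide +kernel
theorem f_syl : ∀ p, ∀ i : K p, pT i ∨ (∃ j ∈ [1, k 128, (k 128)⁻¹], pS (j * i * j⁻¹) ∧ ¬ pT (j * i * j⁻¹)) ∨
    (i * i * (i * i) ≠ 1 ∧ i * i * (i * i) * (i * i * (i * i)) * (i * i * (i * i)) = 1) := by decide +kernel
theorem f_b : ∀ p : Fin 4, p.1 < 2 ∨ (∀ i : K p, pT i → i * i = 1 → pU i) ∧ ∀ w ∈ [(k 30 : K p), k 1 * k 30],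
    cnt (fun i => pT i ∧ i * i = w) < cnt (fun i : K p => pT i ∧ i * i = k 1) := by decide +kernel
theorem f_cnt : ∀ p, cnt (fun _ : K p => True) = 768 ∧ cnt (pS (p := p)) = 256 ∧ cnt (pQ (p := p)) = 128 ∧
    cnt (pT (p := p)) = 64 ∧ cnt (pU (p := p)) = 4 ∧ cnt (fun i : K p => pS i ∧ pM i) = 128 := by decide +kernel
theorem f_AB1 : ∀ p : Fin 4, p.1 < 2 → ∀ i : K p, pT i → (pA i → i * i = 1 ∧ pB (k 2 * i * (k 2)⁻¹)) ∧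
    (pB i → i * i = 1 ∧ pA (k 2 * i * (k 2)⁻¹)) ∧ (pA i ∧ pB i ↔ pU i) := by decide +kernel
theorem f_AB2 : ∀ p : Fin 4, p.1 < 2 → ∀ i : K p, pA i → ∀ j, pB j →
    pA (j * i * j⁻¹) ∧ pB (i * j * i⁻¹) ∧ (i * j = j * i → pB i ∨ pA j) := by decide +kernel
theorem f_AB3 : ∀ p : Fin 4, p.1 < 2 → ∀ u : K p, pU u → (∀ j, pB j → ¬ pA j → ∃ i, pA i ∧ co i j = u) ∧
    ∀ i, pA i → ¬ pB i → ∃ j, pB j ∧ co i j = u := by decide +kernel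
theorem f_AB4 : ∀ p : Fin 4, p.1 < 2 → (∀ t ∈ lT, ∃ i : K p, pA i ∧ pB (i * t)) ∧ cnt (pA (p := p)) = 16 ∧
    cnt (pB (p := p)) = 16 ∧ pT (k 160 : K p) ∧ pT (k 166 : K p) ∧ (k 160 : K p) * k 166 ≠ k 166 * k 160 := by
  decide +kernel

end H25.AG
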