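/-
Centralizer `2^{1+4}_-.S₄`, part 1b: quaternion subgroups in the model.
-/
import Cfsg.Agent.H25.AG0

set_option autoImplicit false

namespace H25.AG

theorem f_Z : ∀ p, ∀ i : K p, i * i ≠ 1 → i * i * (i * i) = 1 → ¬ pU (i * i) → ∀ j, j * j = i * i →
    i * j * (i * j) ≠ i * i := by decide +kernel
theorem f_B : ∀ p, ∀ x : K p, x * x = 1 → pM x → ¬ pU x → ∀ i, i * i ≠ 1 → i * i * (i * i) = 1 → i * x = x * i →
    ∀ j, j * j = i * i → j * x = x * j → i * j * (i * j) ≠ i * i := by decide +kernel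

end H25.AG
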