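/-
Centralizer `2^{1+4}_-.S₄`, part 2: local lemmas.
-/
import Cfsg.Agent.H25.AG1
import Cfsg.Agent.H25.AG1b
import Cfsg.Agent.H28.ExtTr
import Cfsg.Agent.H3.Transfer

set_option autoImplicit false
set_option linter.unusedSectionVars false

namespace H25.AG
open Cfsg Subgroup H19

universe u
variable {G : Type u} [Group G] [Finite G] {p : Fin 4} {Φ : K p → G} {P P' : K p → Prop} {l : List (K p)}
  {i j : K p} {g r r' u v w x : G} {L R : Subgroup G}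

structure KS (Φ : K p → G) : Prop where
  mul : ∀ i j, Φ (i * j) = Φ i * Φ j
  inj : Function.Injective Φ
  ex : ∀ {g}, g ∈ C[Φ (k 1)] ↔ ∃ i, Φ i = g

def sb (Φ : K p → G) (l : List (K p)) : Subgroup G := closure {x | ∃ g ∈ l, Φ g = x}
abbrev sU (Φ : K p → G) : Subgroup G := sb Φ [k 30, k 1]
abbrev sT (Φ : K p → G) : Subgroup G := sb Φ lT
abbrev sQ (Φ : K p → G) : Subgroup G := sb Φ (lT ++ [k 2])
abbrev sS (Φ : K p → G) : Subgroup G := sb Φ (lT ++ [k 2, k 32])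

set_option hygiene false in
local notation:max "⟪" n "⟫" => Φ (k n)

theorem cjc (e : x * w = w * x) (g : G) : g * x * g⁻¹ * (g * w * g⁻¹) = g * w * g⁻¹ * (g * x * g⁻¹) := by
  rw [conj_mul, conj_mul, e]

namespace KS
variable (h : KS Φ)
include h

theorem one : Φ 1 = 1 := by
  have := h.mul 1 1
  rw [(f_c p).2.2.2.2.2.1] at this
  exact left_eq_mul.1 this
theorem inv (i : K p) : Φ i⁻¹ = (Φ i)⁻¹ := eq_inv_of_mul_eq_one_right (by rw [← h.mul, f_inv, h.one])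
theorem iff : Φ i = Φ j ↔ i = j := h.inj.eq_iff
theorem one' : Φ i = 1 ↔ i = 1 := by rw [← h.one, h.iff]
theorem mH (i : K p) : Φ i ∈ C[⟪1⟫] := h.ex.2 ⟨i, rfl⟩
theorem cm : Φ i * Φ j = Φ j * Φ i ↔ i * j = j * i := by rw [← h.mul, ← h.mul, h.iff]
theorem sq : Φ i * Φ i = Φ j ↔ i * i = j := by rw [← h.mul, h.iff]
theorem sq1 : Φ i * Φ i = 1 ↔ i * i = 1 := by rw [← h.mul, h.one']
theorem cj (i j : K p) : Φ (i * j * i⁻¹) = Φ i * Φ j * (Φ i)⁻¹ := by rw [h.mul, h.mul, h.inv]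
theorem z1 : ⟪1⟫ ≠ 1 := mt h.one'.1 (f_c p).2.2.2.2.2.2.1
theorem zz : ⟪1⟫ * ⟪1⟫ = 1 := h.sq1.2 (f_c p).2.2.2.2.2.2.2

theorem desc (d : Ds P l) (hR : ∀ g ∈ l, Φ g ∈ R) : P i → Φ i ∈ R := by
  induction e : i.1 using Nat.strong_induction_on generalizing i with | _ n ih => ?_
  intro hi
  rcases d i hi with rfl | ⟨g, hg, a, b⟩
  · rw [h.one]; exact one_mem _
  · have := ih _ (e ▸ b) rfl a
    rwa [h.mul, mul_mem_cancel_right (hR g hg)] at this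
theorem msb (d : Gn P l) : x ∈ sb Φ l ↔ ∃ i, P i ∧ Φ i = x := by
  refine ⟨fun hx => ?_, fun ⟨i, a, e⟩ => e ▸ h.desc d.2.1 (fun g hg => subset_closure ⟨g, hg, rfl⟩) a⟩
  induction hx using closure_induction_right with
  | one => exact ⟨1, d.1, h.one⟩
  | mul_right x _ y hy ih =>
    obtain ⟨i, a, rfl⟩ := ih
    obtain ⟨g, hg, rfl⟩ := hy
    exact ⟨_, (d.2.2 i a g hg).1, h.mul _ _⟩
  | mul_inv_cancel x _ y hy ih =>
    obtain ⟨i, a, rfl⟩ := ih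
    obtain ⟨g, hg, rfl⟩ := hy
    exact ⟨_, (d.2.2 i a g hg).2, by rw [h.mul, h.inv]⟩
theorem msb' (d : Gn P l) : Φ i ∈ sb Φ l ↔ P i :=
  (h.msb d).trans ⟨fun ⟨_, a, e⟩ => h.inj e ▸ a, fun a => ⟨i, a, rfl⟩⟩
theorem mU : Φ i ∈ sU Φ ↔ pU i := h.msb' (g_U p)
theorem mT : Φ i ∈ sT Φ ↔ pT i := h.msb' (g_T p)
theorem mQ : Φ i ∈ sQ Φ ↔ pQ i := h.msb' (g_Q p)
theorem mS : Φ i ∈ sS Φ ↔ pS i := h.msb' (g_S p)
theorem sbH : sb Φ l ≤ C[⟪1⟫] := (closure_le _).2 fun _ ⟨g, _, e⟩ => e ▸ h.mH g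
theorem gen (hR : ∀ g ∈ lH, Φ g ∈ R) : C[⟪1⟫] ≤ R := fun _ hx =>
  let ⟨_, e⟩ := h.ex.1 hx; e ▸ h.desc (g_H p) hR trivial

theorem nc [DecidablePred P] : (Φ '' {i | P i}).ncard = cnt P := by
  rw [cnt_eq, Set.ncard_image_of_injective _ h.inj]
theorem card_le [DecidablePred P] (l : R ≤ C[⟪1⟫]) (e : ∀ i, Φ i ∈ R → P i) : #R ≤ cnt P :=
  (Set.ncard_le_ncard (s := R) (t := Φ '' {i | P i}) fun _ hx =>
    let ⟨i, a⟩ := h.ex.1 (l hx); ⟨i, e i (a ▸ hx), a⟩).trans h.nc.le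
theorem le_card [DecidablePred P] (e : ∀ i, P i → Φ i ∈ R) : cnt P ≤ #R :=
  h.nc.ge.trans (Set.ncard_le_ncard (s := Φ '' {i | P i}) (t := R) fun _ ⟨i, a, b⟩ => b ▸ e i a)
theorem card_eq [DecidablePred P] (l : R ≤ C[⟪1⟫]) (e : ∀ i, Φ i ∈ R ↔ P i) : #R = cnt P :=
  (h.card_le l fun i => (e i).1).antisymm (h.le_card fun i => (e i).2)
theorem cH : #C[⟪1⟫] = 768 := (h.card_eq le_rfl fun i => iff_true_intro (h.mH i)).trans (f_cnt p).1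
theorem cS : #(sS Φ) = 256 := (h.card_eq h.sbH fun _ => h.mS).trans (f_cnt p).2.1
theorem cQ : #(sQ Φ) = 128 := (h.card_eq h.sbH fun _ => h.mQ).trans (f_cnt p).2.2.1
theorem cT : #(sT Φ) = 64 := (h.card_eq h.sbH fun _ => h.mT).trans (f_cnt p).2.2.2.1
theorem cU : #(sU Φ) = 4 := (h.card_eq h.sbH fun _ => h.mU).trans (f_cnt p).2.2.2.2.1

theorem le_of (a : R ≤ C[⟪1⟫]) (e : ∀ i, Φ i ∈ R → Φ i ∈ L) : R ≤ L := fun _ hx =>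
  let ⟨i, b⟩ := h.ex.1 (a hx); b ▸ e i (b ▸ hx)
theorem nrm (a : R ≤ C[⟪1⟫]) (e : ∀ j, Φ j ∈ R → Φ (i * j * i⁻¹) ∈ L) : H19.cj (Φ i) R ≤ L := fun _ hx => by
  obtain ⟨y, hy, rfl⟩ := mem_cj'.1 hx
  obtain ⟨j, rfl⟩ := h.ex.1 (a hy)
  exact h.cj i j ▸ e j hy
theorem UT : sU Φ ≤ sT Φ := h.le_of h.sbH fun i a => h.mT.2 (f_U p i (h.mU.1 a)).2.1
theorem TS : sT Φ ≤ sS Φ := h.le_of h.sbH fun i a => h.mS.2 (f_T p i (h.mT.1 a)).2.2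
theorem TQ : sT Φ ≤ sQ Φ := h.le_of h.sbH fun _ a => h.mQ.2 (h.mT.1 a).1
theorem QS : sQ Φ ≤ sS Φ := h.le_of h.sbH fun i a => h.mS.2 ((f_S p i).2.2.1 (h.mQ.1 a)).1
theorem nT : C[⟪1⟫] ≤ N(sT Φ) := h.gen fun g hg => mem_norm_of_cj_le (h.nrm h.sbH fun j a =>
  h.mT.2 (f_n p j (h.mT.1 a) g hg).1)
theorem nU : C[⟪1⟫] ≤ N(sU Φ) := h.gen fun g hg => mem_norm_of_cj_le (h.nrm h.sbH fun j a =>
  h.mU.2 ((f_n p j (h.mT.1 (h.UT a)) g hg).2 (h.mU.1 a)))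
theorem zU : ⟪1⟫ ∈ sU Φ := h.mU.2 (f_N p).2.2.2.2.2.1
theorem yU : ⟪30⟫ ∈ sU Φ := h.mU.2 (f_N p).2.2.2.2.2.2.1
theorem CU : C(sU Φ) ≤ C[⟪1⟫] := fun _ hx => mem_cent1.2 (mem_cent.1 hx _ h.zU).symm
theorem mM : Φ i ∈ C(sU Φ) ↔ pM i := ⟨fun a => h.cm.1 (mem_cent.1 a _ h.yU).symm, fun a => le_cent1_iff.1
  ((closure_le _).2 fun _ ⟨g, hg, e⟩ => by
    simp only [List.mem_cons, List.not_mem_nil, or_false] at hg
    rcases hg with rfl | rfl <;> rw [← e]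
    exacts [mem_cent1.2 (h.cm.2 a).symm, mem_cent1_symm.1 (h.mH i)])⟩
theorem TM : sT Φ ≤ C(sU Φ) := h.le_of h.sbH fun i a => h.mM.2 (f_T p i (h.mT.1 a)).1
theorem sqT (a : x ∈ sT Φ) : x * x ∈ sU Φ := by
  obtain ⟨i, rfl⟩ := h.ex.1 (h.sbH a)
  exact h.mul i i ▸ h.mU.2 (f_T p i (h.mT.1 a)).2.1
theorem exU (a : u ∈ sU Φ) : u = 1 ∨ u = ⟪1⟫ ∨ u = ⟪30⟫ ∨ u = ⟪1⟫ * ⟪30⟫ := by
  obtain ⟨i, rfl⟩ := h.ex.1 (h.sbH a)
  simpa only [← h.iff, h.mul, h.one] using (f_U p i (h.mU.1 a)).1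
theorem uu (a : u ∈ sU Φ) : u * u = 1 := by
  obtain ⟨i, rfl⟩ := h.ex.1 (h.sbH a)
  exact h.sq1.2 (f_U p i (h.mU.1 a)).2.2.1

theorem nz (hn : C[⟪1⟫] ≤ N(R)) (a : x ∈ R) (b : x ∈ C[⟪1⟫]) (x1 : x ≠ 1) : ⟪1⟫ ∈ R := by
  have c : ∀ {i} g, Φ i ∈ R → Φ (co i g) ∈ R := fun {i} g a => by
    rw [h.mul, h.cj, h.inv, mul_assoc, mul_assoc, ← mul_assoc (Φ g)]
    exact mul_mem a (conj_mem_of_norm (hn (h.mH g)) (inv_mem a))
  obtain ⟨i, rfl⟩ := h.ex.1 b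
  rcases f_nz p i with rfl | rfl | ⟨g, -, e | ⟨g', -, e⟩⟩
  exacts [(x1 h.one).elim, a, e ▸ c g a, e ▸ c g' (c g a)]

theorem pgS : PG 2 (sS Φ) := PiN.of_card_pow Nat.prime_two (k := 8) h.cS
theorem sylS : Syl 2 (sS Φ) ⊤ := by
  have := card_mul_relIndex (h.sbH (l := lT ++ [k 2, k 32]))
  rw [h.cS, h.cH] at this
  refine (syl_mk h.sbH h.pgS (by omega)).syl_of_norm_le le_top fun g hg => mem_cent1.2 ?_
  have a := conj_mem_of_norm hg.2 (h.TS (h.UT h.zU))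
  obtain ⟨i, e⟩ := h.ex.1 (h.sbH a)
  rcases f_cE p i fun j hj => h.cm.1 (by
    have := mem_cent1.1 (h.sbH (conj_mem_of_norm' hg.2 (h.mS.2 ((f_N p).2.2.2.2.2.2.2 j hj))))
    simpa [e, mul_assoc] using (cjc this g).symm) with rfl | rfl
  · exact (h.z1 (by simpa [h.one] using e.symm)).elim
  · exact mul_inv_eq_iff_eq_mul.1 e.symm

theorem lemZ (a : r ∈ C[⟪1⟫]) (b : r' ∈ C[⟪1⟫]) (e1 : r * r = w) (e2 : r' * r' = w) (e3 : r * r' * (r * r') = w)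
    (w1 : w ≠ 1) (ww : w * w = 1) : w ∈ sU Φ := by
  obtain ⟨i, rfl⟩ := h.ex.1 a
  obtain ⟨j, rfl⟩ := h.ex.1 b
  subst e1
  simp only [ne_eq, ← h.mul, h.iff, h.one', h.mU] at *
  exact by_contra fun c => f_Z p i w1 ww c j e2 e3

theorem clB (a : r ∈ C[⟪1⟫]) (b : r' ∈ C[⟪1⟫]) (e1 : r * r = w) (e2 : r' * r' = w) (e3 : r * r' * (r * r') = w)
    (w1 : w ≠ 1) (ww : w * w = 1) (c : x ∈ C(sU Φ)) (xx : x * x = 1) (c1 : r * x = x * r) (c2 : r' * x = x * r') :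
    x ∈ sU Φ := by
  obtain ⟨i, rfl⟩ := h.ex.1 a
  obtain ⟨j, rfl⟩ := h.ex.1 b
  obtain ⟨m, rfl⟩ := h.ex.1 (h.CU c)
  subst e1
  simp only [ne_eq, ← h.mul, h.iff, h.one', h.mU, h.mM] at *
  exact by_contra fun d => f_B p m xx c d i w1 ww c1 j e2 c2 e3

theorem lemN (a : u ∈ sU Φ) (e : g * u * g⁻¹ = ⟪1⟫) : g ∈ N(sU Φ) := by
  by_cases uz : u = ⟪1⟫
  · exact h.nU (mem_cent1.2 (mul_inv_eq_iff_eq_mul.1 (uz ▸ e)))
  obtain ⟨t1, t2, s1, s2, s3, -⟩ := f_N p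
  have c : ∀ {i}, pT i → g * Φ i * g⁻¹ ∈ C[⟪1⟫] := fun b =>
    e ▸ mem_cent1.2 (cjc (mem_cent.1 (h.TM (h.mT.2 b)) _ a).symm g)
  have k1 := h.lemZ (w := g * ⟪1⟫ * g⁻¹) (c t1) (c t2) (by rw [conj_mul, h.sq.2 s1]) (by rw [conj_mul, h.sq.2 s2])
    (by rw [conj_mul, conj_mul, ← h.mul, h.sq.2 s3]) (by simpa using h.z1) (by simp [conj_mul, h.zz])
  obtain ⟨i, rfl⟩ := h.ex.1 (h.sbH a)
  refine mem_norm_of_cj_le fun _ hx => ?_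
  obtain ⟨v, b, rfl⟩ := mem_cj'.1 hx
  obtain ⟨j, rfl⟩ := h.ex.1 (h.sbH b)
  rcases (f_U p i (h.mU.1 a)).2.2.2 (fun c => h.z1 (by simp [← e, c, h.one])) (mt h.iff.2 uz) j (h.mU.1 b) with
    rfl | rfl | rfl | rfl
  · simp [h.one]
  · exact k1
  · exact e ▸ h.zU
  · rw [h.mul, ← conj_mul, e]; exact mul_mem k1 h.zU

theorem nrT (hg : g ∈ N(sU Φ)) (a : x ∈ sT Φ) : g * x * g⁻¹ ∈ sT Φ := by
  have n := norm_le_norm_cent _ hg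
  have b := conj_mem_of_norm n (h.TM a)
  obtain ⟨i, e⟩ := h.ex.1 (h.CU b)
  rcases f_Tc p i (h.mM.1 (e ▸ b)) with c | ⟨j, -, c, d⟩
  · exact e ▸ h.mT.2 c
  have := h.nT (h.CU (conj_mem_of_norm' n (h.mM.2 c)))
  have := conj_mem_of_norm hg (h.sqT (mul_mem a (conj_mem_of_norm this (inv_mem a))))
  refine (d (h.mU.1 ?_)).elim
  simpa [h.mul, h.inv, e, mul_assoc] using this

theorem TL : sT Φ ≤ pResidual 2 G := by
  have r : ⟪128⟫ * ⟪128⟫ ∈ pResidual 2 G := H3.mem_pResidual (Nat.Coprime.coprime_dvd_left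
    (orderOf_dvd_of_pow_eq_one (n := 3) (by
      simpa only [h.mul, h.one, pow_three', mul_assoc] using congrArg Φ (f_c p).2.2.2.2.1)) (by decide))
  have n : ∀ g, g ∈ N(pResidual 2 G) := fun g => le_normalizer_of_normal (mem_top g)
  have c : ∀ i, Φ (co i (k 128 * k 128)) ∈ pResidual 2 G := fun i => by
    rw [h.mul, h.cj, h.inv, h.mul]
    exact mul_mem (conj_mem_of_norm (n _) r) (inv_mem r)
  have z := h.nz (fun g _ => n g) r (mul_mem (h.mH _) (h.mH _)) (mt h.sq1.1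
    ((by decide +kernel : ∀ p, (k 128 : K p) * k 128 ≠ 1) p))
  refine h.le_of h.sbH fun i a => h.desc (g_r p) (fun g hg => ?_) (h.mT.1 a)
  simp only [List.mem_cons, List.not_mem_nil, or_false] at hg
  rcases hg with rfl | rfl | rfl | rfl | rfl | rfl
  exacts [c _, c _, h.mul _ _ ▸ mul_mem (c _) (c _), c _, c _, z]

end KS
end H25.AG
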