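/-
Centralizer `2^{1+4}_-.S₄`, part 3: transfer.
-/
import Cfsg.Agent.H25.AG2

set_option autoImplicit false
set_option linter.unusedSectionVars false

namespace H25.AG
open Cfsg Subgroup H19

universe u
variable {G : Type u} [Group G] [Finite G] {p : Fin 4} {Φ : K p → G} {P P' : K p → Prop} {l : List (K p)}
  {i j : K p} {g n r r' u v w x : G} {L R : Subgroup G}

set_option hygiene false in
local notation:max "⟪" n "⟫" => Φ (k n)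
set_option hygiene false in
local notation "𝐋" => pResidual 2 G

theorem comm2 (a : x * x = 1) (b : w * w = 1) (c : x * w * (x * w) = 1) : x * w = w * x := by
  rw [← inv_eq_of_mul_eq_one_right c, mul_inv_rev, inv_eq_of_mul_eq_one_right a, inv_eq_of_mul_eq_one_right b]
theorem cL (g : G) (a : x ∈ 𝐋) : g * x * g⁻¹ ∈ 𝐋 := Normal.conj_mem inferInstance x a g
theorem cL' (g : G) (a : x ∈ 𝐋) : g⁻¹ * x * g ∈ 𝐋 := Normal.conj_mem' inferInstance x a g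

namespace KS
variable (h : KS Φ)
include h

theorem th (xx : x * x = 1) (a : x ∈ 𝐋) (e : R.relIndex (sS Φ) = 2) (b : x ∈ sS Φ) :
    ∃ g, H19.cj g (sS Φ ⊓ C[x]) ≤ sS Φ ∧ g * x * g⁻¹ ∈ R :=
  H28.extremal_thompson_two ⟨le_top, h.pgS.isPGroup, fun _ hR h1 h2 =>
    h.sylS.max h1 h2 (PiN.of_isPGroup Nat.prime_two hR)⟩ e ((pow_two x).trans xx) a
    (h.pgS.infl _).isPGroup inf_le_right ⟨b, mem_cent1.2 rfl⟩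
theorem idxQ : (sQ Φ).relIndex (sS Φ) = 2 := by
  have := card_mul_relIndex h.QS
  rw [h.cS, h.cQ] at this
  omega
theorem idxM : (sS Φ ⊓ C(sU Φ)).relIndex (sS Φ) = 2 := by
  have := card_mul_relIndex (inf_le_left : sS Φ ⊓ C(sU Φ) ≤ _)
  rw [h.cS, h.card_eq (inf_le_left.trans h.sbH) fun _ => and_congr h.mS h.mM, (f_cnt p).2.2.2.2.2] at this
  omega
theorem lemN' (a : g * ⟪1⟫ * g⁻¹ ∈ sU Φ) : g⁻¹ ∈ N(sU Φ) := h.lemN a (by group)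
theorem zL : ⟪1⟫ ∈ 𝐋 := h.TL (h.UT h.zU)
theorem w1 (g : G) : g * ⟪1⟫ * g⁻¹ ≠ 1 := by simpa using h.z1
theorem ww (g : G) : g * ⟪1⟫ * g⁻¹ * (g * ⟪1⟫ * g⁻¹) = 1 := by simp [conj_mul, h.zz]

theorem y0L : ⟪2⟫ ∉ 𝐋 := fun a => by
  obtain ⟨e0, u, s0, s1, s2, c1, c2, e1, e2, e3, -⟩ := f_I p
  obtain ⟨g, l, b⟩ := h.th (h.sq1.2 e0) a h.idxM (h.mS.2 s0)
  have m : ∀ {i}, pS i → i * k 2 = k 2 * i → g * Φ i * g⁻¹ ∈ C[⟪1⟫] := fun s c =>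
    h.sbH (l (conj_mem_cj.2 ⟨h.mS.2 s, mem_cent1.2 (h.cm.2 c)⟩))
  have q1 := (conj_mul (b := g)).trans (congrArg (g * · * g⁻¹) (h.sq.2 e1))
  have q2 := (conj_mul (b := g)).trans (congrArg (g * · * g⁻¹) (h.sq.2 e2))
  have q3 : g * ⟪12⟫ * g⁻¹ * (g * ⟪20⟫ * g⁻¹) * (g * ⟪12⟫ * g⁻¹ * (g * ⟪20⟫ * g⁻¹)) = g * ⟪1⟫ * g⁻¹ := by
    rw [conj_mul, conj_mul, ← h.mul, h.sq.2 e3]
  have k1 := h.lemZ (m s1 c1) (m s2 c2) q1 q2 q3 (h.w1 g) (h.ww g)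
  have k2 := h.clB (m s1 c1) (m s2 c2) q1 q2 q3 (h.w1 g) (h.ww g) b.2 (by simp [conj_mul, h.sq1.2 e0])
    (cjc (h.cm.2 c1) g) (cjc (h.cm.2 c2) g)
  exact u (h.mU.1 (by simpa [mul_assoc] using conj_mem_of_norm (h.lemN' k1) k2))

theorem y0L' (a : Φ i ∈ 𝐋) : Φ (k 2 * i) ∉ 𝐋 := fun b => h.y0L (by rwa [h.mul, mul_mem_cancel_right a] at b)

theorem QT (a : x ∈ sQ Φ) (b : x ∈ 𝐋) : x ∈ sT Φ := by
  obtain ⟨i, rfl⟩ := h.ex.1 (h.sbH a)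
  exact h.mT.2 (((f_S p i).2.2.1 (h.mQ.1 a)).2.resolve_right fun c => h.y0L' b (h.TL (h.mT.2 c)))

theorem out {a b c : K p} (d : Ds P ([a, b, c] ++ lT)) (e1 : k 128 * a * (k 128)⁻¹ = b) (e2 : k 224 * b * (k 224)⁻¹ = c)
    (m : Φ a ∈ 𝐋) (o : P i ∨ P (k 2 * i)) (t : Φ i ∈ 𝐋) : P i := o.resolve_right fun s => h.y0L' t (h.desc d (by
  have m1 := e1 ▸ h.cj _ _ ▸ cL ⟪128⟫ m
  have m2 := e2 ▸ h.cj _ _ ▸ cL ⟪224⟫ m1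
  simp only [List.mem_append, List.mem_cons, List.not_mem_nil, or_false]
  rintro g ((rfl | rfl | rfl) | hg)
  exacts [m, m1, m2, h.TL (subset_closure ⟨g, hg, rfl⟩)]) s)

theorem bigA (a : g * ⟪1⟫ * g⁻¹ ∈ sT Φ) (b : g * ⟪1⟫ * g⁻¹ ∉ sU Φ) (c : g * Φ i * g⁻¹ ∈ sT Φ) :
    ∃ A, A ≤ 𝐋 ⊓ C[⟪1⟫] ⊓ C[Φ i] ∧ 16 ≤ #A ∧ ∀ a ∈ A, a * a = 1 := by
  obtain ⟨j, e⟩ := h.ex.1 (h.sbH a)
  obtain ⟨c1, c2⟩ := f_A p j (h.mT.1 (e ▸ a)) (h.sq1.1 (e ▸ h.ww g)) (mt h.mU.2 (e ▸ b))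
  have s : ∀ a ∈ sT Φ ⊓ C[Φ j], a * a = 1 := fun a ha => by
    obtain ⟨m, rfl⟩ := h.ex.1 (h.sbH ha.1)
    exact h.sq1.2 (c2 m (h.mT.1 ha.1) (h.cm.1 (mem_cent1.1 ha.2)))
  have x : g * Φ i * g⁻¹ ∈ sT Φ ⊓ C[Φ j] := ⟨c, mem_cent1.2 (e ▸ cjc (mem_cent1.1 (h.mH i)) g)⟩
  refine ⟨H19.cj g⁻¹ (sT Φ ⊓ C[Φ j]), fun a ha => ?_, ?_, fun a ha => ?_⟩
  · rw [mem_cj_inv] at ha
    refine ⟨⟨by simpa [mul_assoc] using cL' g (h.TL ha.1), mem_cent1.2 ?_⟩, mem_cent1.2 ?_⟩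
    · simpa [e, conj_mul] using mem_cent1.1 ha.2
    · simpa [conj_mul] using comm2 (s _ ha) (s _ x) (s _ (mul_mem ha x))
  · rw [card_cj, ← c1]
    exact h.le_card fun m a => ⟨h.mT.2 a.1, mem_cent1.2 (h.cm.2 a.2)⟩
  · simpa [conj_mul] using s _ (mem_cj_inv.1 ha)

theorem aL : ⟪32⟫ ∉ 𝐋 := fun a => by
  obtain ⟨xx, t, s, m, c, q, t', n⟩ := f_a p
  have xL : Φ (xa p) ∈ 𝐋 := by
    have := h.TL (h.mT.2 t)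
    rwa [h.mul, mul_mem_cancel_left a] at this
  obtain ⟨g, l, b⟩ := h.th (h.sq1.2 xx) xL h.idxQ (h.mS.2 s)
  replace b := h.QT b (cL g xL)
  have r : ⟪24⟫ ∈ sT Φ := h.mT.2 t'
  have r1 := l (conj_mem_cj.2 ⟨h.TS r, mem_cent1.2 (h.cm.2 c)⟩)
  obtain ⟨j, e⟩ := h.ex.1 (h.sbH r1)
  have := h.mQ.2 ((f_S p j).2.2.2 (h.mS.1 (e ▸ r1))).1
  rw [h.mul, e, conj_mul, h.sq.2 q] at this
  replace this := h.QT this (cL g h.zL)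
  by_cases u : g * ⟪1⟫ * g⁻¹ ∈ sU Φ
  · exact m (h.mM.1 (by simpa [mul_assoc] using conj_mem_of_norm (norm_le_norm_cent _ (h.lemN' u)) (h.TM b)))
  obtain ⟨A, a1, a2, a3⟩ := h.bigA this u b
  rw [eq_of_le_of_card_ge a1 (le_trans (n ▸ h.card_le (inf_le_left.trans inf_le_right) fun i b =>
    ⟨h.out (g_E p) (f_c p).1 (f_c p).2.1 a (f_S p i).1 b.1.1, h.cm.1 (mem_cent1.1 b.2)⟩) a2)] at a3
  exact h.z1 (h.sq.2 q ▸ a3 _ ⟨⟨h.TL r, h.mH _⟩, mem_cent1.2 (h.cm.2 c)⟩)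

theorem swp (M : 𝐋 ⊓ C[⟪1⟫] ≤ C(sU Φ)) (a : n ∈ 𝐋) (b : u ∈ sU Φ) (c : v ∈ sU Φ) (u1 : u ≠ 1) (v1 : v ≠ 1) (uv : v ≠ u)
    (e1 : n * v * n⁻¹ = v * u) (e2 : n * u * n⁻¹ = u) : False := by
  have f : ∀ {m w}, m ∈ 𝐋 → MulAut.conj m ⟪1⟫ = ⟪1⟫ → w ∈ sU Φ → MulAut.conj m w = w := fun a b c =>
    mul_inv_eq_iff_eq_mul.2 (mem_cent.1 (M ⟨a, mem_cent1.2 (mul_inv_eq_iff_eq_mul.1 b)⟩) _ c).symm
  by_cases uz : u = ⟪1⟫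
  · exact u1 (left_eq_mul.1 ((f a (uz ▸ e2) c).symm.trans e1))
  have uu := h.uu b
  have zz := h.zz
  change MulAut.conj n v = _ at e1
  change MulAut.conj n u = _ at e2
  have e3 : MulAut.conj n ⟪1⟫ = ⟪1⟫ * u := by
    obtain ⟨i, rfl⟩ := h.ex.1 (h.sbH b)
    obtain ⟨j, rfl⟩ := h.ex.1 (h.sbH c)
    rcases (f_U p i (h.mU.1 b)).2.2.2 (mt h.one'.2 u1) (mt h.iff.2 uz) j (h.mU.1 c) with rfl | rfl | rfl | rfl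
    exacts [(v1 h.one).elim, e1, (uv rfl).elim, by rwa [h.mul, map_mul, e2, mul_left_inj] at e1]
  have e4 : MulAut.conj ⟪2⟫ ⟪1⟫ = ⟪1⟫ := mul_inv_eq_iff_eq_mul.2 (mem_cent1.1 (h.mH _))
  have e5 : MulAut.conj ⟪2⟫ ⟪30⟫ = ⟪1⟫ * ⟪30⟫ := by
    rw [MulAut.conj_apply, ← h.cj, ← h.mul, (by decide +kernel : ∀ p, (k 2 : K p) * k 30 * (k 2)⁻¹ = k 1 * k 30)]
  have e6 : MulAut.conj ⟪2⟫ u = ⟪1⟫ * u := by
    rcases ((h.exU b).resolve_left u1).resolve_left uz with rfl | rfl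
    exacts [e5, by rw [map_mul, e4, e5]]
  have m : n * (⟪2⟫ * n * ⟪2⟫) * n ∈ 𝐋 :=
    mul_mem (mul_mem a (by simpa [inv_eq_of_mul_eq_one_right (h.sq1.2 (f_I p).1)] using cL ⟪2⟫ a)) a
  have := f m (by
    simp only [map_mul (MulAut.conj : G →* _), MulAut.mul_apply]
    rw [e3, map_mul, e4, e6, ← mul_assoc, zz, one_mul, e2, e6, map_mul, e3, e2, mul_assoc, uu, mul_one]) b
  simp only [map_mul (MulAut.conj : G →* _), MulAut.mul_apply] at this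
  rw [e2, e6, map_mul, e3, e2, mul_assoc, uu, mul_one, e4, e3] at this
  exact h.z1 (mul_eq_right.1 this)

theorem xL : ⟪40⟫ ∉ 𝐋 := fun a => by
  obtain ⟨c, m, t, s, n, tt⟩ := f_x p
  have M : ∀ i, Φ i ∈ 𝐋 → pM i := fun i => h.out (g_M p) (f_c p).2.2.1 (f_c p).2.2.2.1 a (f_S p i).2.1
  have k0 : ∀ {g}, g * ⟪1⟫ * g⁻¹ ∈ sU Φ → g * ⟪40⟫ * g⁻¹ ∉ sT Φ := fun b c =>
    t (h.mT.1 (by simpa [mul_assoc] using h.nrT (h.lemN' b) c))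
  rcases c with ⟨xx, ni⟩ | xx
  · replace xx := h.sq.2 xx
    obtain ⟨M0, _, e, b⟩ := H3.thompson_transfer (u := ⟪40⟫)
      (Nat.not_even_iff_odd.1 (mt even_iff_two_dvd.1 (relIndex_top_right (sS Φ) ▸ h.sylS.not_dvd Nat.prime_two)))
      h.idxQ (fun g b => by
        have := h.QT b (cL' g a)
        exact k0 (g := g⁻¹) (by simpa [← xx, mul_assoc] using h.sqT this) (by simpa using this))
      (fun m g b => by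
        obtain ⟨i, e⟩ := h.ex.1 (h.sbH b)
        refine e ▸ h.TQ (h.mT.2 (ni i (h.mS.1 (e ▸ b)) (h.sq1.1 ?_) (M i (e ▸ cL' g (pow_mem a _)))))
        simp [e, mul_assoc, pow_mul, pow_two, xx, ← mul_assoc (⟪1⟫ ^ m), ← (Commute.refl ⟪1⟫).mul_pow, h.zz])
      ⟨2, by rw [show 2 ^ 2 = 2 * 2 from rfl, pow_mul, pow_two, pow_two, xx, h.zz]⟩
    exact b (H3.pResidual_le_of_index_dvd_pow (k := 1) e.dvd a)
  obtain ⟨g, l, b⟩ := h.th (h.sq1.2 xx) a h.idxQ (h.mS.2 s)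
  replace b := h.QT b (cL g a)
  have l' : ∀ {u}, u ∈ sU Φ → g * u * g⁻¹ ∈ sS Φ := fun c =>
    l (conj_mem_cj.2 ⟨h.TS (h.UT c), mem_cent1.2 (mem_cent.1 (h.mM.2 m) _ c)⟩)
  have qU := fun c => k0 c b
  by_cases qT : g * ⟪1⟫ * g⁻¹ ∈ sT Φ
  · obtain ⟨A, a1, a2, -⟩ := h.bigA qT qU b
    have : #A ≤ 8 := n ▸ h.card_le (a1.trans (inf_le_left.trans inf_le_right)) fun i b =>
      ⟨h.cm.1 (mem_cent1.1 (a1 b).2), M i (a1 b).1.1⟩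
    omega
  obtain ⟨q, eq⟩ := h.ex.1 (h.sbH (l' h.zU))
  have F := f_q p q (h.sq1.1 (eq ▸ h.ww g)) (h.mS.1 (eq ▸ l' h.zU)) (mt h.mT.2 (eq ▸ qT)) (M q (eq ▸ cL g h.zL))
  have F' : ∀ {j}, Φ j ∈ 𝐋 → g * Φ j * g⁻¹ ∈ C[⟪1⟫] → g * Φ j * g⁻¹ ∈ sU Φ ∨
      g * Φ j * g⁻¹ ∉ sT Φ ∧ g * (⟪1⟫ * Φ j) * g⁻¹ ∈ sU Φ := fun {j} a b => by
    obtain ⟨i, e⟩ := h.ex.1 b
    simpa only [← h.mU, ← h.mT, h.mul, e, eq, conj_mul] using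
      F i (h.cm.1 (e ▸ eq ▸ cjc (mem_cent1.1 (h.mH j)) g)) (M i (e ▸ cL g a))
  have xU := (F' a (h.sbH b)).resolve_right fun c => c.1 b
  have xU' : ⟪40⟫ ∉ sU Φ := fun c => t (h.mT.1 (h.UT c))
  obtain ⟨v, v1, v2, v3, v4⟩ : ∃ v ∈ [(k 30 : K p), k 1 * k 30], Φ v ∈ sU Φ ∧ v ≠ 1 ∧ g * Φ v * g⁻¹ ∈ sU Φ := by
    have d := (by decide +kernel : ∀ p, (k 30 : K p) ≠ 1 ∧ (k 1 : K p) * k 30 ≠ 1) p
    rcases F' (h.TL (h.UT h.yU)) (h.sbH (l' h.yU)) with c | c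
    exacts [⟨_, by simp, h.yU, d.1, c⟩, ⟨k 1 * k 30, by simp, h.mul _ _ ▸ mul_mem h.zU h.yU, d.2, h.mul _ _ ▸ c.2⟩]
  obtain ⟨t, -, t1, t2⟩ := tt v v1
  replace t2 := congrArg Φ t2
  rw [h.cj, h.mul] at t2
  refine h.swp (n := g * Φ t * g⁻¹) (h.le_of inf_le_right fun i b => h.mM.2 (M i b.1)) (cL g (h.TL (h.mT.2 t1))) v4 xU
    (by simpa [h.one'] using v3) (by simpa using fun c : ⟪40⟫ = 1 => xU' (c ▸ one_mem _))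
    (by simpa using fun c : ⟪40⟫ = Φ v => xU' (c ▸ v2))
    (by rw [conj_mul, conj_mul, ← t2]; group) ?_
  rw [conj_mul, ← mem_cent.1 (h.TM (h.mT.2 t1)) _ v2]; group

theorem ST (a : x ∈ sS Φ) (b : x ∈ 𝐋) : x ∈ sT Φ := by
  obtain ⟨i, rfl⟩ := h.ex.1 (h.sbH a)
  have k : ∀ {j}, pT (j * i) → Φ j ∈ 𝐋 := fun c => by
    have := h.TL (h.mT.2 c)
    rwa [h.mul, mul_mem_cancel_right b] at this
  rcases ((f_S p i).2.2.2 (h.mS.1 a)).2 with c | c | c | c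
  exacts [h.mT.2 c, (h.y0L (k c)).elim, (h.aL (k c)).elim, (h.xL (k c)).elim]

end KS
end H25.AG
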