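/-
Centralizer `2^{1+4}_-.S₄`, part 4: facts on `L₃(4)`.
-/
import Cfsg.Agent.H22.AutPSL2
import Cfsg.Agent.H11.SL
import Cfsg.Agent.H12.F4
import Cfsg.Agent.S0249

set_option autoImplicit false

namespace H25.AG
open Cfsg Subgroup
open scoped MatrixGroups

theorem autK {X : Type*} [Group X] [Finite X] [IsSimpleGroup X] (hX : ¬ IsMulCommutative X) (K : Subgroup (MulAut X))
    [K.Normal] (hK : ∀ x, MulAut.conj x ∈ K) : Nonempty (MulAut X ≃* MulAut K) := by
  have c0 : ∀ x : X, (∀ y, x * y = y * x) → x = 1 := fun x hx =>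
    mem_bot.1 (((center X).normal_of_characteristic.eq_bot_or_eq_top.resolve_right fun e => hX
      ⟨⟨fun a b => mem_center_iff.1 (e.ge (mem_top b)) a⟩⟩).le (mem_center_iff.2 fun y => (hx y).symm))
  have ci : Function.Injective (MulAut.conj : X →* MulAut X) := (injective_iff_map_eq_one _).2 fun x hx =>
    c0 x fun y => mul_inv_eq_iff_eq_mul.1 (DFunLike.congr_fun hx y)
  have cc : ∀ (a : MulAut X) x, a * MulAut.conj x * a⁻¹ = MulAut.conj (a x) := fun a x => by ext y; simp
  have c1 : ∀ a : MulAut X, (∀ x, a * MulAut.conj x * a⁻¹ = MulAut.conj x) → a = 1 := fun a h =>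
    MulEquiv.ext fun x => ci ((cc a x).symm.trans (h x))
  let ι : X →* K := MulAut.conj.codRestrict K hK
  have ιi : Function.Injective ι := fun a b e => ci (congrArg Subtype.val e)
  have n : ι.range.Normal := ⟨by rintro _ ⟨x, rfl⟩ a; exact ⟨a.1 x, Subtype.ext (cc a x).symm⟩⟩
  refine ⟨MulEquiv.ofBijective MulAut.conjNormal ⟨(injective_iff_map_eq_one _).2 fun a ha => c1 a fun x =>
    congrArg Subtype.val (DFunLike.congr_fun ha (ι x)), fun φ => ?_⟩⟩
  have r : ∀ φ : MulAut K, ∀ x, ∃ y, ι y = φ (ι x) := fun φ x => by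
    have n' : (ι.range.comap φ.toMonoidHom).Normal := n.comap _
    rcases (n'.comap ι).eq_bot_or_eq_top with e | e
    · refine (hX ⟨⟨fun a b => ?_⟩⟩).elim
      have : ∀ y, φ.symm (ι a) * ι y * (φ.symm (ι a))⁻¹ = ι y := fun y => by
        obtain ⟨w, hw⟩ := mul_mem (n.conj_mem _ ⟨y, rfl⟩ (φ.symm (ι a))) (inv_mem ⟨y, rfl⟩)
        have k : φ.symm (ι a) ∈ ι.range.comap φ.toMonoidHom := ⟨a, by simp⟩
        have : w ∈ (ι.range.comap φ.toMonoidHom).comap ι := by
          rw [mem_comap, hw, mul_assoc, mul_assoc, ← mul_assoc (ι y)]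
          exact mul_mem k (n'.conj_mem _ (inv_mem k) _)
        rw [mem_bot.1 (e.le this), map_one] at hw
        exact mul_inv_eq_one.1 hw.symm
      have : φ.symm (ι a) = 1 := Subtype.ext (c1 _ fun y => congrArg Subtype.val (this y))
      rw [ιi ((φ.symm.map_eq_one_iff.1 this).trans (map_one ι).symm), one_mul, mul_one]
    · exact e.ge (mem_top x)
  choose f hf using r φ
  let α : X →* X := MonoidHom.mk' f fun a b => ιi (by simp [hf])
  have αi : Function.Injective α := fun a b e => ιi (φ.injective ((hf a).symm.trans ((congrArg ι e).trans (hf b))))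
  let β := MulEquiv.ofBijective α (Finite.injective_iff_bijective.1 αi)
  refine ⟨β, MulEquiv.ext fun a => Subtype.ext (eq_of_inv_mul_eq_one (c1 _ fun x => ?_))⟩
  obtain ⟨x, rfl⟩ := β.surjective x
  have e1 := congrArg Subtype.val (hf (a.1 x))
  rw [show ι (a.1 x) = a * ι x * a⁻¹ from Subtype.ext (cc a x).symm, map_mul, map_mul, map_inv, ← hf] at e1
  have e2 : (MulAut.conjNormal β a).1 * MulAut.conj (β x) * (MulAut.conjNormal β a).1⁻¹ = MulAut.conj (β (a.1 x)) := by
    rw [cc]; simp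
  change MulAut.conj (β (a.1 x)) = (φ a).1 * MulAut.conj (β x) * (φ a).1⁻¹ at e1
  rw [mul_inv_rev, inv_inv, mul_assoc, mul_assoc, ← mul_assoc (MulAut.conj _), ← mul_assoc (φ a).1, ← mul_assoc (φ a).1,
    ← e1, ← e2]
  group

variable {F : Type*} [Field F] [Fintype F]

theorem card_sl34 (hF : Fintype.card F = 4) : Nat.card SL(3, F) = 60480 := by
  have h2 := H11.card_units_mul_card_sl (ι := Fin 3) (F := F)
  have h3 : ∏ i : Fin (Fintype.card (Fin 3)), (4 ^ Fintype.card (Fin 3) - 4 ^ (i : ℕ)) = 181440 := by decide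
  rw [H11.card_gl, hF, h3] at h2
  omega

theorem card_l34 (hF : Fintype.card F = 4) : Nat.card PSL(3, F) = 20160 := by
  have h1 := H11.card_psl (ι := Fin 3) (F := F)
  rw [card_sl34 hF, hF] at h1
  norm_num at h1
  omega

theorem card_a34 (hF : Fintype.card F = 4) : Nat.card (MulAut PSL(3, F)) = 241920 := by
  rw [H22.card_aut_psl_three (by simp), H22.card_ringAut (p := 2) (f := 2) hF, H11.card_pgl_eq_card_sl, card_sl34 hF]

theorem key6 : ∀ s t : H12.F4, ∃ n ∈ [3, 4, 5, 21], (H12.pw3 s t 1 n).1 = 0 ∧ (H12.pw3 s t 1 n).2.1 = 0 := by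
  decide +kernel

theorem no6 (hF : Fintype.card F = 4) (g : PSL(3, F)) : orderOf g ≠ 6 := by
  obtain ⟨e⟩ := H12.exists_equiv_F4 hF
  obtain ⟨g, rfl⟩ := QuotientGroup.mk_surjective g
  obtain ⟨s, hs⟩ := e.surjective g.1.trace
  obtain ⟨t, ht⟩ := e.surjective g.1.adjugate.trace
  have h := H12.pow_eq_pw3 e.toRingHom s t 1 g.1 (by rw [H12.cayley_three, g.det_coe, ← hs, ← ht]; simp)
  intro h6
  obtain ⟨n, hn, h3, h4⟩ := key6 s t
  refine (by decide : ∀ n ∈ [3, 4, 5, 21], ¬ 6 ∣ n) n hn ?_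
  rw [← h6, orderOf_dvd_iff_pow_eq_one, ← QuotientGroup.mk_pow, QuotientGroup.eq_one_iff, mem_center_iff]
  intro k
  refine Subtype.ext ?_
  simp only [Matrix.SpecialLinearGroup.coe_mul, Matrix.SpecialLinearGroup.coe_pow, h n, h3, h4]
  simp

theorem aut_pgl (hF : Fintype.card F = 4) :
    Nonempty (MulAut PSL(3, F) ≃* MulAut (GL (Fin 3) F ⧸ center (GL (Fin 3) F))) := by
  have := Cfsg.Agent.S0249.result (F := F) 3 le_rfl
  have := H22.inndiagPSL_normal (F := F) (n := 3) (by norm_num)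
  obtain ⟨e⟩ := autK (X := PSL(3, F)) (fun h => by
    letI : CommGroup PSL(3, F) := { mul_comm := h.1.1 }
    have := IsSimpleGroup.prime_card (α := PSL(3, F))
    rw [card_l34 hF] at this
    norm_num at this) (inndiagPSL 3 F)
    fun x => H22.inn_le_inndiagPSL ⟨x, rfl⟩
  let j := (H22.thSL (Fin 3) F).comp SemidirectProduct.inl
  have k : center _ = j.ker := by
    ext g
    rw [Matrix.GeneralLinearGroup.center_eq_range_scalar]
    exact ((H22.thSL_inl_eq_one (by simp)).trans (exists_congr fun _ => eq_comm)).symm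
  exact ⟨e.trans (MulAut.congr ((MulEquiv.subgroupCongr H22.inndiagPSL_eq).trans
    ((QuotientGroup.quotientMulEquivOfEq k).trans (QuotientGroup.quotientKerEquivRange j)).symm))⟩

end H25.AG
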