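/-
Centralizer `2^{1+4}_-.S₄`, part 6: coordinates for the extraspecial group.
-/
import Cfsg.Agent.H25.SR9
import Cfsg.Agent.H0.ES3

set_option autoImplicit false
set_option linter.unusedSectionVars false

namespace H25.AG
open Cfsg Subgroup H19 H25.SR H24.E8
open scoped commutatorElement

universe u
variable {X : Type u} [Group X] [Finite X] {Q A : Subgroup X} {t : X} {p q r s u v x : Q}

noncomputable def bq (x y : Q) : ZMod 2 := H0.lg ⁅x.1, y.1⁆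
noncomputable def qq (x : Q) : ZMod 2 := H0.lg (x.1 * x.1)

theorem bq0 : bq u v = 0 ↔ u.1 * v = v * u := H0.lg_eq_zero.trans commutatorElement_eq_one_iff_mul_comm
theorem qq0 : qq u = 0 ↔ u.1 * u = 1 := H0.lg_eq_zero
theorem bq_self (u : Q) : bq u u = 0 := bq0.2 rfl
theorem z11 : (1 : ZMod 2) + 1 = 0 := rfl
theorem zne {a : ZMod 2} : a ≠ 0 ↔ a = 1 := by revert a; decide

structure SB (t : X) (p q r s : Q) : Prop where
  pq : bq p q = 1
  rs : bq r s = 1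
  pr : bq p r = 0
  ps : bq p s = 0
  qr : bq q r = 0
  qs : bq q s = 0
  gen : ∀ x : Q, bq x p = 0 → bq x q = 0 → bq x r = 0 → bq x s = 0 → x.1 ∈ zpowers t

section
variable (h : H0.ES Q t)
include h

theorem bq_symm (u v : Q) : bq u v = bq v u := congrArg H0.lg (h.comm_symm v.2 u.2)
theorem bq_l (u v x : Q) : bq (u * v) x = bq u x + bq v x := by
  simp only [bq, coe_mul, h.comm_mul u.2 v.2 x.2, h.lg_mul (h.comm_mem u.2 x.2) (h.comm_mem v.2 x.2)]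
theorem bq_r (u v x : Q) : bq x (u * v) = bq x u + bq x v := by rw [bq_symm h, bq_l h, bq_symm h u, bq_symm h v]
theorem qq_mul (u v : Q) : qq (u * v) = qq u + qq v + bq u v := by
  simp only [qq, coe_mul, h.sq_mul u.2 v.2, h.lg_mul (mul_mem (h.sq_mem u.2) (h.sq_mem v.2)) (h.comm_mem v.2 u.2),
    h.lg_mul (h.sq_mem u.2) (h.sq_mem v.2), ← h.comm_symm u.2 v.2, bq]
theorem bq_z (a : u.1 ∈ zpowers t) (v : Q) : bq u v = 0 := bq0.2 (h.zp_comm a v.2).symm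

theorem half (l : A ≤ Q) (a : u.1 ∈ A) (b : bq u v = 1) : #A = 2 * #(A ⊓ C[v.1] : Subgroup X) := by
  rw [← card_inf_mul_relIndex C[v.1] A, inf_comm, mul_comm 2]
  congr 1
  exact relIndex_eq_two_iff_exists_notMem_and.2 ⟨u, a, fun c => by
    simp [bq0.2 (mem_cent1.1 c)] at b, fun x hx => (em _).symm.imp_left fun c => mem_cent1.2 ((bq0 (u := ⟨x, l hx⟩ * u)).1
      (by rw [bq_l h, b, zne.1 (mt (bq0 (u := ⟨x, l hx⟩)).1 (mt mem_cent1.2 c))]; rfl))⟩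

theorem exists_SB (c : #Q = 32) : ∃ p q r s : Q, SB t p q r s := by
  obtain ⟨p, hp, q, hq, e⟩ := h.nonab
  lift p to Q using hp
  lift q to Q using hq
  replace e := zne.1 (mt bq0.1 e)
  have e' := bq_symm h p q ▸ e
  have c1 := half h le_rfl q.2 e'
  have c2 := half h (A := Q ⊓ C[p.1]) inf_le_left ⟨p.2, mem_cent1.2 rfl⟩ e
  obtain ⟨r, ⟨⟨hr, r1⟩, r2⟩, r3⟩ := ex_out (K := zpowers t) (Q := Q ⊓ C[p.1] ⊓ C[q.1]) (by rw [h.card_zp]; omega)
  lift r to Q using hr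
  replace r1 := bq0.2 (mem_cent1.1 r1)
  replace r2 := bq0.2 (mem_cent1.1 r2)
  obtain ⟨w, hw, e1⟩ := h.exists_not_comm r.2 r3
  lift w to Q using hw
  replace e1 := zne.1 (mt bq0.1 e1)
  obtain ⟨s, s1, s2, s3⟩ : ∃ s : Q, bq p s = 0 ∧ bq q s = 0 ∧ bq r s = 1 := by
    rcases H0.zmod2_cases (bq p w) with a | a <;> rcases H0.zmod2_cases (bq q w) with b | b
    exacts [⟨w, a, b, e1⟩, ⟨w * p, by simp [bq_r h, bq_self, z11, *]⟩, ⟨w * q, by simp [bq_r h, bq_self, z11, *]⟩,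
      ⟨w * p * q, by simp [bq_r h, bq_self, z11, *]⟩]
  have m : ∀ {x y : Q}, bq x y = 0 → x.1 ∈ C[y.1] := fun a => mem_cent1.2 (bq0.1 a)
  have c3 := half h (A := Q ⊓ C[p.1] ⊓ C[q.1]) (inf_le_left.trans inf_le_left)
    ⟨⟨s.2, m (bq_symm h _ _ ▸ s1)⟩, m (bq_symm h _ _ ▸ s2)⟩ (bq_symm h _ _ ▸ s3)
  have c4 := half h (A := Q ⊓ C[p.1] ⊓ C[q.1] ⊓ C[r.1]) (inf_le_left.trans (inf_le_left.trans inf_le_left))
    ⟨⟨⟨r.2, m r1⟩, m r2⟩, m (bq_self r)⟩ s3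
  have z : ∀ y : Q, t ∈ C[y.1] := fun y => mem_cent1.2 (h.cent _ y.2).symm
  refine ⟨p, q, r, s, e, s3, bq_symm h _ _ ▸ r1, s1, bq_symm h _ _ ▸ r2, s2, fun x a b c d =>
    (eq_of_le_of_card_ge (K := Q ⊓ C[p.1] ⊓ C[q.1] ⊓ C[r.1] ⊓ C[s.1]) (zpowers_le.2 ⟨⟨⟨⟨h.zQ, z p⟩, z q⟩, z r⟩, z s⟩)
      (by rw [h.card_zp]; omega)).ge ⟨⟨⟨⟨x.2, m a⟩, m b⟩, m c⟩, m d⟩⟩

theorem SB.ex (b : SB t p q r s) : SB t r s p q :=
  ⟨b.rs, b.pq, bq_symm h _ _ ▸ b.pr, bq_symm h _ _ ▸ b.qr, bq_symm h _ _ ▸ b.ps, bq_symm h _ _ ▸ b.qs,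
    fun x h1 h2 h3 h4 => b.gen x h3 h4 h1 h2⟩

theorem SB.nrm (b : SB t p q r s) : ∃ u v, SB t u v r s ∧ qq u = qq v := by
  have k : ∀ {p q : Q}, SB t p q r s → qq p = 0 → qq q = 1 → ∃ u v, SB t u v r s ∧ qq u = qq v := fun {p q} b h1 h2 =>
    ⟨p, p * q, ⟨by simp [bq_r h, bq_self, b.pq], b.rs, b.pr, b.ps, by simp [bq_l h, b.pr, b.qr],
      by simp [bq_l h, b.ps, b.qs], fun x h1 h2 => b.gen x h1 (by simpa [bq_r h, h1] using h2)⟩,
      by simp [qq_mul h, h1, h2, b.pq, z11]⟩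
  rcases H0.zmod2_cases (qq p) with a | a <;> rcases H0.zmod2_cases (qq q) with c | c
  exacts [⟨p, q, b, a.trans c.symm⟩, k b a c, k ⟨bq_symm h _ _ ▸ b.pq, b.rs, b.qr, b.qs, b.pr, b.ps,
    fun x h1 h2 => b.gen x h2 h1⟩ c a, ⟨p, q, b, a.trans c.symm⟩]

theorem no8 (m : ¬ H0.HasEA Q 3) (a : qq u = 0) (b : qq v = 0) (c : bq u v = 0) (d : bq u p = 1) (e : bq v q = 1)
    (f : bq u q = 0) : False := by
  have z := abelem_zpowers ((sq _).trans (qq0.1 a))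
  have := h.card_le_of_not m (A := zpowers u.1 ⊔ zpowers v.1 ⊔ zpowers t)
    (sup_le (sup_le (zpowers_le.2 u.2) (zpowers_le.2 v.2)) h.zp_le) (h.abelem_sup
      (sup_le (zpowers_le.2 u.2) (zpowers_le.2 v.2)) (abelem_sup z (abelem_zpowers ((sq _).trans (qq0.1 b)))
        (cent_zpowers v.1 ▸ zpowers_le.2 (mem_cent1.2 (bq0.1 c)))))
  have h1 := two_mul_le' (le_sup_right : zpowers t ≤ zpowers u.1 ⊔ zpowers t) (mem_sup_left (mem_zpowers _))
    fun k => by simp [bq_z h k] at d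
  have h2 := two_mul_le' (sup_le_sup_right le_sup_left _ : zpowers u.1 ⊔ zpowers t ≤ zpowers u.1 ⊔ zpowers v.1 ⊔ _)
    (mem_sup_left (mem_sup_right (mem_zpowers _))) fun k => by
      simp [bq0.2 (mem_cent1.1 ((sup_le (zpowers_le.2 (mem_cent1.2 (bq0.1 f)))
        (zpowers_le.2 (mem_cent1.2 (h.cent _ q.2).symm)) : _ ≤ C[q.1]) k))] at e
  rw [h.card_zp] at h1
  omega

theorem exists_E0 [Q.Normal] (cen : ∀ g, g * t = t * g) (c : #Q = 32) (m : ¬ H0.HasEA Q 3) : ∃ y, E0 Q t y := by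
  have k : ∀ {p q r s : Q}, SB t p q r s → qq p = 0 → qq q = 0 → qq r = 1 → qq s = 1 → ∃ y, E0 Q t y :=
    fun {p q r s} ⟨b1, b2, b3, b4, b5, b6, gen⟩ a1 a2 a3 a4 => by
      have c1 := bq_symm h p q ▸ b1
      have c2 := bq_symm h r s ▸ b2
      have c3 := bq_symm h p r ▸ b3
      have c4 := bq_symm h p s ▸ b4
      have c5 := bq_symm h q r ▸ b5
      have c6 := bq_symm h q s ▸ b6
      let y : Fin 5 → Q := ![p, q, p * q * r, p * q * s, p * q * (r * s)]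
      refine ⟨fun i => y i, h, cen, ‹_›, fun i => (y i).2, fun i => qq0.1 ?_, fun i j k => mt bq0.2 (zne.2 ?_),
        gen (y 0 * y 1 * y 2 * y 3 * y 4) ?_ ?_ ?_ ?_, fun x hx k => ?_⟩
      · fin_cases i <;> simp [y, qq_mul h, bq_l h, bq_r h, z11, *]
      · fin_cases i <;> fin_cases j <;> simp [y, bq_l h, bq_r h, bq_self, z11, *] at k ⊢
      iterate 4 simp [y, bq_l h, bq_self, z11, *]
      lift x to Q using hx
      have k0 : bq x p = 0 := bq0.2 (k 0)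
      have k1 : bq x q = 0 := bq0.2 (k 1)
      exact gen x k0 k1 (by simpa [y, bq_r h, k0, k1] using bq0.2 (k 2)) (by simpa [y, bq_r h, k0, k1] using bq0.2 (k 3))
  obtain ⟨p, q, r, s, b⟩ := exists_SB h c
  obtain ⟨p, q, b, e⟩ := b.nrm h
  obtain ⟨r, s, b, e'⟩ := (b.ex h).nrm h
  rcases H0.zmod2_cases (qq q) with a | a <;> rcases H0.zmod2_cases (qq s) with d | d
  · exact (no8 h m (e'.trans d) (e.trans a) b.pr b.pq b.rs b.ps).elim
  · exact k (b.ex h) (e.trans a) a (e'.trans d) d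
  · exact k b (e'.trans d) d (e.trans a) a
  · obtain ⟨b1, b2, b3, b4, b5, b6, -⟩ := b
    have c5 := bq_symm h s p ▸ b5
    have c1 := bq_symm h r s ▸ b1
    have c3 := bq_symm h r p ▸ b3
    have c4 := bq_symm h r q ▸ b4
    exact (no8 h m (u := r * p) (v := s * q) (p := s) (q := r) (by simp [qq_mul h, z11, *]) (by simp [qq_mul h, z11, *])
      (by simp [bq_l h, bq_r h, z11, *]) (by simp [bq_l h, *]) (by simp [bq_l h, *]) (by simp [bq_l h, bq_self, *])).elim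

end
end H25.AG
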