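/-
Sylow normalizers and class sizes of `q`-elements.
-/
import Cfsg.Agent.H19.Amb3
import Cfsg.Agent.H1.PSolv
import Cfsg.Agent.S4602

set_option autoImplicit false
set_option linter.unusedSectionVars false

open Cfsg Subgroup
namespace H25.NW
open H19

theorem qsolv {p q : ℕ} [hp : Fact p.Prime] [hq : Fact q.Prime] (hpq : p ≠ q) (G : Type*) [Group G]
    [Finite G] (hs : IsPSolvable q G) :
    ∀ Q : Subgroup G, Syl q Q ⊤ → (∀ y ∈ Q, ¬ p ∣ (C[y]).index) → ¬ p ∣ (N(Q)).index := by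
  refine H1.isPSolvable_induction (p := q) (P := fun X _ _ => ∀ Q : Subgroup X, Syl q Q ⊤ →
    (∀ y ∈ Q, ¬ p ∣ (C[y]).index) → ¬ p ∣ (N(Q)).index) ?_ ?_ G hs
  · intro X _ _ hX Q _ _
    rw [Subsingleton.elim N(Q) ⊤, index_top]
    exact hp.out.not_dvd_one
  intro X _ _ M _ _ hM _ ih Q hQ h
  have hf := QuotientGroup.mk'_surjective M
  have i1 := ih (Q.map (QuotientGroup.mk' M)) (by
    have := hQ.map (QuotientGroup.mk' M)
    rwa [map_top_of_surjective _ hf] at this) (by
    rintro _ ⟨y, hy, rfl⟩ hd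
    rw [← index_comap_of_surjective _ hf] at hd
    refine h y hy (hd.trans (index_dvd_of_le fun x hx => ?_))
    rw [mem_comap, mem_cent1, ← map_mul, ← map_mul, mem_cent1.1 hx])
  rw [← index_comap_of_surjective _ hf, comap_normalizer_eq_of_surjective _ hf, comap_map_eq,
    QuotientGroup.ker_mk'] at i1
  have hn : ∀ A : Subgroup X, A ≤ N(M) := fun A => le_normalizer_of_normal
  have fr := (hQ.of_le le_sup_left le_top : Syl q Q (Q ⊔ M)).frattini (normalIn_norm _)
  have le1 : N(Q ⊔ M) ≤ M ⊔ N(Q) := by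
    rw [← fr]
    exact sup_le (sup_le (le_normalizer.trans le_sup_right) le_sup_left)
      (inf_le_right.trans le_sup_right)
  rw [← relIndex_mul_index (le_sup_right : N(Q) ≤ M ⊔ N(Q)), relIndex_sup_right_of_norm (hn _),
    hp.out.dvd_mul, not_or]
  refine ⟨?_, fun hd => i1 (hd.trans (index_dvd_of_le le1))⟩
  rcases hM with hM | hM
  · exact (((PiN.of_isPGroup hq.out hM).relIndex _).sing_ne hpq.symm).not_dvd hp.out rfl
  have hc : (#M).Coprime #Q := (PiN.of_coprime hM).coprime' hQ.pi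
  obtain ⟨R, hR, hRn⟩ := inv_syl_exists p (hn Q) hc (.inl hQ.pi.sol)
  refine hR.not_dvd_relIndex hp.out (le_trans (cents_symm fun y hy => le_cent1_iff.1 ?_)
    (cent_le_norm _))
  have h1 := inv_syl_inf_cent (hn (zpowers y)) (hc.coprime_dvd_right (card_dvd (zpowers_le.2 hy)))
    (.inl (sol_zpowers y)) hR ((zpowers_le.2 hy).trans hRn)
  rw [cent_zpowers] at h1
  have h2 := h1.of_idx inf_le_left (PiN.of_not_dvd fun hd => h y hy (by
    rw [inf_comm, inf_relIndex_right] at hd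
    rw [← relIndex_top_right]
    exact hd.trans (relIndex_dvd_of_norm' (hn _) le_top le_top)))
  exact inf_eq_left.1 (h2.eq_of_le hR inf_le_left)

theorem s4601 {G : Type*} [Group G] [Finite G] (p q : ℕ) [hp : Fact p.Prime] [hq : Fact q.Prime]
    (hs : IsPSolvable p G ∨ IsPSolvable q G)
    (h : ∀ y : G, (∃ k : ℕ, orderOf y = q ^ k) → ¬ p ∣ (C[y]).index) :
    ∃ (P : Sylow p G) (Q : Sylow q G), (P : Subgroup G) ≤ N((Q : Subgroup G)) := by
  obtain ⟨Q⟩ : Nonempty (Sylow q G) := inferInstance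
  by_cases hpq : p = q
  · subst hpq; exact ⟨Q, Q, le_normalizer⟩
  have hQ := syl_sylow_top Q
  have h' : ∀ y ∈ (Q : Subgroup G), ¬ p ∣ (C[y]).index := fun y hy =>
    h y ((hQ.pi.elt hy).exists_pow (orderOf_pos y).ne')
  have key : ∀ K : Subgroup G, ¬ p ∣ K.index → ∃ P : Sylow p G, (P : Subgroup G) ≤ K := by
    intro K hK
    obtain ⟨R, hR⟩ := exists_syl p K
    obtain ⟨P, rfl⟩ := (hR.of_idx le_top (PiN.of_not_dvd (by rwa [relIndex_top_right]))).exists_sylow_top
    exact ⟨P, hR.le⟩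
  rcases hs with hs | hs
  · refine (Cfsg.Agent.S4602.result p q hpq hs).2 fun hd => Q.not_dvd_index
      (hd.trans (index_dvd_of_le fun y hy => ?_))
    set M := pPrimeCore p G
    have hf := QuotientGroup.mk'_surjective M
    obtain ⟨P, hP⟩ := key _ (h' y hy)
    have hC := H1.centralizer_pCore_le_of_isPSolvable (H1.isPSolvable_quotient hs M)
      H1.pPrimeCore_quotient_pPrimeCore
    have hO : pCore p (G ⧸ M) ≤ (P : Subgroup G).map (QuotientGroup.mk' M) :=
      (H1.pCore_isPGroup).le_sylow_of_normal (P.mapSurjective hf)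
    have m : QuotientGroup.mk' M y ∈ pCore p (G ⧸ M) := hC (mem_cent.2 fun x hx => by
      obtain ⟨z, hz, rfl⟩ := hO hx
      rw [← map_mul, ← map_mul, mem_cent1.1 (hP hz)])
    rw [← QuotientGroup.eq_one_iff]
    exact ((PiN.of_isPGroup hp.out H1.pCore_isPGroup).elt m).e_eq_one
      ((((hQ.map (QuotientGroup.mk' M)).pi.elt (mem_map_of_mem _ hy))).sing_ne (Ne.symm hpq))
  · obtain ⟨P, hP⟩ := key _ (qsolv hpq G hs Q hQ h')
    exact ⟨P, Q, hP⟩

end H25.NW
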