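/-
Navarro–Wolf: groups whose `p'`-degree characters have `q'`-degree.
-/
import Cfsg.Agent.H6.McKay
import Cfsg.Agent.H6.Infl
import Cfsg.Agent.H5.Frobenius

set_option autoImplicit false
set_option linter.unusedSectionVars false

open Cfsg Subgroup
namespace H25.NW
open H20 H19 H6
open scoped Classical

universe u
variable {Γ : Type u} [Group Γ] [Finite Γ] {A G H K L M N P Q S : Subgroup Γ} {θ χ η : Γ → ℂ}
  {p q : ℕ}

theorem above (hH : H ≤ G) (hη : η ∈ Chr H) (hp : p.Prime) (h1 : ¬ p ∣ H.relIndex G)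
    (h2 : ¬ p ∣ deg η) : ∃ χ ∈ ovr G H η, ¬ p ∣ deg χ := by
  by_contra! h
  have e := congrFun (Ind_eq_sum_ovr hH (chr_zirr hη)) 1
  choose! m hm using fun χ (hχ : χ ∈ ovr G H η) =>
    exists_dot_nat (irr_chr (ovr_subset _ _ _ hχ)) hH hη
  have : H.relIndex G * deg η = ∑ χ ∈ ovr G H η, m χ * deg χ := by
    rw [Ind_one hH, chr_deg hη, Finset.sum_apply, Finset.sum_congr rfl fun χ hχ => by
      rw [Pi.smul_apply, hm χ hχ, irr_deg (ovr_subset _ _ _ hχ), smul_eq_mul]] at e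
    exact_mod_cast e
  exact (hp.dvd_mul.1 (this ▸ Finset.dvd_sum fun χ hχ => (h χ hχ).mul_left _)).elim h1 h2

theorem cent_le (hS : Sol S) (hA : A ≤ S) (hn : S ≤ N(K)) (hc : (#K).Coprime #S)
    (h : ∀ θ ∈ IrrI K A, CInv S θ) : K ⊓ C(A) ≤ C(S) := by
  have e : IrrI K A = IrrI K S := Finset.ext fun θ =>
    ⟨fun a => mem_IrrI.2 ⟨irrI_irr a, h θ a⟩, fun a => mem_IrrI.2 ⟨irrI_irr a, (irrI_cinv a).mono hA⟩⟩
  have c1 := card_IrrI (sol_mono hS hA) (hA.trans hn) (hc.coprime_dvd_right (card_dvd hA))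
  rw [e, card_IrrI hS hn hc, card_Irr_classes, card_Irr_classes] at c1
  have hD : K ⊓ C(S) ≤ K ⊓ C(A) := inf_le_inf_left _ (cent_mono hA)
  have inj : Function.Injective (ConjClasses.map (inclusion hD)) := by
    intro a b e
    obtain ⟨x, rfl⟩ := a.exists_rep
    obtain ⟨y, rfl⟩ := b.exists_rep
    obtain ⟨k, h4, h5⟩ := isConj_coe_iff.1 (ConjClasses.mk_eq_mk_iff_isConj.1 e)
    obtain ⟨c, h6, h7⟩ := exists_cent_conj hn hc (.inl hS) h4.1 x.2.2 (h5 ▸ y.2.2)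
    exact ConjClasses.mk_eq_mk_iff_isConj.2 (isConj_coe_iff.2 ⟨c, h6, h7.trans h5⟩)
  have surj := (inj.bijective_of_nat_card_le c1.ge).2
  have : (K ⊓ C(S)).subgroupOf (K ⊓ C(A)) = ⊤ := H5.eq_top_of_forall_conj_mem _ fun g => by
    obtain ⟨c, hc⟩ := surj (ConjClasses.mk g)
    obtain ⟨d, rfl⟩ := c.exists_rep
    obtain ⟨x, hx⟩ := isConj_iff.1 (ConjClasses.mk_eq_mk_iff_isConj.1 hc).symm
    exact ⟨x, hx ▸ d.2⟩
  exact (subgroupOf_eq_top.1 this).trans inf_le_right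

theorem psol_quo [Fact p.Prime] (h : IsPSolvable p G) (hn : G ≤ N(K)) : IsPSolvable p (quo K G) :=
  H1.isPSolvable_of_surjective h (imHom_surj _ hn)

theorem Oc_ne [hp : Fact p.Prime] (h : IsPSolvable p G) (h1 : G ≠ ⊥) :
    Oc {p} G ≠ ⊥ ∨ Oc {p}ᶜ G ≠ ⊥ := by
  have := (nontrivial_iff_ne_bot _).2 h1
  exact (H1.pCore_ne_bot_or_of_isPSolvable h).imp
    (fun e e' => e ((map_eq_bot_iff_of_injective _ (subtype_injective _)).1
      ((pCore_map_eq hp.out _).trans e')))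
    fun e e' => e ((map_eq_bot_iff_of_injective _ (subtype_injective _)).1
      ((pPrimeCore_map_eq hp.out _).trans e'))

/-- an invariant Sylow subgroup fixes an invariant function if the fixed points normalize `K Q` -/
theorem le_inertia' (hq : q.Prime) (hA : Sol A) (hn : A ≤ N(L)) (hc : (#L).Coprime #A)
    (hQ : Syl q Q L) (hQn : A ≤ N(Q)) (hi : CInv A θ) (h : ¬ q ∣ (H20.inertia L θ).relIndex L) :
    ∃ c ∈ L ⊓ C(A), cj c Q ≤ H20.inertia L θ := by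
  obtain ⟨R, h1, h2⟩ := inv_syl_exists q (norms_inertia hn hi)
    (hc.coprime_dvd_left (card_dvd (inertia_le _ _))) (.inl hA)
  obtain ⟨c, h3, h4⟩ := inv_syl_conj hn hc (.inl hA) hQ hQn
    (h1.of_idx (inertia_le _ _) (PiN.of_not_dvd h)) h2
  exact ⟨c, h3, h4 ▸ h1.le⟩

theorem cent_norm [hq : Fact q.Prime] (n : ℕ) : ∀ {Γ : Type u} [Group Γ] [Finite Γ]
    {L A Q : Subgroup Γ}, #L = n → IsPSolvable q L → Sol A → A ≤ N(L) → (#L).Coprime #A →
    (∀ χ ∈ IrrI L A, ¬ q ∣ deg χ) → Syl q Q L → A ≤ N(Q) → L ⊓ C(A) ≤ N(Q) := by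
  induction n using Nat.strong_induction_on with | _ n ih
  intro Γ _ _ L A Q e hs hA hn hc h hQ hQn
  by_cases h0 : L = ⊥
  · rw [h0, bot_inf_eq]; exact bot_le
  have key : ∀ π, Oc π L ≠ ⊥ → L ⊓ C(A) ≤ N(Oc π L ⊔ Q) := fun π h1 => by
    have hK := Oc_normal π L
    have hKA : A ≤ N(Oc π L) := norms_Oc π hn
    refine norms_of_quo (hK.norms inf_le_left) (hK.norms hQ.le) (le_trans (le_inf
      (quo_mono _ inf_le_left) (quo_cents inf_le_right)) (ih _ (e ▸ card_quo_lt hK h1) rfl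
      (psol_quo hs hK.norm) (sol_quo hA _) (quo_norms hn) (cop_quo hc _) (fun a ha => ?_)
      (hQ.quo hK.norm) (quo_norms hQn)))
    rw [← deg_infl]
    refine h _ (mem_IrrI.2 ⟨infl_irr hK (irrI_irr ha), H6.cinv_iff.2 fun g hg => ?_⟩)
    rw [cfj_infl (hKA hg), (irrI_cinv ha).cfj_eq (mem_im_of hg)]
  rcases Oc_ne hs h0 with h1 | h1
  · have := key _ h1
    rwa [sup_eq_right.2 (Oc_le_hall hQ)] at this
  have k := key _ h1
  set K := Oc {q}ᶜ L
  have hK : K ⊴ L := Oc_normal _ L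
  have hKA : A ≤ N(K) := norms_Oc _ hn
  have hp : PiG {q}ᶜ K := Oc_pi _ _
  have c1 : K ⊓ C(A) ≤ C(Q ⊔ A) := by
    refine cent_le (sol_sup hQ.pi.sol hA hQn) le_sup_right (sup_le (hK.norms hQ.le) hKA)
      (Nat.Coprime.coprime_dvd_right (card_sup_dvd hQn) ((hp.coprime' hQ.pi).mul_right
      (hc.coprime_dvd_left (card_dvd hK.le)))) fun θ hθ => cinv_sup ?_ (irrI_cinv hθ)
    obtain ⟨χ, h2, h3⟩ := exists_inv_above hA hK hn hKA hc hθ
    obtain ⟨c, h4, h5⟩ := le_inertia' hq.out hA hn hc hQ hQn (irrI_cinv hθ) fun d =>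
      h χ h2 ((d.mul_right _).trans (clifford_dvd hK (irrI_irr h2) (irrI_irr hθ) h3))
    refine (le_inertia_iff.1 (le_trans (le_sup_right (a := K)) ?_ : Q ≤ H20.inertia L θ)).2
    rw [← cj_of_mem_norm (k h4), cj_sup, hK.cj_eq h4.1]
    exact sup_le (H20.le_inertia (irr_cinv (irrI_irr hθ)) hK.le) h5
  intro c hcm
  have l1 : K ⊔ Q ≤ L := sup_le hK.le hQ.le
  have s1 : Syl q Q (K ⊔ Q) := hQ.of_le le_sup_right l1
  obtain ⟨d, h4, h5⟩ := inv_syl_conj (norms_sup hKA hQn) (hc.coprime_dvd_left (card_dvd l1)) (.inl hA)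
    s1 hQn (s1.Jnorm (k hcm)) (by
      rw [← cj_norm, ← cj_of_mem_cent hcm.2]; exact cj_mono _ hQn)
  rw [sup_inf_cent_of_disjoint hKA hQn (hK.norms hQ.le) (hp.inf_eq_bot' hQ.pi)] at h4
  rw [mem_norm_iff_cj, ← h5]
  exact cj_of_mem_norm (sup_le (c1.trans ((cent_mono le_sup_left).trans (cent_le_norm _)))
    (inf_le_left.trans le_normalizer) h4)

theorem comm_le_cker (hl : Lin N θ) (hn : Q ≤ N(N)) (hi : CInv Q θ) : ⁅N, Q⁆ ≤ cker θ :=
  commutator_le.2 fun x hx y hy => by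
    have m := conj_mem_of_norm (hn hy) (inv_mem hx)
    have e : x * y * x⁻¹ * y⁻¹ = x * (y * x⁻¹ * y⁻¹) := by group
    rw [commutatorElement_def, e, hl.mem_cker (mul_mem hx m), hl.map_mul hx m, hi y hy, ← hl.map_mul hx (inv_mem hx),
      mul_inv_cancel, hl.2]

theorem dg_compl {r : ℕ → Prop} (hn : M ≤ N(N)) (hi : N ⊓ M = ⊥) (h : Dg (N ⊔ M) N r) :
    Dg M ⊥ r := fun η hη _ => by
  have e : Res (N ⊓ M) (triv N) = triv (N ⊓ M) := Res_triv inf_le_left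
  obtain ⟨χ, h1, h2⟩ := (corr_Res hn (triv_mem_Irr N) (cinv_triv hn)
    (e ▸ triv_mem_Irr _)).surj η (by
      rw [e, mem_ovr_triv (inf_normal_of_norm hn), hi]; exact ⟨hη, bot_le⟩)
  rw [mem_ovr_triv (left_normal_sup hn)] at h1
  rw [← h2, deg_Res]
  exact h χ h1.1 h1.2

/-- the split case -/
theorem split (hp : p.Prime) [hq : Fact q.Prime] (hN : PG p N) (ha : Ab N) (hn : M ≤ N(N))
    (hi : N ⊓ M = ⊥) (hL : L ⊴ M) (hL' : PiG {p}ᶜ L) (hs : IsPSolvable q L)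
    (h : Dg (N ⊔ M) ⊥ fun d => ¬ p ∣ d → ¬ q ∣ d) :
    ∃ Q, Syl q Q L ∧ N ≤ C(Q) := by
  obtain ⟨P, hP⟩ := exists_syl p M
  have pL : P ≤ N(L) := hL.norms hP.le
  have pN : P ≤ N(N) := hP.le.trans hn
  have hc : (#L).Coprime #P := hL'.coprime' hP.pi
  obtain ⟨Q, hQ, pQ⟩ := inv_syl_exists q pL hc (.inl hP.pi.sol)
  have k : L ⊓ C(P) ≤ N(Q) := cent_norm _ rfl hs hP.pi.sol pL hc (fun θ hθ d => by
    have l : L ⊔ P ≤ M := sup_le hL.le hP.le
    obtain ⟨η, h1, h2⟩ := exists_ext_of_coprime (left_normal_sup pL) (irrI_irr hθ)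
      (cinv_sup (irr_cinv (irrI_irr hθ)) (irrI_cinv hθ))
      (by rw [relIndex_sup_of_norm pL]; exact hL'.coprime' (hP.pi.relIndex _))
    obtain ⟨χ, h3, h4⟩ := above l (irr_chr h1) hp (hP.not_dvd_relIndex hp le_sup_right) (by
      rw [← deg_Res L, h2]; exact (hL'.dvd (irr_deg_dvd (irrI_irr hθ))).not_dvd hp rfl)
    exact dg_compl hn hi (h.mono bot_le) χ (ovr_subset _ _ _ h3) bot_le h4 (d.trans
      (deg_dvd_of_ovr hL (irrI_irr hθ) (ovr_trans l le_sup_left (irrI_irr hθ) h3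
        (mem_ovr_of_Res h1 (irrI_irr hθ) h2))))) hQ pQ
  refine ⟨Q, hQ, by_contra fun hne => ?_⟩
  have qN : Q ≤ N(N) := hQ.le.trans (hL.le.trans hn)
  set U := N ⊓ C(Q)
  have pU : P ≤ N(U) := norms_inf pN (norms_cent pQ)
  have nU : N ≤ N(U) := norms_of_comm ha le_rfl inf_le_left
  have lW : U ⊔ ⁅N, P⁆ ≤ N := sup_le inf_le_left (commg_le_left pN)
  have hd : ⁅N ⊔ P, N ⊔ P⁆ ≤ U ⊔ ⁅N, P⁆ ⊔ P := by
    rw [der_sup pN, comm_iff_der.1 ha, bot_sup_eq]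
    exact sup_le_sup le_sup_right (der_le P)
  obtain ⟨η, hη⟩ := IrrK_nonempty (left_normal_sup pN)
    (normal_of_der_le hd (sup_le_sup_right lW _)) fun l => by
      replace l := inf_eq_right.2 l
      rw [sup_inf_modl (norms_sup pU (commg_normr N P)) lW,
        H19.eq_bot_mono (inf_le_inf_right N hP.le) (inf_comm M N ▸ hi), sup_bot_eq] at l
      have := (quo_le_quo_iff nU (norms_of_comm ha (commg_le_left pN) inf_le_left)).2 l.ge
      rw [quo_comm nU pU] at this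
      exact (((hN.quo U).commg_lt (hP.pi.quo U) (quo_norms pN)) fun e =>
        hne (((quo_eq_bot_iff nU).1 e).trans inf_le_right)).not_ge this
  obtain ⟨h1, h2, h3⟩ := mem_IrrK.1 hη
  have hl := irr_lin_of_deg h1 ((der_le_cker h1).1 (hd.trans h2))
  have hl' := hl.Res le_sup_left
  have nG : N ⊴ N ⊔ M := left_normal_sup hn
  obtain ⟨χ, h4, h5⟩ := above (sup_le_sup_left hP.le N) (irr_chr h1) hp (by
    rw [← relIndex_quo' pN nG, quo_sup_left hn]; exact (hP.quo hn).not_dvd hp)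
    (by rw [hl.deg]; exact hp.not_dvd_one)
  have h6 := mem_ovr.1 (ovr_trans (sup_le_sup_left hP.le N) le_sup_left hl'.irr h4
    (mem_ovr_of_Res h1 hl'.irr rfl))
  have h7 : ¬ q ∣ (H20.inertia (N ⊔ M) (Res N η)).relIndex (N ⊔ M) := fun d =>
    h χ h6.1 bot_le h5 ((d.mul_right _).trans (clifford_dvd nG h6.1 hl'.irr h6.2))
  have lN : L ≤ N(N) := hL.le.trans hn
  have i : CInv P (Res N η) := ((irr_cinv h1).Res (left_normal_sup pN).norm).mono le_sup_right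
  obtain ⟨c, h8, h9⟩ := le_inertia' hq.out hP.pi.sol pL hc hQ pQ i fun d => h7 (by
    have l : N ⊔ L ≤ N ⊔ M := sup_le_sup_left hL.le N
    refine dvd_trans ?_ (relIndex_dvd_of_norm' (K := N ⊔ L) ((inertia_le _ _).trans (sup_le
      (left_normal_sup lN |>.le.trans le_normalizer) (norms_sup hn hL.norm))) (inertia_le _ _) l)
    rw [← inf_relIndex_right, ← inertia_of_le l, inertia_sup lN (irr_cinv hl'.irr)]
    have t := inertia_le L (Res N η)
    have b : N ⊓ L = ⊥ := H19.eq_bot_mono (inf_le_inf_left N hL.le) hi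
    have e1 := card_mul_relIndex (sup_le_sup_left t N)
    rw [card_sup_of_disjoint lN b, card_sup_of_disjoint (t.trans lN)
      (H19.eq_bot_mono (inf_le_inf_left N t) b), ← card_mul_relIndex t, mul_assoc] at e1
    rwa [Nat.eq_of_mul_eq_mul_left (card_pos _) (Nat.eq_of_mul_eq_mul_left (card_pos _) e1)])
  rw [cj_of_mem_norm (k h8)] at h9
  refine h3 ((le_cker_of_Res (irr_chr h1) le_sup_left le_rfl).1 ?_)
  rw [← commg_sup_cent qN (hN.coprime (hL'.of_le hQ.le)) (.inl hQ.pi.sol), sup_le_iff,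
    commg_sup_cent qN (hN.coprime (hL'.of_le hQ.le)) (.inl hQ.pi.sol)]
  exact ⟨comm_le_cker hl' qN (le_inertia_iff.1 h9).2,
    le_cker_Res inf_le_left ((le_sup_left.trans le_sup_left).trans h2)⟩

theorem main [hp : Fact p.Prime] [hq : Fact q.Prime] (hpq : p ≠ q) (n : ℕ) :
    ∀ {Γ : Type u} [Group Γ] [Finite Γ] {G : Subgroup Γ}, #G = n → IsPSolvable p G →
    IsPSolvable q G → (Dg G (Oc {p}ᶜ G) fun d => ¬ p ∣ d → ¬ q ∣ d) →
    ¬ q ∣ (Oc {p}ᶜ G).relIndex G := by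
  induction n using Nat.strong_induction_on with | _ n ih
  intro Γ _ _ G e h1 h2 h
  have key : ∀ K, K ⊴ G → K ≠ ⊥ → Oc {p}ᶜ G ≤ K →
      ¬ q ∣ (Oc {p}ᶜ (quo K G)).relIndex (quo K G) := fun K hK h0 l =>
    ih _ (e ▸ card_quo_lt hK h0) rfl (psol_quo h1 hK.norm) (psol_quo h2 hK.norm)
      (((dg_quo hK).2 (h.mono l)).mono bot_le)
  by_cases hO : Oc {p}ᶜ G = ⊥
  swap
  · have := key _ (Oc_normal _ _) hO le_rfl
    rwa [Oc_quo_Oc, relIndex_bot_left, card_quo (Oc_norm _ _)] at this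
  rw [hO] at h ⊢
  rw [relIndex_bot_left]
  by_cases h0 : G = ⊥
  · rw [h0, card_bot]; exact hq.out.not_dvd_one
  obtain ⟨N, l, ⟨hN, n0⟩, mn⟩ := exists_min_sub (fun K => K ⊴ G ∧ K ≠ ⊥)
    ⟨Oc_normal {p} G, (Oc_ne h1 h0).resolve_right (not_not.2 hO)⟩
  have pN : PG p N := (Oc_pi _ _).of_le l
  have ha : Ab N := comm_iff_der.2 (by_contra fun d =>
    (sol_der_lt pN.sol n0).ne (mn _ ⟨hN.der, d⟩ (der_le N)))
  have k := key N hN n0 (hO ▸ bot_le)
  rw [← relIndex_qpre' hN] at k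
  have hK := qpre_normal hN (Oc_normal {p}ᶜ (quo N G))
  have nK : N ≤ qpre N (Oc {p}ᶜ (quo N G)) := le_qpre _
  have hH : Hall {p} N (qpre N (Oc {p}ᶜ (quo N G))) := ⟨nK, pN, by
    rw [← card_quo (qpre_le_norm _), quo_qpre]; exact Oc_pi _ _⟩
  obtain ⟨L, hL⟩ := hH.exists_compl (qpre_le_norm _)
  set K := qpre N (Oc {p}ᶜ (quo N G))
  have pL := (hL.hall_right hH).pi
  have lG := hL.right_le.trans hK.le
  have lN : L ≤ N(N) := hN.norms lG
  have eG : N ⊔ G ⊓ N(L) = G := le_antisymm (sup_le hN.le inf_le_left) fun g hg => by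
    obtain ⟨k, hk, hk'⟩ := exists_cj_le_of_le_sup lN (B := cj g L)
      ((cj_le_of_mem_norm (hK.norm hg) hL.right_le).trans hL.sup.ge) (pN.coprime (pL.J g))
      (.inr pN.sol)
    rw [cj_cj] at hk'
    have : k⁻¹ * (k * g) ∈ N ⊔ G ⊓ N(L) := mul_mem (mem_sup_left (inv_mem hk))
      (mem_sup_right ⟨mul_mem (hN.le hk) hg, mem_norm_of_cj_le hk'⟩)
    rwa [inv_mul_cancel_left] at this
  have mN : G ⊓ N(L) ≤ N(N) := hN.norms inf_le_left
  rw [← card_mul_relIndex hK.le, ← hL.card, hq.out.dvd_mul, hq.out.dvd_mul, not_or, not_or]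
  refine ⟨⟨(pN.sing_ne hpq).not_dvd hq.out rfl, fun d => ?_⟩, k⟩
  by_cases hi : N ⊓ (G ⊓ N(L)) = ⊥
  · obtain ⟨Q, hQ, c⟩ := split hp.out pN ha mN hi ⟨le_inf lG le_normalizer, inf_le_right⟩ pL
      (H1.isPSolvable_of_le lG h2) (eG.symm ▸ h)
    refine hQ.sne_bot hq.out d (H19.eq_bot_mono (le_trans (le_inf hQ.le (cents_symm c))
      (le_Oc ⟨inf_le_left.trans lG, ?_⟩ (pL.infl _))) hO)
    rw [← eG]
    exact sup_le (norms_of_cents (cents_symm inf_le_right))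
      (norms_inf inf_le_right (norms_cent mN))
  have := mn _ ⟨⟨inf_le_left.trans hN.le, by
    rw [← eG]
    exact sup_le (norms_of_comm ha le_rfl inf_le_left) (by
      rw [eG]; exact norms_inf mN le_normalizer)⟩, hi⟩ inf_le_left
  rw [inf_eq_left, ← sup_eq_right, eG] at this
  rw [H19.eq_bot_mono (le_Oc ⟨lG, this.le.trans inf_le_right⟩ pL) hO, card_bot] at d
  exact hq.out.not_dvd_one d

end H25.NW
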