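/-
Subgroups `Ω₈⁺(4)` of `E₈(2)`: the isomorphism type (chunk `MI`).
-/
import Cfsg.Agent.H14.O80
import Cfsg.Agent.H20.EN1

set_option autoImplicit false
set_option linter.unusedSectionVars false
set_option maxRecDepth 100000

namespace H25.O8
open Cfsg Cfsg.Lie H14 H14.O8 H14.RootSys H14.PreSt H14.St Subgroup
universe u

section
variable {ι κ : Type*} [Fintype κ] [DecidableEq κ] [Fintype ι] [DecidableEq ι] {R : RootSys ι κ} {Cv : Chev R}
  {F G : Type*} [Field F] [CharP F 2] [Group G]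

theorem cm0 (S : St Cv F G) (hd : ∀ r, R.d r = 1) {r s : ι} (h : 0 ≤ R.pair r s) (a b : F) :
    S.x r a * S.x s b = S.x s b * S.x r a :=
  (S.commute_of_not (by rintro rfl; simp at h) (fun h1 => by rw [pair_of_isSum hd h1] at h; omega) a b).eq

/-- a system from the relations in characteristic two -/
def mk3 [Nontrivial κ] (hd : ∀ r, R.d r = 1) (hc : R.Conn) (x : ι → F → G) (add : ∀ r a b, x r (a + b) = x r a * x r b)
    (h0 : ∀ r s, 0 ≤ R.pair r s → ∀ a b, x r a * x s b = x s b * x r a)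
    (h1 : ∀ r s k, R.cf k = R.cf r + R.cf s → ∀ a b, x s b * x r a = x r a * x s b * x k (a * b)) : St Cv F G :=
  PreSt.toSt ⟨x, add, fun r s n1 n2 a b => by
    by_cases h : R.IsSum r s
    · have h2 := Cv.N_abs r s h
      rw [down, if_neg fun h3 => by
        have := pair_of_isSum hd h3; rw [pair_neg_left, pair_of_isSum hd h] at this; omega] at h2
      rw [Cv.terms_of_simple h (not_isSum_plus_of_d hd h) (h.plus_comm ▸ not_isSum_plus_of_d hd h.symm),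
        h1 _ _ _ h.cf_plus]
      rcases Int.natAbs_eq_iff.1 h2 with h3 | h3 <;> simp [PreChev.tval, h3, CharTwo.neg_eq]
    · rw [Cv.terms_of_not h, h0 r s]; · simp
      have := (isSum_iff_pair hd).not.1 h
      rcases H20.EN.pair_cases hd r s with e | e | e <;> first | contradiction | omega⟩ hc
end

/-- a word for `-1` -/
def L0 : List (Fin chevD4.rank) := [3, 1, 2, 0, 1, 3, 0, 1, 2, 0, 1, 0]
theorem L0_neg (r : I4) : R4.wprod L0 r = R4.neg r := by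
  rw [wprod_apply]; revert r; decide +kernel

variable {K G : Type} [Field K] [CharP K 2] [IsAlgClosed K] [Group G]

/-- the twisted Frobenius map of `D₄` -/
theorem exτ (F₄ : Type u) [Field F₄] [Fintype F₄] (h4 : Fintype.card F₄ = 4) :
    ∃ (τ : chevD4.group K →* chevD4.group K) (ε : chevD4.group F₄ →* chevD4.group K), Function.Injective ε ∧
      (∀ r t, τ ((goodD4.SG K).x r t) = (goodD4.SG K).x (R4.neg r) (t ^ 4)) ∧ ∀ g, τ g = g ↔ g ∈ ε.range := by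
  have : CharP F₄ 2 := charP_of_card_eq_prime_pow (f := 2) h4
  let := ZMod.algebra F₄ 2
  let := ZMod.algebra K 2
  let γ : F₄ →+* K := (IsAlgClosed.lift (R := ZMod 2) (S := F₄) (M := K)).toRingHom
  let φ := iterateFrobenius K 2 2
  have h := goodD4.mapG_x φ
  let T := Tw.ofField (goodD4.SG_sep K) (goodD4.SG_top K) _ φ h
  have f : T.Fld γ φ := ⟨h, fun t => by rw [← pow_card_eq_iff, h4]; rfl⟩
  let Φ := T.fr (goodD4.SG_hmul K) 2 (fun _ => 1) (fun _ => 2) (fun _ _ => (one_mul _).symm) (E := 2) one_pos (by norm_num) h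
  obtain ⟨x, hx⟩ := Φ.exists_conj (nprod_mem_NW L0)
  refine ⟨(Φ.tw (nprod_mem_NW L0)).σ, (MulAut.conj x⁻¹).toMonoidHom.comp (goodD4.mapG γ),
    (MulAut.conj x⁻¹).injective.comp (goodD4.mapG_inj γ), fun r t => ?_, fun g => (hx g).trans ?_⟩
  · exact (Φ.tw_σ _ _).trans (by rw [show Φ.σ _ = _ from h r t, nprod_conj, L0_neg]; rfl)
  rw [show Φ.fix = T.fix from rfl, f.fix_eq (goodD4.SG_hmul K)
    (goodD4.tor_inj fun c h => eq_one_of_pow_char 2 (kerD4 c h)), ← goodD4.range_mapG]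
  exact ⟨fun ⟨y, e⟩ => ⟨y, by simp [e, mul_assoc]⟩, by rintro ⟨y, rfl⟩; exact ⟨y, by simp [mul_assoc]⟩⟩

variable (X : Su K G) (w6 : W6) (j : Fin 2)
include w6

theorem exθ : ∃ θ : chevD4.group K →* G, Function.Injective θ ∧ (∀ r t, θ ((goodD4.SG K).x r t) = X.S.x (e j r) t) ∧
    θ.range = X.S.U (Δ j) := by
  let S4 : St goodD4.C K G := haveI := goodD4.nontrivial_rank
    mk3 hd4 goodD4.conn (fun r t => X.S.x (e j r) t) (fun _ => X.S.x_add _)
      (fun r s h => cm0 X.S hd (by rwa [w6.pair])) fun r s k h => comm_of_d hd (w6.add j r s k h)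
  have sx : ∀ r t, S4.x r t = X.S.x (e j r) t := fun _ _ => rfl
  have sh : ∀ r t, S4.h r t = X.S.h (e j r) t := fun r t => by simp only [PreSt.h, PreSt.n, sx, w6.neg]
  obtain ⟨θ, hθ⟩ := goodD4.exists_rep (fun c h => eq_one_of_pow_char 2 (kerD4 c h)) (S := S4)
    fun r t u a b => by rw [sh, sh, sh, X.F.hmul _ _ _ a b]
  have := (goodD4.simple_of_perfect K (goodD4.perfect_of_field K X.ζ.ne_zero fun h => by
    have := X.ord; rw [Units.val_eq_one.1 h, orderOf_one] at this; omega)).1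
  refine ⟨θ, (MonoidHom.ker_eq_bot_iff θ).1 ((θ.normal_ker.eq_bot_or_eq_top).resolve_right fun h => ?_), hθ, ?_⟩
  · have := (hθ (R4.simple 0) 1).symm.trans (h.ge (mem_top _))
    exact one_ne_zero (X.F.sep.x_inj (this.trans (X.S.x_zero _).symm))
  rw [MonoidHom.range_eq_map, ← goodD4.SG_top K, hθ.map_U]
  exact le_antisymm (U_le.2 fun r _ t => x_mem_U (S := X.S.toPreSt) (Set.mem_range_self r) t)
    (U_le.2 (by rintro _ ⟨r, rfl⟩ t; exact x_mem_U (S := S4.toPreSt) (Set.mem_univ r) t))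

theorem cmU {a b : G} (ha : a ∈ X.S.U (Δ j)) (hb : b ∈ X.S.U (w '' Δ j)) : b * a = a * b := by
  refine (U_le (M := centralizer {b})).2 ?_ ha b rfl
  rintro _ ⟨r, rfl⟩ t _ rfl
  refine ((U_le (M := centralizer {X.S.x (e j r) t})).2 ?_ hb _ rfl).symm
  rintro _ ⟨_, ⟨s, rfl⟩, rfl⟩ u _ rfl
  exact (cm0 X.S hd (w6.orth j s r).ge u t).symm
omit w6 in
theorem σ1 {a : G} (ha : a ∈ X.S.U (Δ j)) : X.F.σ a ∈ X.S.U (w '' Δ j) :=
  X.F.σ_mem_U (fun r h => X.ρ ▸ ⟨r, h, rfl⟩) ha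
theorem σ2 {a : G} (ha : a ∈ X.S.U (w '' Δ j)) : X.F.σ a ∈ X.S.U (Δ j) :=
  X.F.σ_mem_U (by rintro _ ⟨_, ⟨r, rfl⟩, rfl⟩; rw [X.ρ, ww, ← w6.neg]; exact ⟨_, rfl⟩) ha
theorem dec {g : G} (hg : g ∈ X.S.U (Ξ j)) : ∃ a ∈ X.S.U (Δ j), ∃ b ∈ X.S.U (w '' Δ j), g = a * b := by
  refine U_induction (P := fun g => ∃ a ∈ X.S.U (Δ j), ∃ b ∈ X.S.U (w '' Δ j), g = a * b)
    ⟨1, one_mem _, 1, one_mem _, by simp⟩ ?_ hg
  rintro r (h | h) t _ - ⟨a, ha, b, hb, rfl⟩
  · exact ⟨_, mul_mem (x_mem_U h t) ha, b, hb, (mul_assoc ..).symm⟩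
  · exact ⟨a, ha, _, mul_mem (x_mem_U h t) hb, by rw [← mul_assoc, cmU X w6 j ha (x_mem_U h t), mul_assoc]⟩

omit j in
theorem mi : X.MI.{u} := fun F₄ _ _ h4 j => by
  obtain ⟨τ, ε, εi, hτ, fx⟩ := exτ (K := K) F₄ h4
  obtain ⟨θ, θi, hθ, rg⟩ := exθ X w6 j
  have m : ∀ y, θ y ∈ X.S.U (Δ j) := fun y => rg.le ⟨y, rfl⟩
  have ss : ∀ y, X.F.σ (X.F.σ (θ y)) = θ (τ y) := DFunLike.congr_fun (hom_ext (goodD4.SG_top K)
    (α := X.F.σ.comp (X.F.σ.comp θ)) (β := θ.comp τ) fun r t => by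
      simp only [MonoidHom.comp_apply, hτ, hθ, X.x, ww, w6.neg, ← pow_mul])
  have one : ∀ a ∈ X.S.U (Δ j), a ∈ X.S.U (w '' Δ j) → a = 1 := fun a ha hb => by
    obtain ⟨y, rfl⟩ := rg.ge ha
    rw [show y = 1 from mem_bot.1 ((goodD4.center_eq_bot K).le (mem_center_iff.2 fun z => θi (by
      rw [map_mul, map_mul, cmU X w6 j (m z) hb]))), map_one]
  let f : chevD4.group F₄ →* G := MonoidHom.mk' (fun g => θ (ε g) * X.F.σ (θ (ε g))) fun a b => by
    simp only [map_mul, mul_assoc]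
    rw [← mul_assoc (θ (ε b)), ← cmU X w6 j (m _) (σ1 X j (m _)), mul_assoc]
  have fi : Function.Injective f := (injective_iff_map_eq_one f).2 fun g h => εi (θi (by
    rw [map_one, map_one]
    exact one _ (m _) (eq_inv_of_mul_eq_one_left h ▸ inv_mem (σ1 X j (m _)))))
  refine ⟨(MulEquiv.subgroupCongr (le_antisymm ?_ ?_)).trans (MonoidHom.ofInjective fi).symm⟩
  · rintro g ⟨hg, h⟩
    obtain ⟨a, ha, b, hb, rfl⟩ := dec X w6 j hg
    replace h : X.F.σ a * X.F.σ b = a * b := (map_mul ..).symm.trans h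
    rw [cmU X w6 j (σ2 X w6 j hb) (σ1 X j ha)] at h
    have e : a⁻¹ * X.F.σ b = b * (X.F.σ a)⁻¹ := by rw [inv_mul_eq_iff_eq_mul, ← mul_assoc, ← h, mul_inv_cancel_right]
    have e1 := one _ (mul_mem (inv_mem ha) (σ2 X w6 j hb)) (e ▸ mul_mem hb (inv_mem (σ1 X j ha)))
    rw [e1, eq_comm, mul_inv_eq_one] at e
    obtain ⟨y, rfl⟩ := rg.ge ha
    obtain ⟨g, rfl⟩ := (fx y).1 (θi (by rw [← ss, ← e, inv_mul_eq_one.1 e1]))
    exact ⟨g, e ▸ rfl⟩
  · rintro _ ⟨g, rfl⟩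
    refine ⟨mul_mem (U_mono Set.subset_union_left (m _)) (U_mono Set.subset_union_right (σ1 X j (m _))), ?_⟩
    change X.F.σ (θ (ε g) * X.F.σ (θ (ε g))) = θ (ε g) * X.F.σ (θ (ε g))
    rw [map_mul, ss, (fx _).2 ⟨g, rfl⟩, cmU X w6 j (m _) (σ1 X j (m _))]

end H25.O8
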