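/-
S5258, chunks MD and SY, part 1: the matrix model of the Sylow subgroup of `SU₅(q)`.
-/
import Cfsg.Agent.H8.PU3

set_option autoImplicit false
set_option linter.unusedSectionVars false
set_option linter.unusedSimpArgs false

namespace H25.PU
open Subgroup H8.PU H8.PU.Cd Matrix
open scoped MatrixGroups
universe v
variable {K : Type v} [Field K] {σ : K →+* K} [IV σ]

/-- the matrix of a coordinate element -/
def mat (u : Cd σ) : Matrix (Fin 5) (Fin 5) K :=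
  !![1, u.a, u.b, u.c, u.d; 0, 1, u.x, u.y, -σ u.c - u.x * σ u.b - u.y * σ u.a; 0, 0, 1, -σ u.x, -σ u.b + σ u.x * σ u.a;
    0, 0, 0, 1, -σ u.a; 0, 0, 0, 0, 1]
theorem det_up (M : Matrix (Fin 5) (Fin 5) K) (h : ∀ i j, j < i → M i j = 0) :
    M.det = M 0 0 * M 1 1 * M 2 2 * M 3 3 * M 4 4 := by
  rw [det_of_isUpperTriangular (fun i j k => h i j k), Fin.prod_univ_five]
theorem mat_mul (u v : Cd σ) : mat (u * v) = mat u * mat v := by
  ext i j
  fin_cases i <;> fin_cases j <;> simp [mat, Matrix.mul_apply, Fin.sum_univ_five, ss, v.sy] <;> ring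
/-- the Sylow subgroup -/
def E : Cd σ →* SL(5, K) := MonoidHom.mk' (fun u => ⟨mat u, by
  rw [det_up _ fun i j h => by fin_cases i <;> fin_cases j <;> simp_all [mat]]; simp [mat]⟩)
  fun u v => Subtype.ext (mat_mul u v)
theorem E_val (u : Cd σ) : (E u).1 = mat u := rfl
theorem mat_mv (u : Cd σ) (w : Fin 5 → K) : mat u *ᵥ w = ![w 0 + u.a * w 1 + u.b * w 2 + u.c * w 3 + u.d * w 4,
    w 1 + u.x * w 2 + u.y * w 3 + (-σ u.c - u.x * σ u.b - u.y * σ u.a) * w 4,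
    w 2 - σ u.x * w 3 + (-σ u.b + σ u.x * σ u.a) * w 4, w 3 - σ u.a * w 4, w 4] := by
  ext i
  fin_cases i <;> simp [mat, mulVec, dotProduct, Fin.sum_univ_five] <;> ring
theorem E_inj : Function.Injective (E (σ := σ)) := fun u v h => by
  have k : ∀ i j, mat u i j = mat v i j := fun i j => congrArg (fun g : SL(5, K) => g.1 i j) h
  exact Cd.ext (k 0 1) (k 0 2) (k 0 3) (k 0 4) (k 1 2) (k 1 3)

variable (σ)
/-- the hermitian form -/
def hf (v w : Fin 5 → K) : K := v 0 * σ (w 4) + v 1 * σ (w 3) + v 2 * σ (w 2) + v 3 * σ (w 1) + v 4 * σ (w 0)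
/-- the special unitary group of `hf` -/
def SH : Subgroup SL(5, K) := Cfsg.preserving (Cfsg.slToMat 5 K) (hf σ)
/-- diagonal entries -/
def wq (l m e : K) : Fin 5 → K := ![l, m, e, (σ m)⁻¹, (σ l)⁻¹]
variable {σ}
theorem mSH {g : SL(5, K)} : g ∈ SH σ ↔ ∀ v w, hf σ (g.1 *ᵥ v) (g.1 *ᵥ w) = hf σ v w := Iff.rfl
theorem E_mem (u : Cd σ) : E u ∈ SH σ := fun v w => by
  change hf σ (mat u *ᵥ v) (mat u *ᵥ w) = _
  simp [mat_mv, hf, ss, u.sd, u.sy]
  ring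
theorem hf_wq {l m e : K} (hl : l ≠ 0) (hm : m ≠ 0) (he : e * σ e = 1) (φ : K ≃+* K) (v w : Fin 5 → K) :
    hf σ (fun i => wq σ l m e i * φ (v i)) (fun i => wq σ l m e i * φ (w i)) = φ (hf σ v w) := by
  have := sn (σ := σ) hl
  have := sn (σ := σ) hm
  simp [hf, wq, ss, IV.cm]
  field_simp
  linear_combination (φ (v 2) * φ (σ (w 2))) * he

variable (σ) in
/-- the torus -/
def T : Kˣ × Kˣ →* SL(5, K) := MonoidHom.mk' (fun x => ⟨diagonal (wq σ x.1 x.2 (σ x.1 * σ x.2 / (x.1 * x.2))), by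
    have := sn (σ := σ) x.1.ne_zero
    have := sn (σ := σ) x.2.ne_zero
    simp [det_diagonal, Fin.prod_univ_five, wq]; field_simp⟩) fun x y => Subtype.ext (by
  change diagonal _ = diagonal _ * diagonal _
  rw [diagonal_mul_diagonal]; congr 1; ext i
  fin_cases i <;> simp [wq] <;> field_simp)
theorem T_val (x : Kˣ × Kˣ) : (T σ x).1 = diagonal (wq σ x.1 x.2 (σ x.1 * σ x.2 / (x.1 * x.2))) := rfl
theorem T_e (x : Kˣ × Kˣ) : (σ x.1 * σ x.2 / (x.1 * x.2)) * σ (σ x.1 * σ x.2 / (x.1 * x.2)) = 1 := by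
  have := sn (σ := σ) x.1.ne_zero
  have := sn (σ := σ) x.2.ne_zero
  simp only [map_div₀, map_mul, ss]; field_simp
theorem T_mem (x : Kˣ × Kˣ) : T σ x ∈ SH σ := fun v w => by
  have := hf_wq x.1.ne_zero x.2.ne_zero (T_e (σ := σ) x) (.refl K) v w
  change hf σ (diagonal _ *ᵥ v) (diagonal _ *ᵥ w) = _
  refine Eq.trans ?_ this
  congr 1 <;> ext i <;> simp [mulVec_diagonal]

/-- the relations between the columns -/
theorem col {g : SL(5, K)} (h : g ∈ SH σ) (i j : Fin 5) : g.1 0 i * σ (g.1 4 j) + g.1 1 i * σ (g.1 3 j) +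
    g.1 2 i * σ (g.1 2 j) + g.1 3 i * σ (g.1 1 j) + g.1 4 i * σ (g.1 0 j) = if i = j.rev then 1 else 0 := by
  have := h (Pi.single i 1) (Pi.single j 1)
  change hf σ (g.1 *ᵥ _) (g.1 *ᵥ _) = _ at this
  rw [mulVec_single_one, mulVec_single_one] at this
  refine this.trans ?_
  fin_cases i <;> fin_cases j <;> simp [hf]

theorem uni {g : SL(5, K)} (h : g ∈ SH σ) (h0 : g.1 0 0 = 1) (h1 : g.1 1 1 = 1) (k1 : g.1 1 0 = 0) (k2 : g.1 2 0 = 0)
    (k3 : g.1 3 0 = 0) (k4 : g.1 4 0 = 0) (l2 : g.1 2 1 = 0) (l3 : g.1 3 1 = 0) (l4 : g.1 4 1 = 0) : ∃ c : Cd σ, g = E c := by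
  have c := col h
  have a2 : g.1 4 2 = 0 := by simpa [h0, k1, k2, k3, k4] using c 0 2
  have a3 : g.1 4 3 = 0 := by simpa [h0, k1, k2, k3, k4] using c 0 3
  have a4 : g.1 4 4 = 1 := by simpa [h0, k1, k2, k3, k4] using c 4 0
  have b2 : g.1 3 2 = 0 := by simpa [h1, l2, l3, l4, a2] using c 1 2
  have b3 : g.1 3 3 = 1 := by simpa [h1, l2, l3, l4, a3] using c 3 1
  have d : g.1 2 2 = 1 := by
    have := det_up g.1 fun i j h => by fin_cases i <;> fin_cases j <;> simp_all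
    simpa [g.2, h0, h1, a4, b3] using this.symm
  have e1 := c 4 1
  have e2 := c 3 2
  have e3 := c 4 2
  have e4 := c 4 3
  have e5 := c 3 3
  have e6 := c 4 4
  simp [h0, h1, l2, l3, l4, a2, a3, a4, b2, b3, d] at e1 e2 e3 e4 e5 e6
  have f1 : g.1 3 4 = -σ (g.1 0 1) := by linear_combination e1
  have f2 : g.1 2 3 = -σ (g.1 1 2) := by linear_combination e2
  have f3 : g.1 2 4 = -σ (g.1 0 2) + σ (g.1 1 2) * σ (g.1 0 1) := by rw [f1] at e3; linear_combination e3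
  have sy : σ (g.1 1 3) = -g.1 1 3 - g.1 1 2 * σ (g.1 1 2) := by
    rw [f2] at e5; simp only [map_neg, ss] at e5; linear_combination e5
  have f4 : g.1 1 4 = -σ (g.1 0 3) - g.1 1 2 * σ (g.1 0 2) - g.1 1 3 * σ (g.1 0 1) := by
    rw [f1, f2, f3, sy] at e4; simp only [map_neg, ss] at e4; linear_combination e4
  refine ⟨⟨g.1 0 1, g.1 0 2, g.1 0 3, g.1 0 4, g.1 1 2, g.1 1 3, ?_, sy⟩, Subtype.ext ?_⟩
  · rw [f1, f3, f4] at e6
    simp only [map_neg, map_add, map_sub, map_mul, ss, sy] at e6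
    linear_combination e6
  · ext i j
    fin_cases i <;> fin_cases j <;> simp [E_val, mat, *]

/-- the normalizer of the Sylow subgroup -/
theorem nl' {g : SL(5, K)} (h : g ∈ SH σ) (hn : ∀ c : Cd σ, ∃ c' : Cd σ, E c * g = g * E c') :
    ∃ c : Cd σ, ∃ x, g = E c * T σ x := by
  have k : ∀ c : Cd σ, ∃ a : K, (∀ i, (mat c * g.1) i 0 = g.1 i 0) ∧ ∀ i, (mat c * g.1) i 1 = g.1 i 1 + a * g.1 i 0 := fun c => by
    obtain ⟨c', e⟩ := hn c
    have e' : mat c * g.1 = g.1 * mat c' := congrArg Subtype.val e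
    refine ⟨c'.a, fun i => ?_, fun i => ?_⟩ <;> rw [e'] <;> simp [mat, Matrix.mul_apply, Fin.sum_univ_five]
    ring
  obtain ⟨a1, p1, q1⟩ := k (xa 1)
  obtain ⟨-, p2, -⟩ := k (xb 1)
  obtain ⟨-, p3, -⟩ := k (xc 1)
  obtain ⟨a4, -, q4⟩ := k (xx 1)
  have k1 : g.1 1 0 = 0 := by simpa [mat, Matrix.mul_apply, Fin.sum_univ_five] using p1 0
  have k4 : g.1 4 0 = 0 := by simpa [mat, Matrix.mul_apply, Fin.sum_univ_five] using p1 3
  have k2 : g.1 2 0 = 0 := by simpa [mat, Matrix.mul_apply, Fin.sum_univ_five, k4] using p2 0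
  have k3 : g.1 3 0 = 0 := by simpa [mat, Matrix.mul_apply, Fin.sum_univ_five] using p3 0
  have l4 : g.1 4 1 = 0 := by simpa [mat, Matrix.mul_apply, Fin.sum_univ_five, k3] using q1 3
  have l3 : g.1 3 1 = 0 := by simpa [mat, Matrix.mul_apply, Fin.sum_univ_five, k2] using q4 2
  have l2 : g.1 2 1 = 0 := by simpa [mat, Matrix.mul_apply, Fin.sum_univ_five, k1, l3] using q4 1
  have h0 : g.1 0 0 ≠ 0 := fun e => by simpa [e, k1, k2, k3, k4] using col h 0 4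
  have a3 : g.1 4 3 = 0 := by simpa [h0, k1, k2, k3, k4] using col h 0 3
  have h1 : g.1 1 1 ≠ 0 := fun e => by simpa [e, l2, l3, l4, a3] using col h 1 3
  let x : Kˣ × Kˣ := (Units.mk0 _ h0, Units.mk0 _ h1)
  have m : ∀ i j, (g * T σ x⁻¹).1 i j = g.1 i j * wq σ (g.1 0 0)⁻¹ (g.1 1 1)⁻¹ (σ x⁻¹.1 * σ x⁻¹.2 / (x⁻¹.1 * x⁻¹.2)) j := fun i j => by
    refine (mul_diagonal _ g.1 i j).trans ?_
    simp [x]
  obtain ⟨c, e⟩ := uni (mul_mem h (T_mem x⁻¹)) (by rw [m]; simp [wq, h0]) (by rw [m]; simp [wq, h1]) (by rw [m, k1, zero_mul])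
    (by rw [m, k2, zero_mul]) (by rw [m, k3, zero_mul]) (by rw [m, k4, zero_mul]) (by rw [m, l2, zero_mul])
    (by rw [m, l3, zero_mul]) (by rw [m, l4, zero_mul])
  exact ⟨c, x, by rw [← e, map_inv, inv_mul_cancel_right]⟩

theorem nl0 {g : SL(5, K)} (h : g ∈ SH σ) (hn : g ∈ nz (E (σ := σ)).range) : ∃ c : Cd σ, ∃ x, g = E c * T σ x :=
  nl' h fun c => let ⟨c', e⟩ := conj_mem_of_mem_nz' hn (⟨c, rfl⟩ : E c ∈ (E (σ := σ)).range)
    ⟨c', by rw [e]; group⟩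

/-- the Weyl elements -/
def w1 : Matrix (Fin 5) (Fin 5) K := !![1, 0, 0, 0, 0; 0, 0, 0, 1, 0; 0, 0, -1, 0, 0; 0, 1, 0, 0, 0; 0, 0, 0, 0, 1]
def w2 : Matrix (Fin 5) (Fin 5) K := !![0, 1, 0, 0, 0; 1, 0, 0, 0, 0; 0, 0, 1, 0, 0; 0, 0, 0, 0, 1; 0, 0, 0, 1, 0]
def N1 : SL(5, K) := ⟨w1, by simp [w1, det_succ_row_zero, Fin.sum_univ_succ, Fin.succAbove]⟩
def N2 : SL(5, K) := ⟨w2, by simp [w2, det_succ_row_zero, Fin.sum_univ_succ, Fin.succAbove]⟩
theorem N1_sq : (N1 : SL(5, K)) * N1 = 1 := Subtype.ext (show w1 * w1 = 1 by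
  ext i j; fin_cases i <;> fin_cases j <;> simp [w1, Matrix.mul_apply, Fin.sum_univ_five])
theorem N2_sq : (N2 : SL(5, K)) * N2 = 1 := Subtype.ext (show w2 * w2 = 1 by
  ext i j; fin_cases i <;> fin_cases j <;> simp [w2, Matrix.mul_apply, Fin.sum_univ_five])
theorem N1_inv : (N1 : SL(5, K))⁻¹ = N1 := inv_eq_of_mul_eq_one_right N1_sq
theorem N2_inv : (N2 : SL(5, K))⁻¹ = N2 := inv_eq_of_mul_eq_one_right N2_sq
theorem N1_mem : N1 ∈ SH σ := mSH.2 fun v w => by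
  change hf σ (w1 *ᵥ v) (w1 *ᵥ w) = _
  simp [w1, hf, mulVec, dotProduct, Fin.sum_univ_five]; ring
theorem N2_mem : N2 ∈ SH σ := mSH.2 fun v w => by
  change hf σ (w2 *ᵥ v) (w2 *ᵥ w) = _
  simp [w2, hf, mulVec, dotProduct, Fin.sum_univ_five]; ring
theorem N1_cj (c : Cd σ) (hx : c.x = 0) (hy : c.y = 0) : N1 * E c * N1⁻¹ = E (m1 c) := by
  rw [N1_inv]
  refine Subtype.ext (show w1 * mat c * w1 = mat _ from ?_)
  ext i j; fin_cases i <;> fin_cases j <;> simp [w1, mat, Matrix.mul_apply, Fin.sum_univ_five, hx, hy]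
theorem N2_cj (c : Cd σ) (ha : c.a = 0) : N2 * E c * N2⁻¹ = E (m2 c) := by
  rw [N2_inv]
  refine Subtype.ext (show w2 * mat c * w2 = mat _ from ?_)
  have := c.sd
  ext i j; fin_cases i <;> fin_cases j <;> simp [w2, mat, Matrix.mul_apply, Fin.sum_univ_five, ha, ss, s_th]
  ring

variable [Finite K] {p : ℕ} [Fact p.Prime] [CharP K p]
theorem pgp {Γ : Type*} [Group Γ] {S : Subgroup Γ} {ev : Cd σ →* Γ} (h : Co S ev) : IsPGroup p S := fun w => ⟨3, by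
  have k := h.pwA (p := p) ((by sl h : (Z σ).map ev ≤ (A0 σ).map ev) (h.pw3 (p := p) (h.pwS (p := p) w.2)))
  rw [← pow_mul, ← pow_mul] at k
  exact Subtype.ext (by simpa [pow_succ, mul_assoc] using k)⟩
theorem co_of {Γ : Type*} [Group Γ] {ev : Cd σ →* Γ} (h : Function.Injective ev) : Co ev.range ev :=
  ⟨h, fun _ => ⟨fun ⟨c, e⟩ => ⟨c, e.symm⟩, fun ⟨c, e⟩ => ⟨c, e.symm⟩⟩⟩
theorem T_cop (x : Kˣ × Kˣ) : (orderOf (T σ x)).Coprime p := by
  have := Fintype.ofFinite K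
  obtain ⟨n, hn, e⟩ := FiniteField.card K p
  have k : (Nat.card Kˣ).Coprime p := by
    rw [Nat.card_units, Nat.card_eq_fintype_card, e]
    exact (Nat.coprime_pow_right_iff n.2 _ _).1 ((Nat.coprime_self_sub_left (Nat.one_le_pow _ _ hn.pos)).2 (by simp))
  refine Nat.Coprime.coprime_dvd_left ((orderOf_map_dvd _ x).trans (orderOf_dvd_natCard x)) ?_
  rw [Nat.card_prod]
  exact k.mul_left k
theorem syl0 : Syl p (E (σ := σ)).range (SH σ) := by
  refine syl_of_maximal (pgp (co_of E_inj)) (by rintro _ ⟨c, rfl⟩; exact E_mem c) fun Y h1 h2 hY => by_contra fun c => ?_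
  obtain ⟨g, g1, g2, g3⟩ := exists_mem_nz_of_lt hY (lt_of_le_of_ne h1 fun e => c e.ge)
  obtain ⟨u, x, rfl⟩ := nl0 (h2 g1) g2
  have k := (PEl.of_isPGroup (C := ⊥) hY ((mul_mem_cancel_left (h1 ⟨u, rfl⟩)).1 g1)).mem_of_coprime (T_cop x)
  exact g3 ⟨u, by rw [mem_bot.1 k, mul_one]⟩

end H25.PU
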