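/-
S5258, chunks MD and SY, part 2.
-/
import Cfsg.Agent.H25.PU1

set_option autoImplicit false
set_option linter.unusedSectionVars false
set_option linter.unusedSimpArgs false

namespace H25.PU
open Subgroup H8.PU H8.PU.Cd Matrix
open scoped MatrixGroups
universe v
variable {K : Type v} [Field K] {σ : K →+* K} [IV σ]

/-- the permutation representation on vectors -/
def rh : SL(5, K) →* Equiv.Perm (Fin 5 → K) := (MulAction.toPermHom _ _).comp SpecialLinearGroup.toLin'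
theorem rh_ap (g : SL(5, K)) (v : Fin 5 → K) : rh g v = g.1 *ᵥ v := rfl
theorem rh_inj : Function.Injective (rh (K := K)) := (injective_iff_map_eq_one _).2 fun _ h => Subtype.ext
  (Matrix.ext_of_mulVec_single fun i => (congrArg (· (Pi.single i 1)) h).trans (one_mulVec _).symm)
/-- `k` is semilinear diagonal -/
def Sd (σ : K →+* K) (k : Equiv.Perm (Fin 5 → K)) (l m e : K) (φ : K ≃+* K) : Prop := ∀ v i, k v i = wq σ l m e i * φ (v i)
theorem Sd.wt {k : Equiv.Perm (Fin 5 → K)} {l m e : K} {φ : K ≃+* K} (h : Sd σ k l m e φ) (hl : l ≠ 0) (hm : m ≠ 0)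
    (he : e * σ e = 1) : Wt (rh.comp (E (σ := σ))) k (l / m) (m / e) φ := by
  have e0 : e ≠ 0 := left_ne_zero_of_mul_eq_one he
  have e1 : σ e = e⁻¹ := eq_inv_of_mul_eq_one_right he
  have := sn (σ := σ) hl
  have := sn (σ := σ) hm
  refine ⟨div_ne_zero hl hm, div_ne_zero hm e0, fun c => mul_inv_eq_iff_eq_mul.2 (Equiv.ext fun v => funext fun i => ?_)⟩
  change k (mat c *ᵥ v) i = (mat _ *ᵥ k v) i
  rw [h, mat_mv, mat_mv]
  fin_cases i <;> simp [h _ _, wq, IV.cm, e1, ss] <;> field_simp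
variable (σ) in
/-- the semilinear diagonal group -/
def C0 : Subgroup (Equiv.Perm (Fin 5 → K)) where
  carrier := {k | ∃ l m φ, l ≠ 0 ∧ m ≠ 0 ∧ Sd σ k l m 1 φ}
  one_mem' := ⟨1, 1, .refl K, one_ne_zero, one_ne_zero, fun v i => by fin_cases i <;> simp [wq]⟩
  mul_mem' := by
    rintro k k' ⟨l, m, φ, hl, hm, h⟩ ⟨l', m', φ', hl', hm', h'⟩
    refine ⟨l * φ l', m * φ m', φ'.trans φ, by simp [hl, hl'], by simp [hm, hm'], fun v i => ?_⟩
    rw [Equiv.Perm.mul_apply, h, h']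
    fin_cases i <;> simp [wq, IV.cm] <;> ring
  inv_mem' := by
    rintro k ⟨l, m, φ, hl, hm, h⟩
    refine ⟨φ.symm l⁻¹, φ.symm m⁻¹, φ.symm, by simp [hl], by simp [hm], fun v i => φ.injective ?_⟩
    have := h (k⁻¹ v) i
    rw [show k (k⁻¹ v) = v from k.apply_symm_apply v] at this
    have := sn (σ := σ) hl
    have := sn (σ := σ) hm
    fin_cases i <;> simp [wq, IV.cm] at * <;> simp [*]
theorem ex_sd {l m : K} (hl : l ≠ 0) (hm : m ≠ 0) (φ : K ≃+* K) : ∃ k, Sd σ k l m 1 φ :=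
  ⟨Equiv.piCongrRight fun i => φ.toEquiv.trans (Equiv.mulLeft₀ (wq σ l m 1 i) (by fin_cases i <;> simp [wq, hl, hm])),
    fun _ _ => rfl⟩

variable [Finite K]
theorem C0_nz : C0 σ ≤ nz ((SH σ).map rh) := by
  rintro k ⟨l, m, φ, hl, hm, h⟩
  refine mem_nz_of_conj_mem ?_
  rintro _ ⟨g, hg, rfl⟩
  let w := wq σ l m 1
  have w0 : ∀ i, w i ≠ 0 := fun i => by fin_cases i <;> simp [w, wq, hl, hm]
  let g' : SL(5, K) := ⟨diagonal w * φ.mapMatrix g.1 * diagonal fun i => (w i)⁻¹, by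
    rw [det_mul, det_mul, ← RingEquiv.map_det, g.2, map_one, mul_one, ← det_mul, diagonal_mul_diagonal]
    simp [w0]⟩
  have e : ∀ v, g'.1 *ᵥ k v = k (g.1 *ᵥ v) := fun v => funext fun i => by
    rw [h]
    change ((diagonal w * φ.mapMatrix g.1 * diagonal fun i => (w i)⁻¹) *ᵥ k v) i = _
    rw [← mulVec_mulVec, ← mulVec_mulVec, mulVec_diagonal]
    congr 1
    simp only [mulVec, dotProduct, map_sum, map_mul]
    refine Finset.sum_congr rfl fun j _ => ?_
    have := mulVec_diagonal (fun i => (w i)⁻¹) (k v) j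
    simp only [mulVec, dotProduct] at this
    rw [this, h, inv_mul_cancel_left₀ (w0 j)]; rfl
  have f : ∀ v v', hf σ (k v) (k v') = φ (hf σ v v') := fun v v' => by
    rw [← hf_wq hl hm (e := 1) (by simp)]; congr 1 <;> exact funext (h _)
  refine ⟨g', mSH.2 fun v v' => ?_, eq_mul_inv_iff_mul_eq.2 (Equiv.ext e)⟩
  obtain ⟨v, rfl⟩ := k.surjective v
  obtain ⟨v', rfl⟩ := k.surjective v'
  rw [e, e, f, f, mSH.1 hg]

variable (σ) (p : ℕ) [Fact p.Prime] [CharP K p]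
theorem md : MD σ p := by
  have inj : Function.Injective (rh.comp (E (σ := σ))) := rh_inj.comp E_inj
  have c := co_of inj
  have rg : (rh.comp (E (σ := σ))).range = (E (σ := σ)).range.map rh := by rw [MonoidHom.map_range]
  refine ⟨_, _, inferInstance, rh.comp E, (SH σ).map rh, C0 σ, rh N1, rh N2, c,
    ⟨by rw [← map_inv, N1_inv], by rw [← map_inv, N2_inv], fun c hx hy => ?_, fun c ha => ?_⟩, pgp c, ?_, C0_nz, ?_, ?_, ?_, ?_,
    ⟨_, N1_mem, rfl⟩, ⟨_, N2_mem, rfl⟩⟩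
  · rw [MonoidHom.comp_apply, MonoidHom.comp_apply, ← N1_cj c hx hy, map_mul, map_mul, map_inv]
  · rw [MonoidHom.comp_apply, MonoidHom.comp_apply, ← N2_cj c ha, map_mul, map_mul, map_inv]
  · have := syl0 (σ := σ) (p := p)
    exact ⟨rg ▸ map_mono this.1, by rw [rg, relIndex_map_map_of_injective _ _ rh_inj]; exact this.2⟩
  · rintro k ⟨l, m, φ, hl, hm, h⟩
    exact ⟨_, _, φ, h.wt hl hm (by simp)⟩
  · intro r t φ hr ht
    obtain ⟨k, h⟩ := ex_sd (σ := σ) (mul_ne_zero hr ht) ht φ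
    exact ⟨k, ⟨_, _, φ, mul_ne_zero hr ht, ht, h⟩, by simpa [ht] using h.wt (mul_ne_zero hr ht) ht (by simp)⟩
  · rintro k ⟨l, m, φ, hl, hm, h⟩ h1
    have h2 := h.wt hl hm (by simp)
    have e := fun c => inj ((h2.cj c).symm.trans (h1.cj c))
    have a := fun a => congrArg Cd.a (e (xa a))
    have x := congrArg Cd.x (e (xx 1))
    have a1 := a 1
    simp at a x a1
    refine Equiv.ext fun v => funext fun i => ?_
    have a2 : ∀ z, φ z = z := fun z => by simpa [a1] using a z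
    rw [x, div_one] at a1
    rw [h]
    fin_cases i <;> simp [wq, a1, x, a2]
  · rintro _ ⟨g, hg, rfl⟩ hn
    obtain ⟨u, x, rfl⟩ := nl' hg fun u => by
      obtain ⟨u', e⟩ := conj_mem_of_mem_nz' hn (c.mS u)
      refine ⟨u', rh_inj ?_⟩
      rw [map_mul, map_mul, show rh (E u') = _ from e]
      rw [mul_assoc, mul_inv_cancel_left]; rfl
    have := sn (σ := σ) x.1.ne_zero
    have := sn (σ := σ) x.2.ne_zero
    refine ⟨_, c.mS u, rh (T σ x), x.1, (x.1 * x.2)⁻¹, by simp, by simp, ?_, map_mul _ _ _⟩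
    convert Sd.wt (σ := σ) (k := rh (T σ x)) (φ := .refl K) (fun v i => mulVec_diagonal _ v i) x.1.ne_zero x.2.ne_zero (T_e x) using 1
    · field_simp
    · simp; field_simp

omit [Finite K] in
theorem sy : SY.{v} := by
  intro K _ _ p _ _ n hn hK
  let σ := iterateFrobenius K p n
  have sd : ∀ x, σ x = x ^ p ^ n := fun x => iterateFrobenius_def _ _ _
  have hq : 1 < p ^ n := Nat.one_lt_pow (by omega) (Fact.out : p.Prime).one_lt
  have : IV σ := ⟨fun x => by rw [sd, sd, ← pow_mul, ← pow_two, ← hK, FiniteField.pow_card], by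
    by_contra! h
    obtain ⟨g, hg⟩ := IsCyclic.exists_ofOrder_eq_natCard (α := Kˣ)
    have k : g ^ (p ^ n - 1) = 1 := Units.ext (mul_right_cancel₀ g.ne_zero (by
      rw [Units.val_pow_eq_pow_val, ← pow_succ, Nat.sub_add_cancel hq.le, ← sd, h]; simp))
    have := Nat.le_of_dvd (by omega) (orderOf_dvd_of_pow_eq_one k)
    rw [hg, Nat.card_units, Nat.card_eq_fintype_card, hK] at this
    have : p ^ n < (p ^ n) ^ 2 := by nlinarith
    omega, fun φ x => by rw [sd, sd, map_pow]⟩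
  refine ⟨σ, this, fun R => ?_⟩
  obtain ⟨i, hi⟩ := ex_nm (σ := σ) (r := -1) (by simp)
  let θ := th σ
  have ht : σ θ = -θ - 1 := s_th
  let P0 : Matrix (Fin 5) (Fin 5) K :=
    !![1, 0, 0, 0, -θ; 0, 1, 0, -θ, 0; 0, 0, σ i ^ 2, 0, 0; 0, i, 0, σ θ * i, 0; i, 0, 0, 0, σ θ * i]
  let P : SL(5, K) := ⟨P0, by
    simp [P0, det_succ_row_zero, Fin.sum_univ_succ, Fin.succAbove, ht]
    linear_combination (i * σ i - 1) * hi⟩
  have f : ∀ v w, Cfsg.hermForm 5 K (p ^ n) (P.1 *ᵥ v) (P.1 *ᵥ w) = hf σ v w := fun v w => by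
    change Cfsg.hermForm 5 K (p ^ n) (P0 *ᵥ v) (P0 *ᵥ w) = _
    simp only [Cfsg.hermForm, ← sd]
    simp [P0, hf, mulVec, dotProduct, Fin.sum_univ_five, ht, ss]
    grind
  have e : cj P (SH σ) = Cfsg.SU 5 K (p ^ n) := Subgroup.ext fun g => by
    rw [mem_cj]
    have k : ∀ v, P.1 *ᵥ ((P⁻¹ * g * P).1 *ᵥ v) = g.1 *ᵥ (P.1 *ᵥ v) := fun v => by
      change rh P (rh (P⁻¹ * g * P) v) = rh g (rh P v)
      simp
    refine ⟨fun h v w => ?_, fun h => mSH.2 fun v w => ?_⟩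
    · obtain ⟨v, rfl⟩ := (rh P).surjective v
      obtain ⟨w, rfl⟩ := (rh P).surjective w
      change Cfsg.hermForm 5 K (p ^ n) (g.1 *ᵥ (P.1 *ᵥ v)) (g.1 *ᵥ (P.1 *ᵥ w)) = Cfsg.hermForm 5 K _ (P.1 *ᵥ v) (P.1 *ᵥ w)
      rw [← k, ← k, f, f, mSH.1 h]
    · rw [← f, k, k, ← f]
      exact h _ _
  have mP : ∀ g ∈ SH σ, P * g * P⁻¹ ∈ Cfsg.SU 5 K (p ^ n) := fun g hg => e ▸ conj_mem_cj P hg
  have s := (syl0 (σ := σ) (p := p)).cj P
  rw [e] at s
  obtain ⟨R0, hR⟩ := (syl_iff_exists_sylow ((pgp (p := p) (co_of E_inj)).map _) s.1).1 s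
  let ψ0 : Cd σ →* Cfsg.SU 5 K (p ^ n) := ((MulAut.conj P).toMonoidHom.comp E).codRestrict _ fun c => mP _ (E_mem c)
  let ψ := (QuotientGroup.mk' (center _)).comp ψ0
  have inj : Function.Injective ψ := (injective_iff_map_eq_one _).2 fun c hc => by
    have z := mem_center_iff.1 ((QuotientGroup.eq_one_iff _).1 hc)
    have k : ∀ g ∈ SH σ, g * E c = E c * g := fun g hg => by
      have := congrArg Subtype.val (z ⟨_, mP g hg⟩)
      change P * g * P⁻¹ * (P * E c * P⁻¹) = P * E c * P⁻¹ * (P * g * P⁻¹) at this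
      simpa [← mul_assoc] using (by simpa [mul_assoc] using this : g * (E c * P⁻¹) = E c * (g * P⁻¹))
    have k1 : w1 * mat c = mat c * w1 := congrArg Subtype.val (k _ N1_mem)
    have k2 : w2 * mat c = mat c * w2 := congrArg Subtype.val (k _ N2_mem)
    have a1 := congrFun (congrFun k1 3) 3
    have a2 := congrFun (congrFun k1 3) 2
    have a3 := congrFun (congrFun k1 0) 1
    have b1 := congrFun (congrFun k2 0) 0
    have b2 := congrFun (congrFun k2 0) 2
    have b3 := congrFun (congrFun k2 1) 4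
    simp [w1, w2, mat, Matrix.mul_apply, Fin.sum_univ_five] at a1 a2 a3 b1 b2 b3
    ext <;> simp only [one_a, one_b, one_c, one_d, one_x, one_y] <;> grind
  let R1 := R0.mapSurjective (QuotientGroup.mk'_surjective (center _))
  have r : ψ.range = R1 := by
    rw [Sylow.coe_mapSurjective, hR, ← MonoidHom.map_range]
    congr 1
    ext g
    rw [mem_subgroupOf]
    exact ⟨by rintro ⟨c, rfl⟩; exact ⟨_, ⟨c, rfl⟩, rfl⟩, by rintro ⟨_, ⟨c, rfl⟩, e⟩; exact ⟨c, Subtype.ext e⟩⟩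
  exact ⟨(MonoidHom.ofInjective inj).trans ((MulEquiv.subgroupCongr r).trans (Sylow.equiv R1 R))⟩

end H25.PU
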