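import Cfsg.Agent.H25.RU1

/-! S2196: the chunk `CI`. -/

set_option autoImplicit false
set_option linter.unusedSectionVars false
set_option linter.unusedVariables false

open Module MulAction H13.R3 H12 H0.RU
open H11 (hermT frob)
open H11.RS (PO)

namespace H25.RU

universe u

/-- a Sylow subgroup whose part outside `H` is controlled by the index -/
theorem ex_syl {G : Type u} [Group G] [Finite G] (H : Subgroup G) (p : ℕ) [hp : Fact p.Prime] :
    ∃ (P : Sylow p G) (j : ℕ), H.relIndex P = p ^ j ∧ p ^ j ∣ H.index := by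
  obtain ⟨P0⟩ : Nonempty (Sylow p H) := inferInstance
  obtain ⟨P, hP⟩ := (P0.isPGroup'.map H.subtype).exists_le_sylow
  obtain ⟨j, hj⟩ := P.isPGroup'.index (H.subgroupOf P)
  refine ⟨P, j, hj, ?_⟩
  have h1 := Subgroup.relIndex_mul_index (inf_le_right : H ⊓ P ≤ P)
  have h2 := Subgroup.relIndex_mul_index (inf_le_left : H ⊓ P ≤ H)
  rw [Subgroup.inf_relIndex_right, Subgroup.relIndex, hj, ← h2] at h1
  refine (Nat.Coprime.pow_left j ((Nat.Prime.coprime_iff_not_dvd hp.out).2 fun h => ?_)).dvd_of_dvd_mul_left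
    (h1 ▸ Dvd.intro _ rfl)
  refine P0.not_dvd_index (h.trans (Subgroup.index_dvd_of_le fun x hx => ?_))
  exact ⟨x.2, hP ⟨x, hx, rfl⟩⟩

variable {F : Type u} [Field F] [Fintype F] {q : ℕ} {hF : Fintype.card F = q ^ 2}
  {V : Type u} [AddCommGroup V] [Module F V] [Fintype V] {C : CForm (hermT hF) V}
  {G : Type u} [Group G] [Fintype G] [DistribMulAction G V] [SMulCommClass G F V] {H : Subgroup G}

theorem uu_pow {g : G} {x s : V} {c : F} (hx : C.B x x = 0) (hs : C.B x s = 0) (h : Uu C g x s c)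
    (n : ℕ) : ∃ d, Uu C (g ^ n) x ((n : F) • s) d ∧ (s = 0 → d = n * c) := by
  induction n with
  | zero => exact ⟨0, by simpa using uu_one, by simp⟩
  | succ n ih =>
    obtain ⟨d, h1, h2⟩ := ih
    refine ⟨d + c + C.B ((n : F) • s) s, ?_, fun e => ?_⟩
    · rw [pow_succ, Nat.cast_succ, add_smul, one_smul]
      exact uu_mul hx (by simp [hs]) hs h1 h
    · simp [h2 e, e, add_mul]

variable (C G) in
/-- the unipotent radical of the stabilizer of an isotropic point -/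
def Qe (x : V) (hx : C.B x x = 0) : Subgroup G :=
  let M : Submonoid G :=
    { carrier := {g | ∃ s c, C.B x s = 0 ∧ Uu C g x s c}
      one_mem' := ⟨0, 0, map_zero _, uu_one⟩
      mul_mem' := by
        rintro g k ⟨s, c, hs, h⟩ ⟨s', c', hs', h'⟩
        exact ⟨_, _, by simp [hs, hs'], uu_mul hx hs hs' h h'⟩ }
  { M with
    inv_mem' := fun {g} hg => by
      have : g⁻¹ = g ^ (orderOf g - 1) := by
        rw [inv_eq_iff_mul_eq_one, ← pow_succ', Nat.sub_add_cancel (orderOf_pos g),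
          pow_orderOf_eq_one]
      exact this ▸ M.pow_mem hg _ }

theorem qe_p (un : Un C G) {p : ℕ} [CharP F p] {x : V} (hx : C.B x x = 0) :
    IsPGroup p (Qe C G x hx) := by
  rintro ⟨g, s, c, hs, h⟩
  obtain ⟨d, h1, -⟩ := uu_pow hx hs h p
  rw [CharP.cast_eq_zero, zero_smul] at h1
  obtain ⟨d', h2, h3⟩ := uu_pow hx (map_zero _) h1 p
  rw [h3 rfl, CharP.cast_eq_zero, zero_smul, zero_mul] at h2
  exact ⟨2, Subtype.ext (by rw [Subgroup.coe_pow, sq, pow_mul]; exact uu_ext un h2 uu_one)⟩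

theorem irr_ne (un : Un C G) (ir : Irr F V H) {x z : V} (hx : x ≠ 0) (hz : z ≠ 0) :
    ∃ h ∈ H, C.B z (h • x) ≠ 0 := by
  by_contra hc
  push Not at hc
  rcases ir (Submodule.span F {v | ∃ h ∈ H, h • x = v}) (fun j hj u hu => by
    have := Submodule.apply_mem_span_image_of_mem_span (lin F V j).toLinearMap hu
    refine Submodule.span_mono ?_ this
    rintro _ ⟨_, ⟨h, hh, rfl⟩, rfl⟩
    exact ⟨j * h, H.mul_mem hj hh, mul_smul _ _ _⟩) with h | h
  · exact hx ((Submodule.eq_bot_iff _).1 h x (Submodule.subset_span ⟨1, H.one_mem, one_smul _ _⟩))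
  · refine hz (un.nd z fun y => Bsw ?_)
    have : z ∈ C.perp (Submodule.span F {v | ∃ h ∈ H, h • x = v}) := C.mem_perp_span.2 (by
      rintro _ ⟨h, hh, rfl⟩; exact Bsw (hc h hh))
    exact C.mem_perp.1 this y (h ▸ Submodule.mem_top)

variable (C H) in
/-- `Q_x ≤ H` -/
def Fu (x : V) : Prop := ∀ (g : G) s c, C.B x s = 0 → Uu C g x s c → g ∈ H

theorem Fu.sml {x : V} (h : Fu C H x) {l : F} (hl : l ≠ 0) : Fu C H (l • x) := fun g s c hs hg =>
  h g _ _ (by simpa [fr_ne hl] using hs) (Uu.sml.1 hg)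

theorem Fu.mv (un : Un C G) {x : V} (h : Fu C H x) {k : G} (hk : k ∈ H) : Fu C H (k • x) :=
  fun g s c hs hg => by
  have := h _ _ _ (by rwa [← un.iso k, smul_inv_smul]) (by simpa using un.uu_conj hg k⁻¹)
  simpa [mul_assoc] using H.mul_mem (H.mul_mem hk this) (H.inv_mem hk)

theorem Fu.all (un : Un C G) (ir : Irr F V H) {e : V} (ie : Is C e) (h : Fu C H e) {z : V}
    (iz : Is C z) : Fu C H z := by
  obtain ⟨k, hk, h1⟩ := irr_ne un ir ie.1 iz.1
  have ix : Is C (k • e) := ⟨fun e0 => ie.1 (gsz.1 e0), (un.iso _ _ _).trans ie.2⟩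
  have fx := h.mv un hk
  generalize k • e = x at ix fx h1
  obtain ⟨k, hk, h2⟩ := irr_ne un ir ix.1 ix.1
  have h3 : C.B (k • x) (k • x) = 0 := (un.iso _ _ _).trans ix.2
  have fy := (fx.mv un hk).sml (div_ne_zero (C.B_swap_ne h1) h2)
  have h4 : C.B x ((C.B x z / C.B x (k • x)) • k • x) = C.B x z := by
    rw [map_smul, smul_eq_mul, div_mul_cancel₀ _ h2]
  have h5 : C.B ((C.B x z / C.B x (k • x)) • k • x) ((C.B x z / C.B x (k • x)) • k • x) = 0 := by
    rw [Bl, C.B_smul_right, h3, mul_zero, mul_zero]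
  generalize (C.B x z / C.B x (k • x)) • k • x = y at fy h4 h5
  have n := C.B_swap_ne h1
  have hs : C.B x ((C.B x z)⁻¹ • (z - y)) = 0 := by simp [h4]
  obtain ⟨g, hg⟩ := ex_uu' un (c := -C.B z y / (C.B x z * C.B z x)) ix.2 hs (by
    simp only [Bl, map_smul, map_sub, map_div₀, map_neg, map_mul, map_inv₀, Bs, LinearMap.sub_apply,
      iz.2, h5, smul_eq_mul]
    field_simp; ring)
  have : g • y = z := by
    rw [hg, h4]
    simp only [Bl, map_sub, map_inv₀, Bs, LinearMap.sub_apply, h5, smul_smul, mul_inv_cancel₀ n]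
    match_scalars <;> field_simp <;> ring
  exact this ▸ fy.mv un (fx g _ _ hs hg)

/-- the case of index two -/
theorem fu_two (un : Un C G) (ir : Irr F V H) (h2 : (2 : F) = 0) {e : V} (ie : Is C e)
    (st : ∀ g ∈ Qe C G e ie.2, ∀ k ∈ Qe C G e ie.2, g ∉ H → k ∉ H → g * k ∈ H) : Fu C H e := by
  have n6 := un.n6
  have th : ∀ a : F, a + frob hF a = 0 ↔ frob hF a = a := fun a =>
    ⟨fun h => by linear_combination h - a * h2, fun h => by linear_combination h + a * h2⟩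
  obtain ⟨k, hk, h1⟩ := irr_ne un ir ie.1 ie.1
  obtain ⟨e', he, i2, mv⟩ : ∃ e', C.B e e' = 1 ∧ C.B e' e' = 0 ∧ ∃ l : F, l ≠ 0 ∧ e' = l • k • e :=
    ⟨(C.B e (k • e))⁻¹ • k • e, by simp [h1], by simp [un.iso, ie.2], _, inv_ne_zero h1, rfl⟩
  have ndW := nd_pp_ln un.nd ie.2 i2 (he ▸ one_ne_zero)
  have dW := fr_pp_ln un.nd (ind_of_ne ie.2 (he ▸ one_ne_zero))
  have t1 : ∀ (t : G) a, Tr C t e a → t ∈ H := fun t a ht => by
    by_cases a0 : a = 0
    · exact (uu_ext un (uu_tr.2 (by rwa [neg_zero, ← a0])) uu_one : t = 1) ▸ H.one_mem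
    obtain ⟨s, hs, e1⟩ := ex_nrmv ndW (fun e0 => by rw [e0, finrank_bot] at dW; omega)
      ((th a).1 (tr_th un ie ht)) a0
    have e2 := (mem_pp_ln.1 hs).1
    obtain ⟨c, hc⟩ := ex_trc (Bs (C := C) s s)
    obtain ⟨g, hg⟩ := ex_uu' un ie.2 e2 hc
    have e3 := uu_mul ie.2 e2 e2 hg hg
    rw [← two_smul F, h2, zero_smul, show c + c + C.B s s = -a by
      linear_combination (c + a) * h2 + e1] at e3
    rw [uu_ext (g := t) un (uu_tr.2 (by rwa [neg_neg])) e3]
    by_cases hH : g ∈ H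
    exacts [H.mul_mem hH hH, st g ⟨s, c, e2, hg⟩ g ⟨s, c, e2, hg⟩ hH hH]
  have t2 : ∀ (t : G) a, Tr C t e' a → t ∈ H := fun t a ht => by
    obtain ⟨l, -, rfl⟩ := mv
    have := t1 _ _ (by simpa using un.tr_conj (tr_sml.1 ht) k⁻¹)
    simpa [mul_assoc] using H.mul_mem (H.mul_mem hk this) (H.inv_mem hk)
  let S : V → Prop := fun s => ∃ g ∈ H, ∃ c, Uu C g e s c
  have s1 : ∀ s, C.B e s = 0 → C.B e' s = 0 → ∀ l, frob hF l = l → l ≠ 0 → S s → S (l • s) := by
    rintro s h3 h4 l hl l0 ⟨g, hg, c, h⟩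
    obtain ⟨a, ha⟩ := ex_tr' un i2 ((th l⁻¹).2 (by rw [map_inv₀, hl]))
    obtain ⟨b, hb⟩ := ex_tr' un ie.2 ((th (l + 1)).2 (by rw [map_add, hl, map_one]))
    obtain ⟨d, hd⟩ := ex_tr' un i2 ((th 1).2 (map_one _))
    have m := H.mul_mem (H.mul_mem (t2 _ _ ha) (t1 _ _ hb)) (t2 _ _ hd)
    have e1 : (a * b * d) • e = l • e := by
      rw [mul_smul, mul_smul, hd, hb, ha]
      simp only [map_add, map_smul, he, Bone he, ie.2, i2, smul_eq_mul]
      match_scalars
      · linear_combination h2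
      · field_simp; linear_combination (l + 1) * h2
    have e2 : (a * b * d) • s = s := by
      rw [mul_smul, mul_smul, hd s, h4, mul_zero, zero_smul, add_zero, hb s, h3, mul_zero, zero_smul,
        add_zero, ha s, h4, mul_zero, zero_smul, add_zero]
    have := un.uu_conj h (a * b * d)
    rw [e1, e2, Uu.sml, hl] at this
    exact ⟨_, H.mul_mem (H.mul_mem m hg) (H.inv_mem m), _, this⟩
  have s2 : ∀ s, C.B e s = 0 → C.B e' s = 0 → S s := fun s h3 h4 => by
    by_contra hS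
    obtain ⟨l, hl, l0, l1⟩ := ex_three (hF := hF) un.q3
    have h5 : C.B e (l • s) = 0 := by simp [h3]
    have l2 : 1 + l ≠ 0 := fun e0 => l1 (by linear_combination e0 - h2)
    have s3 : ∀ m, frob hF m = m → m ≠ 0 → ¬ S (m • s) := fun m hm m0 h => hS (by
      simpa [m0] using s1 _ (by simp [h3]) (by simp [h4]) m⁻¹ (by rw [map_inv₀, hm]) (inv_ne_zero m0) h)
    obtain ⟨c, hc⟩ := ex_trc (Bs (C := C) s s)
    obtain ⟨g, hg⟩ := ex_uu' un ie.2 h3 hc
    obtain ⟨c', hc'⟩ := ex_trc (Bs (C := C) (l • s) (l • s))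
    obtain ⟨g', hg'⟩ := ex_uu' un ie.2 h5 hc'
    refine s3 (1 + l) (by rw [map_add, map_one, hl]) l2 ⟨g * g', st g ⟨_, _, h3, hg⟩ g' ⟨_, _, h5, hg'⟩
      (fun h => hS ⟨g, h, c, hg⟩) fun h => s3 l hl l0 ⟨g', h, c', hg'⟩, ?_⟩
    rw [add_smul, one_smul]
    exact ⟨_, uu_mul ie.2 h3 h5 hg hg'⟩
  intro g s c hs hg
  obtain ⟨k, hk, d, h⟩ := s2 (s - C.B e' s • e) (by simp [hs, ie.2]) (by simp [Bone he])
  have : Tr C (k⁻¹ * g) e (d - c + C.B e' s - frob hF (C.B e' s)) := fun w => by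
    rw [mul_smul, inv_smul_eq_iff, hg, h]
    simp only [map_add, map_sub, map_smulₛₗ, LinearMap.sub_apply, LinearMap.smul_apply, ie.2, Bsw hs,
      hs_eq, smul_eq_mul, RingHom.id_apply]
    module
  simpa using H.mul_mem hk (t1 _ _ this)

theorem ci (H : Subgroup G) : CI C H := by
  intro un hs ir
  have n6 := un.n6
  have q3 := un.q3
  obtain ⟨p, k, hp, hc, k0, hq⟩ := ex_char hF
  have := Fact.mk hp
  obtain ⟨P, j, hj, hd⟩ := ex_syl H p
  have key : ¬ (j = 0 ∨ p ^ j = 2) := fun hh => by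
    obtain ⟨e0, -, i0⟩ := ex_is (C := C) (U := ⊤) (by rw [finrank_top]; omega)
    obtain ⟨P', hP'⟩ := (qe_p (p := p) un i0.2).exists_le_sylow
    obtain ⟨g, rfl⟩ := MulAction.exists_smul_eq G P' P
    have ie : Is C (g • e0) := ⟨fun e => i0.1 (gsz.1 e), (un.iso _ _ _).trans i0.2⟩
    have le : Qe C G (g • e0) ie.2 ≤ (g • P' : Sylow p G) := by
      rintro x ⟨s, c, h1, h2⟩
      rw [Sylow.coe_subgroup_smul, Subgroup.mem_pointwise_smul_iff_inv_smul_mem, ← map_inv,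
        MulAut.smul_def, MulAut.conj_apply]
      exact hP' ⟨g⁻¹ • s, c, by rwa [← un.iso g, smul_inv_smul], by simpa using un.uu_conj h2 g⁻¹⟩
    have fu : Fu C H (g • e0) := by
      rcases hh with rfl | h2
      · exact fun x s c h1 h2 => Subgroup.relIndex_eq_one.1 hj (le ⟨s, c, h1, h2⟩)
      · have p2 : p = 2 := ((Nat.Prime.pow_eq_iff Nat.prime_two).1 h2).1
        refine fu_two un ir (by subst p2; exact CharP.cast_eq_zero F 2) ie fun x hx y hy h3 h4 => ?_
        exact (Subgroup.mul_mem_iff_of_index_two (H := H.subgroupOf _) (hj.trans h2)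
          (a := ⟨x, le hx⟩) (b := ⟨y, le hy⟩)).2 (iff_of_false h3 h4)
    obtain ⟨t, ht, hn⟩ := hs.nt
    obtain ⟨v, a, iv, -, h⟩ := mem_TS.1 ht
    exact hn (fu.all un ir ie iv t 0 (-a) (map_zero _) (uu_tr.2 (by rwa [neg_neg])))
  push Not at key
  have h1 : (p : ℤ) ∣ H.index := Int.natCast_dvd_natCast.2 ((dvd_pow_self p key.1).trans hd)
  have h2 : (p : ℤ) ∣ q := Int.natCast_dvd_natCast.2 (hq ▸ dvd_pow_self p k0.ne')
  refine ⟨fun h => hp.not_dvd_one (Int.natCast_dvd_natCast.1 ?_), fun h => ?_⟩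
  · simpa using dvd_sub h1 (h2.trans h)
  · have p2 : p = 2 := (Nat.prime_dvd_prime_iff_eq hp Nat.prime_two).1 (Int.natCast_dvd_natCast.1 (by
      simpa using dvd_sub h1 (h2.trans h)))
    subst p2
    have h3 : 2 ^ 2 ∣ H.index := (pow_dvd_pow 2 (by
      have : j ≠ 1 := fun e => key.2 (by rw [e]; rfl)
      omega)).trans hd
    have h4 : 2 ^ 2 ∣ q := hq ▸ pow_dvd_pow 2 (by
      have : k ≠ 1 := fun e => by rw [e] at hq; omega
      omega)
    have h5 := (Int.natCast_dvd_natCast.2 h4).trans h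
    omega

end H25.RU
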