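import Cfsg.Agent.H0.RU2

/-! S2196: the chunk `RED`. -/

set_option autoImplicit false
set_option linter.unusedSectionVars false
set_option linter.unusedVariables false

open Module MulAction H13.R3 H12 H0.RU
open H11 (hermT frob)
open H11.RS (PO)

namespace H25.RU

universe u

attribute [-simp] H11.frob_apply

variable {F : Type u} [Field F] [Fintype F] {q : ℕ} {hF : Fintype.card F = q ^ 2}
  {V : Type u} [AddCommGroup V] [Module F V] [Fintype V] {C : CForm (hermT hF) V}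
  {G : Type u} [Group G] [Fintype G] [DistribMulAction G V] [SMulCommClass G F V] {H : Subgroup G}

theorem po_mem {U : Submodule F V} (hU : H ≤ St G U) {v w : V} (h : PO F H v w) (hv : v ≠ 0) :
    v ∈ U ↔ w ∈ U := by
  obtain ⟨k, hk, c, hc, e⟩ := h.ex hv
  rw [← hU hk v, e, Submodule.smul_mem_iff _ hc]

theorem red_num {q m n : ℕ} {s : ℕ} (q3 : 3 ≤ q) (m3 : 3 ≤ m) (hn : 2 * m ≤ n)
    (hs : (s : ℤ) = aa q n * aa q (n - 1)) :
    ¬ ((q ^ 2) ^ (m - 2) - 1) * s ≤ ((q ^ 2) ^ m - 1) ^ 2 := fun h => by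
  obtain ⟨j, rfl⟩ : ∃ j, m = j + 3 := ⟨m - 3, by omega⟩
  have p1 : ∀ i, 1 ≤ (q ^ 2) ^ i := fun i => Nat.one_le_pow _ _ (by positivity)
  zify [p1] at h
  have q1 : (1 : ℤ) ≤ q := by omega
  have h1 : (q : ℤ) ^ (2 * j + 6) - 1 ≤ aa q n :=
    le_trans (sub_le_sub_right (pow_le_pow_right₀ q1 (by omega)) 1) (le_aa q n).1
  have h2 : (q : ℤ) ^ (2 * j + 5) - 1 ≤ aa q (n - 1) :=
    le_trans (sub_le_sub_right (pow_le_pow_right₀ q1 (by omega)) 1) (le_aa q _).1
  have h3 : (q : ℤ) ^ 2 ≤ ((q : ℤ) ^ 2) ^ (j + 3 - 2) := le_self_pow₀ (one_le_pow₀ q1) (by omega)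
  have h4 : (q : ℤ) ^ 2 ≤ (q : ℤ) ^ (2 * j + 5) := pow_le_pow_right₀ q1 (by omega)
  have e : ((q : ℤ) ^ 2) ^ (j + 3) = q * q ^ (2 * j + 5) := by ring
  rw [show (q : ℤ) ^ (2 * j + 6) = q * q ^ (2 * j + 5) by ring] at h1
  rw [e, hs] at h
  generalize (q : ℤ) ^ (2 * j + 5) = a at *
  generalize ((q : ℤ) ^ 2) ^ (j + 3 - 2) = b at *
  have q3' : (3 : ℤ) ≤ q := by omega
  have h5 : (q : ℤ) + 1 ≤ b - 1 := by nlinarith
  have h6 : 0 < q * a - 1 := by nlinarith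
  have h7 : (q * a - 1) * (a - 1) ≤ aa q n * aa q (n - 1) :=
    mul_le_mul h1 h2 (by nlinarith) (by linarith)
  have h8 : ((q : ℤ) + 1) * ((q * a - 1) * (a - 1)) ≤ (q * a - 1) ^ 2 :=
    (mul_le_mul h5 h7 (mul_nonneg h6.le (by nlinarith)) (by linarith)).trans h
  have h9 : ((q : ℤ) + 1) * (a - 1) ≤ q * a - 1 := le_of_mul_le_mul_left (by nlinarith) h6
  nlinarith

/-- no invariant totally isotropic subspace -/
theorem red_ti (un : Un C G) (hs : Hs C H) (l2 : Le2 (Is C) (PO F H)) {U : Submodule F V}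
    (hU : H ≤ St G U) (ti : U ≤ C.perp U) : U = ⊥ := by
  by_contra h0
  obtain ⟨x, hx, x0⟩ := Submodule.exists_mem_ne_zero_of_ne_bot h0
  have ix : Is C x := ⟨x0, C.mem_perp.1 (ti hx) x hx⟩
  obtain ⟨y, iy, hy⟩ := ex_par un.nd ix
  have yn : y ∉ C.perp U := fun e => by simpa [Bone hy] using C.mem_perp.1 e x hx
  have hP : H ≤ St G (C.perp U) := fun h hh => un.st_pp (hU hh)
  have d1 := fr_pp un.nd U
  have d2 := un.nd.two_mul_finrank_le ti
  have n6 := un.n6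
  have d3 : finrank F (C.perp U) ≤ finrank F U + 1 := by
    by_contra hc
    obtain ⟨z, h1, h2, h3⟩ := ex_is_off (C := C) (C.perp U) U (by omega)
    have z0 : z ≠ 0 := fun e => h2 (e ▸ U.zero_mem)
    rcases l2 x z y ix ⟨z0, h3⟩ iy with h | h | h
    exacts [h2 ((po_mem hU h x0).1 hx), yn ((po_mem hP h x0).1 (ti hx)), yn ((po_mem hP h z0).1 h1)]
  obtain ⟨t, ht, hn⟩ := hs.nt
  have inv : ∀ h ∈ H, ∀ a ∈ {u | u ∈ U ∧ u ≠ 0}, h • a ∈ {u | u ∈ U ∧ u ≠ 0} := fun h hh a ha =>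
    ⟨(hU hh a).2 ha.1, fun e => ha.2 (gsz.1 e)⟩
  have key : ∀ (g : G) (v v' : V), (∀ b, C.B v b = 0 → C.B v' b = 0 → g • b = b) →
      (q ^ 2) ^ (finrank F U - 2) - 1 ≤
        {b | b ∈ {u | u ∈ U ∧ u ≠ 0} ∧ g • b ∈ {u | u ∈ U ∧ u ≠ 0}}.ncard := fun g v v' h => by
    have e1 := finrank_inf_ge U (C.perp (ln F v v'))
    have e2 := fr_pp un.nd (ln F v v')
    have e3 := finrank_ln_le (F := F) v v'
    refine le_trans ?_ (Set.ncard_le_ncard (s := {u | u ∈ U ⊓ C.perp (ln F v v') ∧ u ≠ 0}) fun b hb => ?_)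
    · rw [ncard_ne0, hF]
      exact Nat.sub_le_sub_right (Nat.pow_le_pow_right (by have := un.q3; positivity) (by omega)) 1
    · have e := mem_pp_ln.1 hb.1.2
      exact ⟨⟨hb.1.1, hb.2⟩, by rw [h b e.1 e.2]; exact ⟨hb.1.1, hb.2⟩⟩
  obtain ⟨v, a, -, -, tv⟩ := mem_TS.1 ht
  have h1 := avg (S := {v | Is C v}) (T := {u | u ∈ U ∧ u ≠ 0})
    (fun u hu => ⟨hu.2, C.mem_perp.1 (ti hu.1) u hu.1⟩) (fun g a ha => un.is_smul.2 ha)
    (fun a ha b hb => un.wis ha hb) (β := (q ^ 2) ^ (finrank F U - 2) - 1) fun g => by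
      rcases diam hs.mx hs.r3.le hn g with h | h | ⟨k, -, h⟩
      · rw [← (dc_one.2 h).ncard inv]; exact key 1 v v fun b _ _ => one_smul _ _
      · rw [← h.ncard inv]; exact key t v v fun b e _ => tv.fix e
      · rw [← h.ncard inv]
        exact key _ v (k • v) fun b e e' => by rw [mul_smul, (un.tr_conj tv k).fix e', tv.fix e]
  rw [ncard_ne0, hF] at h1
  exact red_num un.q3 (by omega) d2 (ncard_is un.nd (by omega)) h1

/-- no invariant non-isotropic point -/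
theorem red_pt (un : Un C G) (hs : Hs C H) {w : V} (hw : C.B w w ≠ 0) (hU : H ≤ St G (F ∙ w)) :
    False := by
  have n6 := un.n6
  have w0 : w ≠ 0 := fun e => hw (by simp [e])
  have nd1 : C.NondegOn (F ∙ w) := fun x hx h => by
    obtain ⟨c, rfl⟩ := Submodule.mem_span_singleton.1 hx
    have := h w (Submodule.mem_span_singleton_self w)
    simp only [Bl, mul_eq_zero, hw, or_false, map_eq_zero] at this
    simp [this]
  have nd2 := un.nd.nondegOn_perp nd1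
  have d := fr_pp_sp un.nd w0
  have ex : ∀ l : F, ∃ g : G, g ∉ H ∧ C.B w (g • w) = l := fun l => by
    obtain ⟨u, h1, h2, h3⟩ : ∃ u ∈ C.perp (F ∙ w), u ≠ 0 ∧
        C.B u u = C.B w w - l * frob hF l / C.B w w := by
      by_cases e : C.B w w - l * frob hF l / C.B w w = 0
      · obtain ⟨u, h1, h2⟩ := ex_is (C := C) (U := C.perp (F ∙ w)) (by omega)
        exact ⟨u, h1, h2.1, h2.2.trans e.symm⟩
      · obtain ⟨u, h1, h2⟩ := ex_nrmv nd2 (fun e => by rw [e, finrank_bot] at d; omega)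
          (by simp [Bs, mul_comm]) e
        exact ⟨u, h1, fun e0 => e (by simpa [e0] using h2.symm), h2⟩
    have h4 := mem_pp_sp.1 h1
    have h5 : C.B w ((l / C.B w w) • w + u) = l := by simp [h4, hw]
    have h6 : (l / C.B w w) • w + u ∉ F ∙ w := fun e => h2 (nd2 u h1 fun y hy =>
      C.mem_perp.1 hy u (by simpa using (F ∙ w).sub_mem e (Submodule.smul_mem _ (l / C.B w w)
        (Submodule.mem_span_singleton_self w))))
    obtain ⟨g, hg⟩ := un.witt1 (w := (l / C.B w w) • w + u) w0 (fun e => h6 (e ▸ zero_mem _)) (by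
      simp only [map_add, LinearMap.add_apply, Bl, map_smul, h4, Bsw h4, h3, smul_eq_mul, map_div₀, Bs]
      field_simp; ring)
    exact ⟨g, fun h => h6 (hg ▸ (hU h w).2 (Submodule.mem_span_singleton_self w)), hg ▸ h5⟩
  have nm : ∀ h ∈ H, ∃ c : F, h • w = c • w ∧ c * frob hF c = 1 := fun h hh => by
    obtain ⟨c, hc⟩ := Submodule.mem_span_singleton.1 ((hU hh w).2 (Submodule.mem_span_singleton_self w))
    refine ⟨c, hc.symm, mul_right_cancel₀ hw ?_⟩
    have := un.iso h w w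
    rw [← hc, Bl, map_smul, smul_eq_mul] at this
    linear_combination this
  have inv : ∀ g g' : G, DC H H g g' → C.B w (g • w) * frob hF (C.B w (g • w)) =
      C.B w (g' • w) * frob hF (C.B w (g' • w)) := by
    rintro g _ ⟨a, ha, b, hb, rfl⟩
    obtain ⟨c, h1, h2⟩ := nm a⁻¹ (H.inv_mem ha)
    obtain ⟨d, h3, h4⟩ := nm b hb
    rw [mul_smul, mul_smul, un.iso_r a, h1, h3, gsc, Bl, C.B_smul_right, map_mul, map_mul, ff]
    linear_combination (-C.B w (g • w) * frob hF (C.B w (g • w))) * (h2 + c * frob hF c * h4)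
  obtain ⟨γ, h1, h2, h3⟩ := ex_three (hF := hF) un.q3
  obtain ⟨l, hl⟩ := ex_nrm h1
  obtain ⟨g0, n0, e0⟩ := ex 0
  obtain ⟨g1, n1, e1⟩ := ex 1
  obtain ⟨g2, n2, e2⟩ := ex l
  rcases le3_of_dc hs.r3.le 1 g0 g1 g2 with h | h | h | h | h | h
  exacts [n0 (dc_one.1 h), n1 (dc_one.1 h), n2 (dc_one.1 h), by simpa [e0, e1] using inv _ _ h,
    h2 (by simpa [e0, e2, hl] using (inv _ _ h).symm),
    h3 (by simpa [e1, e2, hl] using (inv _ _ h).symm)]

theorem red (H : Subgroup G) : RED C H := by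
  intro un hs l2 W hW
  by_contra hc
  push Not at hc
  have hU : H ≤ St G W := fun h hh => mem_St_of (hW h hh)
  have hP : H ≤ St G (C.perp W) := fun h hh => un.st_pp (hU hh)
  have h0 : W ⊓ C.perp W = ⊥ := red_ti un hs l2
    (fun h hh u => and_congr (hU hh u) (hP hh u)) fun x hx =>
      C.mem_perp.2 fun y hy => C.mem_perp.1 hx.2 y hy.1
  have nd1 : C.NondegOn W := C.nondegOn_iff.2 (disjoint_iff.2 h0)
  have key : ∀ X : Submodule F V, H ≤ St G X → C.NondegOn X → X ≠ ⊥ → 2 ≤ finrank F X :=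
    fun X h1 h2 h3 => by
    by_contra h4
    obtain ⟨w, h5, h6⟩ := ex_nrmv h2 h3 (map_one _) one_ne_zero
    have w0 : w ≠ 0 := fun e => by simp [e] at h6
    refine red_pt un hs (h6 ▸ one_ne_zero) ?_
    rwa [Submodule.eq_of_le_of_finrank_le ((Submodule.span_singleton_le_iff_mem _ _).2 h5)
      (by rw [finrank_span_singleton w0]; omega)]
  obtain ⟨x, h1, ix⟩ := ex_is (C := C) (key W hU nd1 hc.1)
  obtain ⟨y, h2, iy⟩ := ex_is (C := C) (key _ hP (un.nd.nondegOn_perp nd1) fun e => hc.2 (by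
    rw [← un.nd.perp_perp W, e]; exact eq_top_iff.2 fun v _ => by simp [C.mem_perp]))
  have dj : ∀ v ∈ W, v ∈ C.perp W → v = 0 := fun v a b => (Submodule.eq_bot_iff _).1 h0 v ⟨a, b⟩
  have e := C.mem_perp.1 h2 x h1
  have n1 : x + y ∉ W := fun h => iy.1 (dj y (by simpa using W.sub_mem h h1) h2)
  have n2 : x + y ∉ C.perp W := fun h => ix.1 (dj x h1 (by simpa using sub_mem h h2))
  rcases l2 x y (x + y) ix iy ⟨fun e => n1 (e ▸ W.zero_mem), by simp [ix.2, iy.2, e, Bsw e]⟩ with h | h | h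
  exacts [iy.1 (dj y ((po_mem hU h ix.1).1 h1) h2), n1 ((po_mem hU h ix.1).1 h1),
    n2 ((po_mem hP h iy.1).1 h2)]

end H25.RU
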