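import Cfsg.Agent.H25.RU1
import Cfsg.Agent.H16.RU3
import Cfsg.Agent.H19.RU1

/-! S2196: the chunk `LAM`. -/

set_option autoImplicit false
set_option linter.unusedSectionVars false
set_option linter.unusedVariables false

open Module MulAction H13.R3 H12 H0.RU
open H11 (hermT frob)
open H11.RS (PO)

namespace H25.RU

universe u

attribute [-simp] H11.frob_apply

variable {F : Type u} [Field F] [Fintype F] {q : ℕ} {hF : Fintype.card F = q ^ 2}
  {V : Type u} [AddCommGroup V] [Module F V] [Fintype V] {C : CForm (hermT hF) V}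
  {G : Type u} [Group G] [Fintype G] [DistribMulAction G V] [SMulCommClass G F V] {H : Subgroup G}
  {μ : F →* ℂ} {φ : V → ℂ}

theorem opK_smul (un : Un C G) (φ : V → ℂ) (g : G) (v : V) :
    opK C φ (g • v) = opK C (fun u => φ (g • u)) v := by
  classical
  rw [H16.RU.opK_ap, H16.RU.opK_ap, ← Equiv.sum_comp (MulAction.toPerm g)]
  simp only [MulAction.toPerm_apply, un.iso, un.is_smul]

/-- a set of representatives of the isotropic points -/
theorem ex_rep (un : Un C G) : ∃ R : Finset V, (R.card : ℤ) = Np q (finrank F V) ∧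
    ∀ v, Is C v → ∃ r ∈ R, ∃ a : F, a ≠ 0 ∧ v = a • r := by
  classical
  have q3 := un.q3
  have n6 := un.n6
  let ρ : Submodule F V → V := fun P => if h : ∃ w ∈ P, w ≠ 0 then h.choose else 0
  have h1 : ∀ v : V, v ≠ 0 → ρ (F ∙ v) ∈ F ∙ v ∧ ρ (F ∙ v) ≠ 0 := fun v h => by
    have e : ∃ w ∈ F ∙ v, w ≠ 0 := ⟨v, Submodule.mem_span_singleton_self v, h⟩
    simp only [ρ, dif_pos e]; exact e.choose_spec
  have h2 := dcount {v | Is C v} ((fun v => ρ (F ∙ v)) '' {v | Is C v}) (fun v r => ρ (F ∙ v) = r)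
    (m := 1) (n := q ^ 2 - 1) (fun v hv => Set.ncard_eq_one.2 ⟨_,
      Set.eq_singleton_iff_unique_mem.2 ⟨⟨⟨v, hv, rfl⟩, rfl⟩, fun _ h => h.2.symm⟩⟩) (by
      rintro _ ⟨v, hv, rfl⟩
      have := ncard_ne0 (F ∙ v)
      rw [finrank_span_singleton hv.1, pow_one, hF] at this
      rw [← this]; congr 1; ext w
      refine ⟨fun h => ⟨?_, h.1.1⟩, fun h => ⟨Is.of_mem hv h.1 h.2, by simp only [sp_eq h.2 h.1]⟩⟩
      have e : ρ (F ∙ w) = ρ (F ∙ v) := h.2
      rw [← sp_eq (h1 v hv.1).2 (h1 v hv.1).1, ← e, sp_eq (h1 w h.1.1).2 (h1 w h.1.1).1]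
      exact Submodule.mem_span_singleton_self w)
  refine ⟨((fun v => ρ (F ∙ v)) '' {v | Is C v}).toFinset, ?_, fun v hv => ⟨ρ (F ∙ v),
    Set.mem_toFinset.2 ⟨v, hv, rfl⟩, ?_⟩⟩
  · have h3 := ncard_is un.nd (by omega : 1 ≤ finrank F V)
    have h4 : 1 ≤ q ^ 2 := Nat.one_le_pow _ _ (by omega)
    rw [← Np_mul (by omega)] at h3
    rw [← Set.ncard_eq_toFinset_card']
    zify [h4] at h2
    refine mul_right_cancel₀ (b := (q : ℤ) ^ 2 - 1) ?_ (by rw [← h2, ← h3, mul_one])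
    nlinarith [show (3 : ℤ) ≤ q by exact_mod_cast q3]
  · obtain ⟨a, ha⟩ := Submodule.mem_span_singleton.1 ((sp_eq (h1 v hv.1).2 (h1 v hv.1).1).ge
      (Submodule.mem_span_singleton_self v))
    exact ⟨a, fun e => hv.1 (ha.symm.trans (by rw [e, zero_smul])), ha.symm⟩

theorem yo_le (un : Un C G) (h : φ ∈ PF C μ) : (finrank ℂ (Yo G φ) : ℤ) ≤ Np q (finrank F V) := by
  classical
  obtain ⟨R, h1, h2⟩ := ex_rep un
  have : Yo G φ ≤ Submodule.span ℂ (R.image fun x => fun g : G => φ (g • x)) :=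
    Submodule.span_le.2 (by
      rintro _ ⟨v, rfl⟩
      by_cases hv : Is C v
      · obtain ⟨r, hr, a, ha, rfl⟩ := h2 v hv
        have : (fun g : G => φ (g • a • r)) = μ a • fun g : G => φ (g • r) :=
          funext fun g => by rw [gsc, h.2 a _ ha]; rfl
        simp only [this]
        exact Submodule.smul_mem _ _ (Submodule.subset_span (by simpa using ⟨r, hr, rfl⟩))
      · have : (fun g : G => φ (g • v)) = 0 := funext fun g => h.1 _ (mt un.is_smul.1 hv)
        simp only [this]; exact zero_mem _)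
  rw [← h1]
  exact_mod_cast (Submodule.finrank_mono this).trans ((finrank_span_finset_le_card _).trans
    Finset.card_image_le)

open scoped ComplexOrder in
theorem yo_inf (un : Un C G) {φ' : V → ℂ} (h : φ ∈ PF C μ) (h' : φ' ∈ PF C 1) {l : F} (l0 : l ≠ 0)
    (hl : μ l ≠ 1) : Yo G φ' ⊓ Yo G φ = ⊥ := by
  have key : ∀ v x : V, (fun g : G => φ (g • v)) ⬝ᵥ star (fun g : G => φ' (g • x)) = 0 := fun v x => by
    by_cases hv : ¬ Is C v
    · rw [show (fun g : G => φ (g • v)) = 0 from funext fun g => h.1 _ (mt un.is_smul.1 hv),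
        zero_dotProduct]
    by_cases hx : ¬ Is C x
    · rw [show (fun g : G => φ' (g • x)) = 0 from funext fun g => h'.1 _ (mt un.is_smul.1 hx),
        star_zero, dotProduct_zero]
    push Not at hv hx
    obtain ⟨k, h1, c, c0, h2⟩ : ∃ k : G, k • v = l • v ∧ ∃ c : F, c ≠ 0 ∧ k • x = c • x := by
      by_cases e : x ∈ F ∙ v
      · obtain ⟨k, hk⟩ := un.wis hv (hv.sml l0)
        obtain ⟨c, rfl⟩ := Submodule.mem_span_singleton.1 e
        exact ⟨k, hk, l, l0, by rw [gsc, hk, smul_comm]⟩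
      · have n := inv_ne_zero (fr_ne (hF := hF) l0)
        obtain ⟨k, hk⟩ := un.witt2 ⟨hv.1, e⟩ (Ind.sml ⟨hv.1, e⟩ l0 n) ((hv.sml l0).2.trans hv.2.symm)
          ((hx.sml n).2.trans hx.2.symm) (by simp [fr_ne l0])
        exact ⟨k, hk.1, _, n, hk.2⟩
    have e := Equiv.sum_comp (Equiv.mulRight k) fun g : G => φ (g • v) * star (φ' (g • x))
    simp only [Equiv.coe_mulRight, mul_smul, h1, h2, gsc, h.2 l _ l0, h'.2 c _ c0, MonoidHom.one_apply,
      one_mul, mul_assoc, ← Finset.mul_sum] at e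
    exact (mul_eq_zero.1 (by rw [sub_mul, one_mul]; exact sub_eq_zero.2 e)).resolve_left
      (sub_ne_zero.2 hl)
  refine (Submodule.eq_bot_iff _).2 fun ψ m => dotProduct_self_star_eq_zero.1 ?_
  have k2 : ∀ a ∈ Yo G φ, ∀ b ∈ Yo G φ', a ⬝ᵥ star b = 0 := fun a ha b hb => by
    induction ha using Submodule.span_induction with
    | mem a ha =>
      obtain ⟨v, rfl⟩ := ha
      induction hb using Submodule.span_induction with
      | mem b hb => obtain ⟨x, rfl⟩ := hb; exact key v x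
      | zero => simp
      | add a b _ _ ha hb => rw [star_add, dotProduct_add, ha, hb, add_zero]
      | smul c a _ ha => rw [star_smul, dotProduct_smul, ha, smul_zero]
    | zero => simp
    | add a b _ _ ha hb => rw [add_dotProduct, ha, hb, add_zero]
    | smul c a _ ha => rw [smul_dotProduct, ha, smul_zero]
  exact k2 ψ m.2 ψ m.1

theorem ty_of (un : Un C G) (h : φ ∈ PF C μ) (h0 : φ ≠ 0) (hH : ∀ h ∈ H, ∀ x, φ (h • x) = φ x)
    {η : ℂ} (η0 : η ≠ 0) (e : ∀ v, ((q : ℂ) - 1) * q ^ (2 * finrank F V - 3) * φ v -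
      Mu hF μ * opK C φ v = η * φ v) : Ty H (TS C G) η (Yo G φ) :=
  H19.RU.ty G V H _ η φ (fun t ht g => un.ts_conj ht g) h0 η0 hH fun v => by
    by_cases hv : Is C v
    · rw [H16.RU.pop un μ φ h v hv, e]
    · simp [h.1 v hv, fun t : G => h.1 (t • v) (mt un.is_smul.1 hv)]

/-- a twisted invariant function when `La` fails -/
theorem ex_mu (un : Un C G) (hn : ¬ La C H) : ∃ (μ : F →* ℂ) (φ : V → ℂ), (∃ a, a ≠ 0 ∧ μ a ≠ 1) ∧
    (∀ a, a * frob hF a = 1 → μ a = 1) ∧ φ ∈ PF C μ ∧ φ ≠ 0 ∧ ∀ h ∈ H, ∀ x, φ (h • x) = φ x := by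
  classical
  simp only [La] at hn
  push Not at hn
  obtain ⟨y, iy, b, hb, b0, hn⟩ := hn
  obtain ⟨β, rfl⟩ := ex_nrm hb
  have β0 : β ≠ 0 := left_ne_zero_of_mul b0
  let L : Subgroup Fˣ :=
    { carrier := {a | ∃ h ∈ H, ∃ l : F, h • y = l • y ∧ l * frob hF l = a * frob hF a}
      one_mem' := ⟨1, H.one_mem, 1, by simp, rfl⟩
      mul_mem' := by
        rintro a b ⟨h, hh, l, h1, h2⟩ ⟨k, hk, m, h3, h4⟩
        refine ⟨h * k, H.mul_mem hh hk, m * l, by rw [mul_smul, h3, gsc, h1, mul_smul], ?_⟩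
        simp only [Units.val_mul, map_mul]
        linear_combination m * frob hF m * h2 + a * frob hF a * h4
      inv_mem' := by
        rintro a ⟨h, hh, l, h1, h2⟩
        have l0 : l ≠ 0 := fun e => iy.1 (gsz.1 (by rw [h1, e, zero_smul]))
        refine ⟨h⁻¹, H.inv_mem hh, l⁻¹, by rw [inv_smul_eq_iff, gsc, h1, inv_smul_smul₀ l0], ?_⟩
        rw [Units.val_inv_eq_inv_val, map_inv₀, map_inv₀, ← mul_inv, ← mul_inv, h2] }
  obtain ⟨χ, hχ⟩ := CommGroup.exists_apply_ne_one_of_hasEnoughRootsOfUnity (Fˣ ⧸ L) ℂ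
    (a := (Units.mk0 β β0 : Fˣ)) (fun e => by
      obtain ⟨h, hh, l, h1, h2⟩ := (QuotientGroup.eq_one_iff _).1 e
      exact hn h hh l h1 h2)
  let μ : F →* ℂ :=
    { toFun := fun a => if h : a = 0 then 0 else χ (Units.mk0 a h : Fˣ)
      map_one' := by simp
      map_mul' := fun a b => by
        by_cases ha : a = 0
        · simp [ha]
        by_cases hb : b = 0
        · simp [hb]
        simp [ha, hb, Units.mk0_mul] }
  have m1 : ∀ a (h : a ≠ 0), μ a = χ (Units.mk0 a h : Fˣ) := fun a h => dif_neg h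
  have m2 : ∀ a : F, (∃ h ∈ H, ∃ l : F, h • y = l • y ∧ l * frob hF l = a * frob hF a) → μ a = 1 :=
    fun a ha => by
    have a0 : a ≠ 0 := by
      rintro rfl
      obtain ⟨h, -, l, h1, h2⟩ := ha
      have : l = 0 := by simpa using h2
      exact iy.1 (gsz.1 (by rw [h1, this, zero_smul]))
    rw [m1 a a0, (QuotientGroup.eq_one_iff (N := L) _).2 ha, map_one, Units.val_one]
  let r : V → F → Prop := fun v a => a ≠ 0 ∧ ∃ h ∈ H, v = a • h • y
  have r1 : ∀ v a a', r v a → r v a' → μ a = μ a' := by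
    rintro v a a' ⟨a0, h, hh, h1⟩ ⟨a1, k, hk, h2⟩
    have := m2 (a' / a) ⟨k⁻¹ * h, H.mul_mem (H.inv_mem hk) hh, a' / a, by
      rw [mul_smul, inv_smul_eq_iff, gsc, div_eq_inv_mul, mul_smul, ← h2, h1, inv_smul_smul₀ a0], rfl⟩
    rw [← mul_div_cancel₀ a' a0, map_mul, this, mul_one]
  let φ : V → ℂ := fun v => if h : ∃ a, r v a then μ h.choose else 0
  have f1 : ∀ v a, r v a → φ v = μ a := fun v a h => by
    have e : ∃ a, r v a := ⟨a, h⟩
    simp only [φ, dif_pos e]; exact r1 v _ _ e.choose_spec h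
  have f2 : ∀ v, (¬ ∃ a, r v a) → φ v = 0 := fun v h => dif_neg h
  have r2 : ∀ v a c, c ≠ 0 → r v a → r (c • v) (c * a) := by
    rintro v a c c0 ⟨a0, h, hh, rfl⟩
    exact ⟨mul_ne_zero c0 a0, h, hh, smul_smul _ _ _⟩
  have r3 : ∀ v a, ∀ k ∈ H, r v a → r (k • v) a := by
    rintro v a k hk ⟨a0, h, hh, rfl⟩
    exact ⟨a0, k * h, H.mul_mem hk hh, by rw [gsc, mul_smul]⟩
  refine ⟨μ, φ, ⟨β, β0, fun e => hχ (Units.ext ((m1 β β0).symm.trans e))⟩,
    fun a ha => m2 a ⟨1, H.one_mem, 1, by simp, by simp [ha]⟩,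
    ⟨fun v hv => f2 v ?_, fun c v c0 => ?_⟩, fun e => ?_, fun k hk v => ?_⟩
  · rintro ⟨a, a0, h, -, rfl⟩
    exact hv ((un.is_smul.2 iy).sml a0)
  · by_cases h : ∃ a, r v a
    · obtain ⟨a, h⟩ := h
      rw [f1 _ _ (r2 v a c c0 h), f1 v a h, map_mul]
    · rw [f2 v h, mul_zero, f2]
      exact fun ⟨a, e⟩ => h ⟨_, by simpa [c0] using r2 _ a c⁻¹ (inv_ne_zero c0) e⟩
  · simpa [e] using f1 y 1 ⟨one_ne_zero, 1, H.one_mem, by simp⟩
  · by_cases h : ∃ a, r v a
    · obtain ⟨a, h⟩ := h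
      rw [f1 _ _ (r3 v a k hk h), f1 v a h]
    · rw [f2 v h, f2]
      exact fun ⟨a, e⟩ => h ⟨a, by simpa using r3 _ a k⁻¹ (H.inv_mem hk) e⟩

theorem lam (dp : DP C G) (H : Subgroup G) : LAM C H := by
  classical
  intro un r3 qi ⟨η, Y, hY, dY, n0, n1, n2⟩
  by_contra hn
  obtain ⟨μ, φ, ⟨l, l0, hl⟩, m1, hφ, φ0, hH⟩ := ex_mu un hn
  have q3 := un.q3
  obtain ⟨j, hj⟩ : ∃ j, finrank F V = j + 2 := ⟨finrank F V - 2, by have := un.n6; omega⟩
  have j4 : 4 ≤ j := by have := un.n6; omega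
  have q1 : (q : ℂ) - 1 ≠ 0 := sub_ne_zero.2 (by exact_mod_cast (by omega : q ≠ 1))
  have q0 : (q : ℂ) ≠ 0 := by exact_mod_cast (by omega : q ≠ 0)
  have a0 : ∀ i, 1 ≤ i → (aa q i : ℂ) ≠ 0 := fun i hi => by
    exact_mod_cast (aa_pos (by omega) hi).ne'
  have fin : ∀ η' Y', Ty H (TS C G) η' Y' → η ≠ η' ∨ Y ⊓ Y' = ⊥ →
      ¬ (q : ℤ) ∣ finrank ℂ Y' ∧ ¬ (q : ℤ) ∣ finrank ℂ Y' - 1 := fun η' Y' h e => by
    have h1 := H19.RU.r3 G H _ η η' Y Y' r3 hY h e
    have h2 := Int.natCast_dvd_natCast.2 dY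
    zify at h1
    exact ⟨fun h3 => qi.1 ((dvd_add h2 h3).trans (dvd_of_eq (by linear_combination h1))),
      fun h3 => qi.2 ((dvd_add h2 h3).trans (dvd_of_eq (by linear_combination h1)))⟩
  have N1 := Np_mod (q := q) (by omega : 2 ≤ finrank F V)
  by_cases hb : ∀ b, b ≠ 0 → frob hF b = b → μ b = 1
  · obtain ⟨k1, k2⟩ := H16.RU.kq un.toGe μ ⟨⟨l, l0, hl⟩, hb, m1⟩
    obtain ⟨k3, k4⟩ := k2 φ hφ
    obtain ⟨δ, d1, d2⟩ : ∃ δ : ℂ, δ * δ = 1 ∧ Mu hF μ = δ * (q - 1) :=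
      ⟨Mu hF μ / (q - 1), by field_simp; exact k1, by field_simp⟩
    have mem : ∀ c : ℂ, δ • opK C φ + c • φ ∈ PF C μ := fun c =>
      add_mem (Submodule.smul_mem _ _ k3) (Submodule.smul_mem _ _ hφ)
    have inv : ∀ c : ℂ, ∀ h ∈ H, ∀ x, (δ • opK C φ + c • φ) (h • x) = (δ • opK C φ + c • φ) x :=
      fun c h hh x => by simp only [Pi.add_apply, Pi.smul_apply, opK_smul un, hH h hh]
    have s1 : ((-1 : ℂ) ^ j) ^ 2 = 1 := by rw [← pow_mul, mul_comm, pow_mul]; simp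
    have e1 : 2 * (j + 2) - 3 = 2 * j + 1 := by omega
    have e2 : 2 * (j + 2) - 2 = 2 * j + 2 := by omega
    have e3 : j + 2 - 1 = j + 1 := rfl
    rw [hj, d2, e1, Nat.add_sub_cancel, neg_pow] at k4
    by_cases z : δ • opK C φ + ((-1) ^ j * q ^ j : ℂ) • φ = 0
    · have z' : δ • opK C φ + (-((-1) ^ j * q ^ (j + 1)) : ℂ) • φ ≠ 0 := fun e => φ0 (by
        have : ((-1) ^ j * q ^ j * (q + 1) : ℂ) • φ = 0 := by linear_combination (norm := module) z - e
        refine (smul_eq_zero.1 this).resolve_left (mul_ne_zero (mul_ne_zero (by simp) (by simp [q0])) ?_)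
        exact_mod_cast (by omega : q + 1 ≠ 0))
      have t := ty_of un (mem _) z' (inv _) (η := (q - 1) * q ^ (finrank F V - 2) * aa q (finrank F V - 1))
        (mul_ne_zero (mul_ne_zero q1 (pow_ne_zero _ q0)) (a0 _ (by omega))) fun v => by
          simp only [map_add, map_smul, k4, Pi.add_apply, Pi.smul_apply, smul_eq_mul, hj, d2, e1, e3,
            Nat.add_sub_cancel, aa_cast]
          linear_combination (-(q - 1) * q ^ (2 * j + 1) * φ v - (q - 1) * δ * opK C φ v * (-1) ^ j *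
            q ^ j * (q - 1) + 0) * d1 + (q - 1) * q ^ (2 * j + 1) * φ v * s1
      refine (fin _ _ t (n2.imp_right ?_)).1 (Int.natCast_dvd_natCast.2
        ((heis H19.RU.ha H un _ _ t).2 _ _ (by omega) (aa_cop (by omega)) rfl))
      rintro ⟨φ', h', rfl⟩
      exact yo_inf un (mem _) h' l0 hl
    · have t := ty_of un (mem _) z (inv _) (η := (q - 1) * q ^ (finrank F V - 1) * aa q (finrank F V - 2))
        (mul_ne_zero (mul_ne_zero q1 (pow_ne_zero _ q0)) (a0 _ (by omega))) fun v => by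
          simp only [map_add, map_smul, k4, Pi.add_apply, Pi.smul_apply, smul_eq_mul, hj, d2, e1, e3,
            Nat.add_sub_cancel, aa_cast]
          linear_combination (-(q - 1) * q ^ (2 * j + 1) * φ v - (q - 1) * δ * opK C φ v * (-1) ^ j *
            q ^ j * (q - 1) + 0) * d1 + (q - 1) * q ^ (2 * j + 1) * φ v * s1
      have := dp un μ ⟨⟨l, l0, hl⟩, hb, m1⟩ _ (mem _) z (δ * (-1) ^ j * q ^ (j + 1)) (by
        rw [hj, e2]; linear_combination q ^ (2 * j + 2) * ((-1) ^ j) ^ 2 * d1 + q ^ (2 * j + 2) * s1) (by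
        ext v
        simp only [map_add, map_smul, k4, Pi.add_apply, Pi.smul_apply, smul_eq_mul]
        linear_combination (-(-1) ^ j * q ^ j * opK C φ v) * d1 - δ * q ^ (2 * j + 1) * φ v * s1)
      refine (fin _ _ t (Or.inl n1)).2 ?_
      rw [← this] at N1
      exact (dvd_sub N1 (dvd_mul_left (q : ℤ) _)).trans (dvd_of_eq (by rw [mul_add, mul_one]; abel))
  · push Not at hb
    obtain ⟨b, b0, hb, hm⟩ := hb
    have M0 : Mu hF μ = 0 := by
      have e := Equiv.sum_comp (Equiv.mulLeft₀ b b0)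
        fun a : F => if a ≠ 0 ∧ a + frob hF a = 0 then μ a else 0
      have : μ b * Mu hF μ = Mu hF μ := by
        rw [Mu, Finset.mul_sum]
        convert e using 2 with a
        simp [hb, ← mul_add, b0]
      exact (mul_eq_zero.1 (by rw [sub_mul, this, one_mul, sub_self])).resolve_left (sub_ne_zero.2 hm)
    have t := ty_of un hφ φ0 hH (mul_ne_zero q1 (pow_ne_zero _ q0)) fun v => by
      rw [M0, zero_mul, sub_zero]
    obtain ⟨m, hm⟩ := (heis H19.RU.ha H un _ _ t).1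
    have h1 : (q : ℂ) ^ j * finrank ℂ (Yo G φ) = Np q (finrank F V) * m := by
      refine mul_left_cancel₀ (mul_ne_zero q1 (pow_ne_zero (j + 1) q0)) ?_
      rw [show 2 * finrank F V - 3 = 2 * j + 1 by omega, show finrank F V - 1 = j + 1 by omega] at hm
      linear_combination hm
    have h2 : (q : ℤ) ^ j * finrank ℂ (Yo G φ) = Np q (finrank F V) * m := by exact_mod_cast h1
    have h3 : Np q (finrank F V) ∣ finrank ℂ (Yo G φ) :=
      (Np_cop (by omega)).pow_right.dvd_of_dvd_mul_left ⟨_, h2⟩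
    have h4 : (0 : ℤ) < finrank ℂ (Yo G φ) := by
      exact_mod_cast Nat.pos_of_ne_zero (mt Submodule.finrank_eq_zero.1 t.1)
    exact (fin _ _ t (Or.inl n0)).2 (le_antisymm (yo_le un hφ) (Int.le_of_dvd h4 h3) ▸ N1)

end H25.RU
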