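import Cfsg.Agent.H1.SN0

/-! The geometry of Sylow subgroups of prime order: chunk `GEO1` of notes/SN.md. -/

open Subgroup
open scoped Pointwise

namespace H25.SN

open H1.SN (lines LS)

universe u

section comb

variable {P L : Type*} [Finite P] [Finite L] (I : P → L → Prop) (S : Set L) (s w : ℕ)

theorem flags (hs : ∀ l ∈ S, {q | I q l}.ncard = s) (hw : ∀ q, {l | l ∈ S ∧ I q l}.ncard = w) :
    Nat.card P * w = S.ncard * s := by
  classical
  have := Fintype.ofFinite P
  have := Fintype.ofFinite L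
  have h := Finset.card_mul_eq_card_mul (s := (Finset.univ : Finset P)) (t := S.toFinset) I
    (m := w) (n := s) (fun q _ => by
      rw [← hw q, Set.ncard_eq_toFinset_card']
      congr 1
      ext l
      simp [Finset.mem_bipartiteAbove]) (fun l hl => by
      rw [← hs l (by simpa using hl), Set.ncard_eq_toFinset_card']
      congr 1
      ext q
      simp [Finset.mem_bipartiteBelow])
  rwa [Finset.card_univ, ← Nat.card_eq_fintype_card, ← Set.ncard_eq_toFinset_card'] at h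

/-- the number of lines meeting a given line -/
theorem meeting (hs : ∀ l ∈ S, {q | I q l}.ncard = s) (hw : ∀ q, {l | l ∈ S ∧ I q l}.ncard = w)
    (uniq : ∀ l ∈ S, ∀ l' ∈ S, ∀ q r, q ≠ r → I q l → I r l → I q l' → I r l' → l = l')
    {l₀ : L} (h₀ : l₀ ∈ S) :
    S.ncard = 1 + s * (w - 1) + {l | l ∈ S ∧ l ≠ l₀ ∧ ¬ ∃ q, I q l₀ ∧ I q l}.ncard := by
  classical
  have := Fintype.ofFinite P
  have := Fintype.ofFinite L
  have h := Finset.card_mul_eq_card_mul (s := {q | I q l₀}.toFinset)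
    (t := {l | l ∈ S ∧ l ≠ l₀ ∧ ∃ q, I q l₀ ∧ I q l}.toFinset) I
    (m := w - 1) (n := 1) (fun q hq => by
      have hq' : I q l₀ := by simpa using hq
      rw [← hw q, ← Set.ncard_sdiff_singleton_of_mem (s := {l | l ∈ S ∧ I q l}) (a := l₀)
        ⟨h₀, hq'⟩, Set.ncard_eq_toFinset_card']
      congr 1
      ext l
      simp only [Finset.mem_bipartiteAbove, Set.mem_toFinset, Set.mem_ofPred_eq, Set.mem_sdiff,
        Set.mem_singleton_iff]
      exact ⟨fun h => ⟨⟨h.1.1, h.2⟩, h.1.2.1⟩, fun h => ⟨⟨h.1.1, h.2, q, hq', h.1.2⟩, h.1.2⟩⟩)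
    (fun l hl => by
      rw [Set.mem_toFinset] at hl
      obtain ⟨hl, hne, q, hq₀, hq⟩ := hl
      rw [Finset.card_eq_one]
      refine ⟨q, ?_⟩
      ext r
      simp only [Finset.mem_bipartiteBelow, Set.mem_toFinset, Set.mem_ofPred_eq,
        Finset.mem_singleton]
      refine ⟨fun hr => ?_, fun hr => hr ▸ ⟨hq₀, hq⟩⟩
      by_contra hrq
      exact hne (uniq l hl l₀ h₀ r q hrq hr.2 hq hr.1 hq₀))
  rw [← Set.ncard_eq_toFinset_card', ← Set.ncard_eq_toFinset_card', hs l₀ h₀, mul_one] at h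
  rw [h, ← Set.ncard_singleton l₀, ← Set.ncard_union_eq, ← Set.ncard_union_eq]
  · congr 1
    ext l
    simp only [Set.mem_union, Set.mem_singleton_iff, Set.mem_ofPred_eq]
    constructor
    · intro hl
      by_cases h1 : l = l₀
      · exact Or.inl (Or.inl h1)
      by_cases h2 : ∃ q, I q l₀ ∧ I q l
      · exact Or.inl (Or.inr ⟨hl, h1, h2⟩)
      · exact Or.inr ⟨hl, h1, h2⟩
    · rintro ((rfl | h1) | h1)
      exacts [h₀, h1.1, h1.1]
  · rw [Set.disjoint_left]
    rintro l (rfl | h1) h2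
    · exact h2.2.1 rfl
    · exact h2.2.2 h1.2.2
  · rw [Set.disjoint_left]
    rintro l rfl h2
    exact h2.2.1 rfl

end comb

/-- the arithmetic of the flag count -/
theorem arith {p n a w b M : ℕ} (hp : 2 ≤ p) (hn : n < p) (ha : 1 ≤ a) (hw : 2 ≤ w)
    (h1 : (n * p + 1) * w = b * (a * p + 1)) (h2 : b = 1 + (a * p + 1) * (w - 1) + M) :
    a = 1 ∧ M = 0 ∧ 3 * w ≤ p + 1 := by
  obtain ⟨v, rfl⟩ : ∃ v, w = v + 1 := ⟨w - 1, by omega⟩
  rw [Nat.add_sub_cancel] at h2
  obtain ⟨d, rfl⟩ : ∃ d, p = n + 1 + d := ⟨p - (n + 1), by omega⟩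
  generalize hq : n + 1 + d = p at *
  have hv : 1 ≤ v := by omega
  have ha1 : a = 1 := by
    by_contra h
    have ha2 : 2 * p ≤ a * p := Nat.mul_le_mul_right p (by omega)
    have e1 : n * p + 1 ≤ p * p := by nlinarith
    have e2 : (a * p + 1) * v * (a * p + 1) ≤ b * (a * p + 1) :=
      Nat.mul_le_mul_right _ (by omega)
    have e3 : (n * p + 1) * (v + 1) ≤ p * p * (2 * v) := Nat.mul_le_mul e1 (by omega)
    have e4 : (2 * p) * v * (2 * p) ≤ (a * p + 1) * v * (a * p + 1) :=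
      Nat.mul_le_mul (Nat.mul_le_mul_right _ (by omega)) (by omega)
    have e5 : 0 < p * p * v := by positivity
    nlinarith
  subst ha1
  rw [one_mul] at h1 h2
  have key : p * ((v + 1) * (d + 3)) + M * (p + 1) = p * (p + 1) := by
    subst h2
    have : (n : ℤ) = p - 1 - d := by omega
    zify at h1 ⊢
    rw [this] at h1
    linear_combination -h1
  have hM : p ∣ M := by
    have h3 : p ∣ M * (p + 1) :=
      (Nat.dvd_add_right (Dvd.intro _ rfl)).1 (key ▸ Dvd.intro _ rfl)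
    exact (Nat.Coprime.dvd_mul_right (by simp)).1 h3
  obtain ⟨k, rfl⟩ := hM
  have key2 : (v + 1) * (d + 3) + k * (p + 1) = p + 1 := by
    refine Nat.eq_of_mul_eq_mul_left (show 0 < p by omega) ?_
    rw [← key]; ring
  have hk : k = 0 := by
    by_contra h
    have : p + 1 ≤ k * (p + 1) := Nat.le_mul_of_pos_left _ (by omega)
    have : 0 < (v + 1) * (d + 3) := by positivity
    omega
  subst hk
  refine ⟨rfl, by simp, ?_⟩
  nlinarith

variable {G : Type u} [Group G] [Finite G] {p : ℕ} [hp : Fact p.Prime]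

/-- the Sylow subgroups have order `p` -/
def OP (p : ℕ) (G : Type u) [Group G] : Prop := ∀ Q : Sylow p G, Nat.card Q = p

omit [Finite G] hp in
theorem isP {x : G} (hx : orderOf x = p) : IsPGroup p (zpowers x) :=
  IsPGroup.of_card (n := 1) (by rw [Nat.card_zpowers, hx, pow_one])

theorem op_of {x : G} (hx : orderOf x = p) (hi : ¬ p ∣ (zpowers x).index) : OP p G := by
  intro Q
  have h := Q.card_eq_multiplicity
  rw [← ((isP hx).toSylow hi).card_eq_multiplicity] at h
  rw [h]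
  exact (Nat.card_zpowers x).trans hx

theorem OP.eq_zpowers (h : OP p G) (Q : Sylow p G) {u : G} (hu : u ∈ (Q : Subgroup G))
    (h1 : u ≠ 1) : (Q : Subgroup G) = zpowers u := by
  have hc : Nat.card (zpowers u) ∣ p := by
    rw [← h Q]; exact card_dvd_of_le (zpowers_le.2 hu)
  rcases (Nat.dvd_prime hp.out).1 hc with e | e
  · rw [Nat.card_zpowers, orderOf_eq_one_iff] at e
    exact (h1 e).elim
  · exact (eq_of_le_of_card_ge (zpowers_le.2 hu) (by rw [e]; exact (h Q).le)).symm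

/-- a non-trivial element of a point fixes only that point -/
theorem OP.fix (h : OP p G) {Q R : Sylow p G} {u : G} (hu : u ∈ (Q : Subgroup G)) (h1 : u ≠ 1)
    (e : u • R = R) : Q = R := by
  have h2 : u ∈ (Q : Subgroup G) ⊓ normalizer (R : Set G) :=
    ⟨hu, Sylow.smul_eq_iff_mem_normalizer.1 e⟩
  rw [Q.isPGroup'.inf_normalizer_sylow R] at h2
  exact Sylow.ext ((h.eq_zpowers Q hu h1).trans (h.eq_zpowers R h2.2 h1).symm)

theorem OP.modEq (h : OP p G) (Q : Sylow p G) (S : Set (Sylow p G))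
    (hS : ∀ u ∈ (Q : Subgroup G), ∀ R ∈ S, u • R ∈ S) :
    S.ncard ≡ (S ∩ {Q}).ncard [MOD p] := by
  let T : SubMulAction (Q : Subgroup G) (Sylow p G) := ⟨S, fun u _ hR => hS u u.2 _ hR⟩
  have h1 := Q.isPGroup'.card_modEq_card_fixedPoints T
  have h2 : Nat.card T = S.ncard := Nat.card_coe_set_eq S
  have h3 : Nat.card (MulAction.fixedPoints (Q : Subgroup G) T) = (S ∩ {Q}).ncard := by
    rw [Nat.card_coe_set_eq, ← Set.ncard_image_of_injective _ (Subtype.val_injective
      (p := fun R => R ∈ T))]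
    congr 1
    ext R
    constructor
    · rintro ⟨R, hR, rfl⟩
      refine ⟨R.2, ?_⟩
      have : Nontrivial (Q : Subgroup G) :=
        Finite.one_lt_card_iff_nontrivial.1 (by rw [h Q]; exact hp.out.one_lt)
      obtain ⟨u, hu⟩ := exists_ne (1 : (Q : Subgroup G))
      exact (h.fix u.2 (fun e => hu (Subtype.ext e)) (congrArg Subtype.val (hR u))).symm
    · rintro ⟨hR, rfl⟩
      exact ⟨⟨R, hR⟩, fun u => Subtype.ext
        (Sylow.smul_eq_iff_mem_normalizer.2 (le_normalizer u.2)), rfl⟩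
  rwa [h2, h3] at h1

omit [Finite G] hp in
theorem inc (g : G) (Q : Sylow p G) (H : Subgroup G) :
    ((g • Q : Sylow p G) : Subgroup G) ≤ MulAut.conj g • H ↔ (Q : Subgroup G) ≤ H :=
  pointwise_smul_le_pointwise_smul_iff

omit [Finite G] hp in
theorem inc' {g : G} {H : Subgroup G} (hg : MulAut.conj g • H = H) (Q : Sylow p G) :
    ((g • Q : Sylow p G) : Subgroup G) ≤ H ↔ (Q : Subgroup G) ≤ H := by
  conv_lhs => rw [← hg]
  exact inc g Q H

omit [Finite G] in
theorem cj_self {g : G} {H : Subgroup G} (hg : g ∈ H) : MulAut.conj g • H = H :=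
  conj_smul_eq_self_of_mem hg

omit [Finite G] in
theorem cj_mul (g k : G) (H : Subgroup G) :
    MulAut.conj (g * k) • H = MulAut.conj g • MulAut.conj k • H := by
  rw [map_mul, mul_smul]

omit [Finite G] in
theorem cj_inv (g : G) (H : Subgroup G) : MulAut.conj g⁻¹ • MulAut.conj g • H = H := by
  rw [← cj_mul, inv_mul_cancel, map_one, one_smul]

omit [Finite G] in
theorem cj_inv' (g : G) (H : Subgroup G) : MulAut.conj g • MulAut.conj g⁻¹ • H = H := by
  rw [← cj_mul, mul_inv_cancel, map_one, one_smul]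

omit [Finite G] in
theorem lines_cj {L H : Subgroup G} (h : H ∈ lines L) (g : G) : MulAut.conj g • H ∈ lines L := by
  obtain ⟨k, rfl⟩ := h
  exact ⟨g * k, (cj_mul g k L).symm⟩

omit [Finite G] in
theorem card_cj (g : G) (H : Subgroup G) : Nat.card ↥(MulAut.conj g • H) = Nat.card H :=
  Nat.card_congr (equivSMul (MulAut.conj g) H).symm.toEquiv

omit [Finite G] hp in
theorem pts_cj (g : G) (H : Subgroup G) :
    {Q : Sylow p G | (Q : Subgroup G) ≤ MulAut.conj g • H}.ncard =
      {Q : Sylow p G | (Q : Subgroup G) ≤ H}.ncard := by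
  rw [← Set.ncard_image_of_injective {Q : Sylow p G | (Q : Subgroup G) ≤ H}
    (MulAction.injective g (β := Sylow p G))]
  congr 1
  ext Q
  constructor
  · intro hQ
    refine ⟨g⁻¹ • Q, ?_, smul_inv_smul g Q⟩
    rw [Set.mem_ofPred_eq, ← inc g, smul_inv_smul]
    exact hQ
  · rintro ⟨R, hR, rfl⟩
    exact (inc g R H).2 hR

omit [Finite G] hp in
theorem thru_cj (L : Subgroup G) (g : G) (Q : Sylow p G) :
    {H | H ∈ lines L ∧ ((g • Q : Sylow p G) : Subgroup G) ≤ H}.ncard =
      {H | H ∈ lines L ∧ (Q : Subgroup G) ≤ H}.ncard := by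
  rw [← Set.ncard_image_of_injective {H | H ∈ lines L ∧ (Q : Subgroup G) ≤ H}
    (MulAction.injective (MulAut.conj g) (β := Subgroup G))]
  congr 1
  ext H
  constructor
  · rintro ⟨hH, hQ⟩
    refine ⟨MulAut.conj g⁻¹ • H, ⟨lines_cj hH _, ?_⟩, cj_inv' g H⟩
    rw [← inc g, cj_inv']
    exact hQ
  · rintro ⟨K, ⟨hK, hQ⟩, rfl⟩
    exact ⟨lines_cj hK g, (inc g Q K).2 hQ⟩

theorem geo1 : H1.SN.GEO1.{u} := by
  intro G _ _ _ p x y hG hp hx hi hN hy hyx hyN
  classical
  have := Fact.mk hp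
  have h := op_of hx hi
  set P := (isP hx).toSylow hi with hP
  have hPc : (P : Subgroup G) = zpowers x := rfl
  have hPy : (P : Subgroup G) ≤ centralizer {y} := by
    rw [hPc, zpowers_le, mem_centralizer_singleton_iff]
    exact (mem_centralizer_singleton_iff.1 hyx).symm
  -- a minimal subgroup of the centralizer containing two points
  have hex : ∃ k, ∃ L : Subgroup G, L ≤ centralizer {y} ∧ (∃ Q R : Sylow p G, Q ≠ R ∧
      (Q : Subgroup G) ≤ L ∧ (R : Subgroup G) ≤ L) ∧ Nat.card L = k := by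
    obtain ⟨c, hc, hcN⟩ := SetLike.not_le_iff_exists.1 hyN
    refine ⟨_, centralizer {y}, le_rfl, ⟨c • P, P, fun e => hcN ?_, (inc' (cj_self hc) P).2 hPy,
      hPy⟩, rfl⟩
    exact Sylow.smul_eq_iff_mem_normalizer.1 e
  obtain ⟨L, hL, ⟨Q₀, R₀, hQR, hQ₀, hR₀⟩, hLk⟩ := Nat.find_spec hex
  have hmin : ∀ K : Subgroup G, K ≤ L → ∀ Q R : Sylow p G, Q ≠ R → (Q : Subgroup G) ≤ K →
      (R : Subgroup G) ≤ K → K = L := fun K hK Q R hne hQ hR =>
    eq_of_le_of_card_ge hK (hLk ▸ Nat.find_min' hex ⟨K, hK.trans hL, ⟨Q, R, hne, hQ, hR⟩, rfl⟩)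
  have uniq : ∀ H ∈ lines L, ∀ K ∈ lines L, ∀ Q R : Sylow p G, Q ≠ R → (Q : Subgroup G) ≤ H →
      (R : Subgroup G) ≤ H → (Q : Subgroup G) ≤ K → (R : Subgroup G) ≤ K → H = K := by
    rintro _ ⟨g, rfl⟩ _ ⟨k, rfl⟩ Q R hne h1 h2 h3 h4
    have e := hmin (L ⊓ MulAut.conj g⁻¹ • MulAut.conj k • L) inf_le_left (g⁻¹ • Q) (g⁻¹ • R)
      (fun e => hne (MulAction.injective _ e))
      (le_inf (by rw [← inc g, smul_inv_smul]; exact h1) ((inc _ _ _).2 h3))
      (le_inf (by rw [← inc g, smul_inv_smul]; exact h2) ((inc _ _ _).2 h4))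
    have e2 : L = MulAut.conj g⁻¹ • MulAut.conj k • L :=
      eq_of_le_of_card_ge (inf_eq_left.1 e) (by rw [card_cj, card_cj])
    conv_lhs => rw [e2, cj_inv']
  set s := {Q : Sylow p G | (Q : Subgroup G) ≤ L}.ncard with hs
  set w := {H | H ∈ lines L ∧ (P : Subgroup G) ≤ H}.ncard with hw
  have pts : ∀ H ∈ lines L, {Q : Sylow p G | (Q : Subgroup G) ≤ H}.ncard = s := by
    rintro _ ⟨g, rfl⟩
    exact pts_cj g L
  have thru : ∀ Q : Sylow p G, {H | H ∈ lines L ∧ (Q : Subgroup G) ≤ H}.ncard = w := by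
    intro Q
    obtain ⟨g, rfl⟩ := MulAction.exists_smul_eq G P Q
    exact thru_cj L g P
  have hL0 : L ∈ lines L := ⟨1, by rw [map_one, one_smul]⟩
  have hfl := flags (fun (Q : Sylow p G) (H : Subgroup G) => (Q : Subgroup G) ≤ H) (lines L) s w
    pts thru
  have hme := fun H hH => meeting (fun (Q : Sylow p G) (H : Subgroup G) => (Q : Subgroup G) ≤ H)
    (lines L) s w pts thru uniq (l₀ := H) hH
  -- the numbers
  have hs1 : s ≡ 1 [MOD p] := by
    have := h.modEq Q₀ {Q : Sylow p G | (Q : Subgroup G) ≤ L}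
      fun u hu R hR => (inc' (cj_self (hQ₀ hu)) R).2 hR
    rwa [Set.inter_singleton_of_mem (by exact hQ₀), Set.ncard_singleton] at this
  have hs2 : 2 ≤ s := by
    rw [← Set.ncard_pair hQR]
    exact Set.ncard_le_ncard (by rintro Q (rfl | rfl); exacts [hQ₀, hR₀])
  obtain ⟨a, ha⟩ : ∃ a, s = a * p + 1 := by
    obtain ⟨a, ha⟩ := (Nat.modEq_iff_dvd' (by omega)).1 hs1.symm
    exact ⟨a, by rw [mul_comm, ← ha]; omega⟩
  have ha1 : 1 ≤ a := by
    by_contra h0
    obtain rfl : a = 0 := by omega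
    omega
  have hNc : Nat.card (Sylow p G) < p ^ 2 := by rw [P.card_eq_index_normalizer]; exact hN
  have hN1 := card_sylow_modEq_one p G
  obtain ⟨n, hn⟩ : ∃ n, Nat.card (Sylow p G) = n * p + 1 := by
    obtain ⟨n, hn⟩ := (Nat.modEq_iff_dvd' Nat.card_pos).1 hN1.symm
    have : 0 < Nat.card (Sylow p G) := Nat.card_pos
    exact ⟨n, by rw [mul_comm, ← hn]; omega⟩
  have hnp : n < p := by
    by_contra h0
    have := Nat.mul_le_mul_right p (not_lt.1 h0)
    nlinarith
  have hw1 : 1 ≤ w := by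
    rw [← thru Q₀]
    exact (Set.ncard_pos).2 ⟨L, hL0, hQ₀⟩
  have hw2 : 2 ≤ w := by
    by_contra h0
    have hw' : w = 1 := by omega
    rw [hw', mul_one] at hfl
    set b := (lines L).ncard
    have hb1 : b ≡ 1 [MOD p] := by
      have := (Nat.ModEq.mul_left b hs1).symm.trans (hfl ▸ hN1)
      rwa [mul_one] at this
    have hb2 : b < p := by
      by_contra h1
      have e1 : p * p ≤ b * s := Nat.mul_le_mul (not_lt.1 h1) (by nlinarith)
      nlinarith
    have hb : b = 1 := Nat.ModEq.eq_of_lt_of_lt hb1 hb2 hp.one_lt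
    rw [hb, one_mul] at hfl
    have hall : {Q : Sylow p G | (Q : Subgroup G) ≤ L} = Set.univ :=
      Set.eq_of_subset_of_ncard_le (Set.subset_univ _) (by rw [Set.ncard_univ, hfl])
    have hx1 : x ≠ 1 := fun e => hp.one_lt.ne' (by rw [← hx, e, orderOf_one])
    have hnc : normalClosure ({x} : Set G) ≤ centralizer {y} := by
      refine (closure_le _).2 fun z hz => ?_
      obtain ⟨x', hx', hz'⟩ := Group.mem_conjugatesOfSet_iff.1 hz
      obtain rfl : x = x' := (Set.mem_singleton_iff.1 hx').symm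
      obtain ⟨c, rfl⟩ := isConj_iff.1 hz'
      have h1 : ((c • P : Sylow p G) : Subgroup G) ≤ L := (hall ▸ Set.mem_univ (c • P) :)
      exact hL (h1 (smul_mem_pointwise_smul _ (MulAut.conj c) _ (mem_zpowers _)))
    rcases IsSimpleGroup.eq_bot_or_eq_top_of_normal (normalClosure ({x} : Set G)) inferInstance
      with e | e
    · exact hx1 (mem_bot.1 (e ▸ subset_normalClosure (Set.mem_singleton x)))
    · have hyc : y ∈ center G := mem_center_iff.2 fun g =>
        mem_centralizer_singleton_iff.1 (hnc (e ▸ mem_top g))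
      rcases IsSimpleGroup.eq_bot_or_eq_top_of_normal (center G) inferInstance with e2 | e2
      · exact hy (mem_bot.1 (e2 ▸ hyc))
      · have : commutator G = ⊥ := by
          rw [_root_.commutator_def, commutator_eq_bot_iff_le_centralizer]
          intro g _
          rw [mem_centralizer_iff]
          exact fun k _ => mem_center_iff.1 (e2 ▸ mem_top g) k
        exact hy (mem_bot.1 (this ▸ hG ▸ mem_top y))
  rw [hn, ha] at hfl
  have har := fun H hH => arith hp.two_le hnp ha1 hw2 hfl (ha ▸ hme H hH)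
  have hs' : s = p + 1 := by rw [ha, (har L hL0).1, one_mul]
  refine ⟨L, w, hL, hw2, (har L hL0).2.2, uniq, fun H hH => (pts H hH).trans hs', thru,
    fun H hH K hK => ?_, fun Q => ?_⟩
  · by_cases e : K = H
    · subst e
      obtain ⟨Q, hQ⟩ := (Set.ncard_pos (s := {Q : Sylow p G | (Q : Subgroup G) ≤ K})).1
        (by rw [pts K hK]; omega)
      exact ⟨Q, hQ, hQ⟩
    · by_contra h0
      have := (Set.ncard_eq_zero).1 (har H hH).2.1
      exact (this ▸ (⟨hK, e, h0⟩ : K ∈ {l | l ∈ lines L ∧ l ≠ H ∧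
        ¬ ∃ q : Sylow p G, (q : Subgroup G) ≤ H ∧ (q : Subgroup G) ≤ l}) : K ∈ (∅ : Set _))
  · have e1 := hme L hL0
    rw [(har L hL0).2.1, hs'] at e1
    have e2 := Set.ncard_inter_add_ncard_sdiff_eq_ncard (lines L) {H | (Q : Subgroup G) ≤ H}
    have e3 : (lines L ∩ {H | (Q : Subgroup G) ≤ H}).ncard = w := thru Q
    have e4 : (lines L \ {H | (Q : Subgroup G) ≤ H}).ncard =
      {H | H ∈ lines L ∧ ¬ (Q : Subgroup G) ≤ H}.ncard := rfl
    rw [e3, e4, e1, add_mul] at e2
    omega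

end H25.SN
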