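import Cfsg.Agent.H25.SN1

/-! The geometry of Sylow subgroups of prime order: chunk `GEO2` of notes/SN.md. -/

open Subgroup
open scoped Pointwise

namespace H25.SN

open H1.SN (lines LS)

universe u

variable {G : Type u} [Group G] [Finite G] {p : ℕ} [hp : Fact p.Prime] {L : Subgroup G} {w : ℕ}

omit [Finite G] hp in
theorem self_fix {Q : Sylow p G} {u : G} (hu : u ∈ (Q : Subgroup G)) : u • Q = Q :=
  Sylow.smul_eq_iff_mem_normalizer.2 (le_normalizer hu)

omit [Finite G] hp in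
theorem cent_self {Q : Sylow p G} {k : G} (hk : ∀ u ∈ (Q : Subgroup G), k * u = u * k) :
    k • Q = Q :=
  Sylow.smul_eq_iff_mem_normalizer.2 (centralizer_le_normalizer _
    (mem_centralizer_iff.2 fun u hu => (hk u hu).symm))

/-- a point is regular on the other points of a line -/
theorem reg (h : OP p G) (S : LS p L w) {H : Subgroup G} (hH : H ∈ lines L) {Q R R' : Sylow p G}
    (hQ : (Q : Subgroup G) ≤ H) (hR : (R : Subgroup G) ≤ H) (hR' : (R' : Subgroup G) ≤ H)
    (h1 : R ≠ Q) (h2 : R' ≠ Q) : ∃ u ∈ (Q : Subgroup G), u • R = R' := by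
  have hinj : Function.Injective fun u : (Q : Subgroup G) => (u : G) • R := by
    intro u v e
    by_contra hne
    refine h1 (h.fix (u := (v : G)⁻¹ * u) (mul_mem (inv_mem v.2) u.2)
      (fun e' => hne (Subtype.ext (inv_mul_eq_one.1 e').symm)) ?_).symm
    rw [mul_smul, inv_smul_eq_iff]
    exact e
  have hsub : Set.range (fun u : (Q : Subgroup G) => (u : G) • R) ⊆
      {T : Sylow p G | (T : Subgroup G) ≤ H} \ {Q} := by
    rintro _ ⟨u, rfl⟩
    refine ⟨(inc' (cj_self (hQ u.2)) R).2 hR, fun e => h1 ?_⟩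
    exact MulAction.injective (u : G) ((Set.mem_singleton_iff.1 e).trans (self_fix u.2).symm)
  have := Set.eq_of_subset_of_ncard_le hsub (by
    rw [Set.ncard_sdiff_singleton_of_mem (by exact hQ), S.pts H hH, Set.ncard_range_of_injective hinj]
    exact (h Q).ge)
  obtain ⟨u, hu⟩ : R' ∈ Set.range (fun u : (Q : Subgroup G) => (u : G) • R) := this ▸ ⟨hR', h2⟩
  exact ⟨u, u.2, hu⟩

theorem cent_fix (h : OP p G) (S : LS p L w) {H : Subgroup G} (hH : H ∈ lines L)
    {Q R : Sylow p G} (hQ : (Q : Subgroup G) ≤ H) (hR : (R : Subgroup G) ≤ H) (h1 : R ≠ Q) {k : G}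
    (hk : ∀ u ∈ (Q : Subgroup G), k * u = u * k) (e : k • R = R) (T : Sylow p G)
    (hT : (T : Subgroup G) ≤ H) : k • T = T := by
  by_cases h2 : T = Q
  · exact h2 ▸ cent_self hk
  · obtain ⟨u, hu, rfl⟩ := reg h S hH hQ hR hT h1 h2
    rw [← mul_smul, hk u hu, mul_smul, e]

theorem three (h : OP p G) (S : LS p L w) {H : Subgroup G} (hH : H ∈ lines L)
    {Q R R' : Sylow p G} (hQ : (Q : Subgroup G) ≤ H) (hR : (R : Subgroup G) ≤ H)
    (hR' : (R' : Subgroup G) ≤ H) (h1 : R ≠ Q) (h2 : R' ≠ Q) (h3 : R ≠ R') {k : G}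
    (e1 : k • Q = Q) (e2 : k • R = R) (e3 : k • R' = R') (T : Sylow p G)
    (hT : (T : Subgroup G) ≤ H) : k • T = T := by
  obtain ⟨u, hu, rfl⟩ := reg h S hH hQ hR hR' h1 h2
  have hu1 : u ≠ 1 := fun e => h3 (by rw [e, one_smul])
  have hku : k * u * k⁻¹ ∈ (Q : Subgroup G) := by
    have : MulAut.conj k • u ∈ ((k • Q : Sylow p G) : Subgroup G) :=
      smul_mem_pointwise_smul _ (MulAut.conj k) _ hu
    rwa [e1] at this
  have e : u⁻¹ * (k * u * k⁻¹) = 1 := by
    by_contra hne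
    refine h1 (h.fix (mul_mem (inv_mem hu) hku) hne ?_).symm
    rw [mul_smul, inv_smul_eq_iff, mul_smul, inv_smul_eq_iff.2 e2.symm, mul_smul, e3]
  have hc : Commute k u := by
    rw [inv_mul_eq_one, eq_mul_inv_iff_mul_eq] at e
    exact e.symm
  refine cent_fix h S hH hQ hR h1 (fun v hv => ?_) e2 T hT
  rw [h.eq_zpowers Q hu hu1] at hv
  obtain ⟨n, rfl⟩ := hv
  exact hc.zpow_right n

theorem onl (h : OP p G) (S : LS p L w) {H : Subgroup G} (hH : H ∈ lines L) {Q : Sylow p G}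
    {u : G} (hu : u ∈ (Q : Subgroup G)) (h1 : u ≠ 1) (e : MulAut.conj u • H = H) :
    (Q : Subgroup G) ≤ H := by
  by_contra hQ
  have hst : (Q : Subgroup G) ≤ (MulAction.stabilizer (MulAut G) H).comap MulAut.conj := by
    rw [h.eq_zpowers Q hu h1, zpowers_le]
    exact e
  have := h.modEq Q {T : Sylow p G | (T : Subgroup G) ≤ H}
    fun v hv R hR => (inc' (hst hv) R).2 hR
  rw [S.pts H hH, Set.inter_singleton_of_notMem (by exact hQ), Set.ncard_empty] at this
  exact hp.out.one_lt.ne' (Nat.dvd_one.1 ((Nat.dvd_add_right dvd_rfl).1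
    (Nat.modEq_zero_iff_dvd.1 this)))

theorem onl_inj (h : OP p G) (S : LS p L w) {H : Subgroup G} (hH : H ∈ lines L) {Q : Sylow p G}
    (hQ : ¬ (Q : Subgroup G) ≤ H) {u v : G} (hu : u ∈ (Q : Subgroup G)) (hv : v ∈ (Q : Subgroup G))
    (e : MulAut.conj u • H = MulAut.conj v • H) : u = v := by
  by_contra hne
  refine hQ (onl h S hH (mul_mem (inv_mem hv) hu) (fun e' => hne (inv_mul_eq_one.1 e').symm) ?_)
  rw [cj_mul, e, cj_inv]

theorem step2 (h : OP p G) (S : LS p L w) {H : Subgroup G} (hH : H ∈ lines L) {P : Sylow p G}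
    (hP : ¬ (P : Subgroup G) ≤ H) {k : G} (hk : ∀ u ∈ (P : Subgroup G), k * u = u * k)
    (e : MulAut.conj k • H = H) (T : Sylow p G) (hT : (T : Subgroup G) ≤ H) : k • T = T := by
  classical
  have := Fintype.ofFinite G
  have := Fintype.ofFinite (Sylow p G)
  set F := {R : Sylow p G | (R : Subgroup G) ≤ H ∧ k • R = R} with hF
  have hc := Finset.card_mul_le_card_mul (s := (((P : Subgroup G) : Set G) \ {1}).toFinset)
    (t := F.toFinset) (fun u (R : Sylow p G) => (R : Subgroup G) ≤ MulAut.conj u • H)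
    (m := 1) (n := w - 1)
    (fun u hu => by
      rw [Set.mem_toFinset] at hu
      obtain ⟨R, h1, h2⟩ := S.meet H hH _ (lines_cj hH u)
      refine Finset.card_pos.2 ⟨R, ?_⟩
      rw [Finset.mem_bipartiteAbove, Set.mem_toFinset]
      refine ⟨⟨h1, ?_⟩, h2⟩
      by_contra hne
      refine hP (onl h S hH hu.1 hu.2 (S.uniq _ (lines_cj hH u) H hH _ _ hne ?_ h2
        ((inc' e R).2 h1) h1))
      refine (inc' ?_ R).2 h2
      rw [← cj_mul, hk u hu.1, cj_mul, e])
    (fun R hR => by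
      rw [Set.mem_toFinset] at hR
      rw [← S.thru R, ← Set.ncard_sdiff_singleton_of_mem
        (s := {K | K ∈ lines L ∧ (R : Subgroup G) ≤ K}) (a := H) ⟨hH, hR.1⟩,
        ← Set.ncard_coe_finset]
      refine Set.ncard_le_ncard_of_injOn (fun u => MulAut.conj u • H) (fun u hu => ?_)
        fun u hu v hv e => ?_
      · rw [Finset.mem_coe, Finset.mem_bipartiteBelow, Set.mem_toFinset] at hu
        exact ⟨⟨lines_cj hH u, hu.2⟩, fun e => hP (onl h S hH hu.1.1 hu.1.2 e)⟩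
      · rw [Finset.mem_coe, Finset.mem_bipartiteBelow, Set.mem_toFinset] at hu hv
        exact onl_inj h S hH hP hu.1.1 hv.1.1 e)
  rw [← Set.ncard_eq_toFinset_card', ← Set.ncard_eq_toFinset_card', mul_one,
    Set.ncard_sdiff_singleton_of_mem (by exact one_mem _), ← Nat.card_coe_set_eq] at hc
  have hP' : Nat.card ((P : Subgroup G) : Set G) = p := h P
  rw [hP'] at hc
  have h3 : 2 < F.ncard := by
    by_contra h0
    have := Nat.mul_le_mul_right (w - 1) (not_lt.1 h0)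
    have := S.three
    have := S.two
    omega
  obtain ⟨Q, R, R', hQ, hR, hR', h1, h2, h3⟩ := (Set.two_lt_ncard_iff (Set.toFinite _)).1 h3
  exact three h S hH hQ.1 hR.1 hR'.1 h1.symm h2.symm h3 hQ.2 hR.2 hR'.2 T hT

omit [Finite G] hp in
theorem fixl (S : LS p L w) {P : Sylow p G} {l l' K : Subgroup G} (hl : l ∈ lines L)
    (hl' : l' ∈ lines L) (hne : l ≠ l') (h1 : (P : Subgroup G) ≤ l) (h2 : (P : Subgroup G) ≤ l')
    (hK : K ∈ lines L) (hP : ¬ (P : Subgroup G) ≤ K) {k : G}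
    (e1 : ∀ T : Sylow p G, (T : Subgroup G) ≤ l → k • T = T)
    (e2 : ∀ T : Sylow p G, (T : Subgroup G) ≤ l' → k • T = T) : MulAut.conj k • K = K := by
  obtain ⟨Q, hQ, hQK⟩ := S.meet l hl K hK
  obtain ⟨R, hR, hRK⟩ := S.meet l' hl' K hK
  have hQR : Q ≠ R := fun e => hne (S.uniq l hl l' hl' Q P (fun e' => hP (e' ▸ hQK)) hQ h1
    (e ▸ hR) h2)
  refine S.uniq _ (lines_cj hK k) K hK Q R hQR ?_ ?_ hQK hRK
  · rw [← e1 Q hQ]; exact (inc k Q K).2 hQK
  · rw [← e2 R hR]; exact (inc k R K).2 hRK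

theorem step3 [IsSimpleGroup G] (h : OP p G) (S : LS p L w) {H : Subgroup G} (hH : H ∈ lines L)
    {P : Sylow p G} (hP : ¬ (P : Subgroup G) ≤ H) {k : G}
    (hk : ∀ u ∈ (P : Subgroup G), k * u = u * k) (e : MulAut.conj k • H = H) : k = 1 := by
  have h1 : ∀ l ∈ lines L, (P : Subgroup G) ≤ l → ∀ T : Sylow p G, (T : Subgroup G) ≤ l →
      k • T = T := by
    intro l hl hPl
    obtain ⟨Q, hQ, hQH⟩ := S.meet l hl H hH
    exact cent_fix h S hl hPl hQ (fun e' => hP (e' ▸ hQH)) hk (step2 h S hH hP hk e Q hQH)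
  obtain ⟨l, l', hl, hl', hne⟩ := (Set.one_lt_ncard_iff (Set.toFinite
    {K | K ∈ lines L ∧ (P : Subgroup G) ≤ K})).1 (by rw [S.thru P]; exact S.two)
  have h2 : ∀ T : Sylow p G, k • T = T := by
    intro T
    obtain ⟨K, hK, hT⟩ := (Set.ncard_pos (s := {K | K ∈ lines L ∧ (T : Subgroup G) ≤ K})).1
      (by rw [S.thru T]; have := S.two; omega)
    by_cases hPK : (P : Subgroup G) ≤ K
    · exact h1 K hK hPK T hT
    · exact step2 h S hK hPK hk
        (fixl S hl.1 hl'.1 hne hl.2 hl'.2 hK hPK (h1 l hl.1 hl.2) (h1 l' hl'.1 hl'.2)) T hT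
  have hker : k ∈ (MulAction.toPermHom G (Sylow p G)).ker := Equiv.ext h2
  rcases IsSimpleGroup.eq_bot_or_eq_top_of_normal (MulAction.toPermHom G (Sylow p G)).ker
    inferInstance with e' | e'
  · exact mem_bot.1 (e' ▸ hker)
  · obtain ⟨Q, hQ, -⟩ := S.meet H hH H hH
    obtain ⟨g, rfl⟩ := MulAction.exists_smul_eq G P Q
    have hg : g ∈ (MulAction.toPermHom G (Sylow p G)).ker := e' ▸ mem_top g
    have : g • P = P := Equiv.congr_fun (MonoidHom.mem_ker.1 hg) P
    exact (hP (this ▸ hQ)).elim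

theorem geo2 : H1.SN.GEO2.{u} := by
  intro G _ _ _ p r x y L w hp hx hi hr hrp hy hL S
  have := Fact.mk hp
  have h := op_of hx hi
  set P := (isP hx).toSylow hi with hP
  have hPc : (P : Subgroup G) = zpowers x := rfl
  have hC : ∀ k ∈ centralizer ({x} : Set G), ∀ u ∈ (P : Subgroup G), k * u = u * k := by
    rintro k hk _ ⟨n, rfl⟩
    exact Commute.zpow_right (mem_centralizer_singleton_iff.1 hk) n
  have hw := S.two
  obtain ⟨H, hH, hPH⟩ := (Set.ncard_pos (s := {K | K ∈ lines L ∧ ¬ (P : Subgroup G) ≤ K})).1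
    (by rw [S.off P]; exact Nat.mul_pos hp.pos (by omega))
  have up : (centralizer ({x} : Set G) : Set G).ncard ≤ p * (w - 1) := by
    rw [← S.off P]
    refine Set.ncard_le_ncard_of_injOn (fun c => MulAut.conj c • H) (fun c hc => ?_)
      fun c hc d hd e => ?_
    · refine ⟨lines_cj hH c, fun h1 => hPH ?_⟩
      rw [← inc c, cent_self (hC c hc)]
      exact h1
    · refine (inv_mul_eq_one.1 (step3 h S hH hPH (hC _ (mul_mem (inv_mem hd) hc)) ?_)).symm
      rw [cj_mul, show MulAut.conj c • H = MulAut.conj d • H from e, cj_inv]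
  have hz : ∀ l : Subgroup G, ∃ z : G, l ∈ lines L → orderOf z = r ∧ ∀ u ∈ l, z * u = u * z := by
    intro l
    by_cases hl : l ∈ lines L
    · obtain ⟨g, rfl⟩ := hl
      refine ⟨MulAut.conj g y, fun _ => ⟨by rw [MulEquiv.orderOf_eq, hy], ?_⟩⟩
      rintro _ ⟨u, hu, rfl⟩
      change MulAut.conj g y * MulAut.conj g u = MulAut.conj g u * MulAut.conj g y
      rw [← map_mul, ← map_mul, mem_centralizer_singleton_iff.1 (hL hu)]
    · exact ⟨1, fun h => (hl h).elim⟩
  choose z hz using hz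
  have low : ({K | K ∈ lines L ∧ (P : Subgroup G) ≤ K} ×ˢ ((P : Subgroup G) : Set G)).ncard ≤
      (centralizer ({x} : Set G) : Set G).ncard := by
    refine Set.ncard_le_ncard_of_injOn (fun a => z a.1 * a.2) ?_ ?_
    · rintro ⟨l, u⟩ ⟨hl, hu⟩
      refine mul_mem (mem_centralizer_singleton_iff.2 ((hz l hl.1).2 x (hl.2 (mem_zpowers x)))) ?_
      obtain ⟨n, rfl⟩ := hu
      exact mem_centralizer_singleton_iff.2 ((Commute.refl x).zpow_left n)
    · rintro ⟨l, u⟩ ⟨hl, hu⟩ ⟨l', u'⟩ ⟨hl', hu'⟩ e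
      have e' : z l' = z l * (u * u'⁻¹) := by
        rw [← mul_assoc, eq_mul_inv_iff_mul_eq]; exact e.symm
      have hv : u * u'⁻¹ ∈ (P : Subgroup G) := mul_mem hu (inv_mem hu')
      have h1 : (u * u'⁻¹) ^ r = 1 := by
        have := pow_orderOf_eq_one (z l')
        rw [(hz l' hl'.1).1, e', Commute.mul_pow ((hz l hl.1).2 _ (hl.2 hv)), ← (hz l hl.1).1,
          pow_orderOf_eq_one, one_mul, (hz l hl.1).1] at this
        exact this
      have h2 : u * u'⁻¹ = 1 := by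
        have h3 : orderOf (u * u'⁻¹) ∣ p := hx ▸ orderOf_dvd_of_mem_zpowers hv
        exact orderOf_eq_one_iff.1 (Nat.eq_one_of_dvd_coprimes
          ((Nat.coprime_primes hr hp).2 hrp) (orderOf_dvd_of_pow_eq_one h1) h3)
      rw [h2, mul_one] at e'
      refine Prod.ext ?_ (mul_inv_eq_one.1 h2)
      by_contra hne
      have h3 := step3 h S hH hPH (fun v hv => (hz l hl.1).2 v (hl.2 hv))
        (fixl S hl.1 hl'.1 hne hl.2 hl'.2 hH hPH
          (fun T hT => cent_self fun v hv => (hz l hl.1).2 v (hT hv))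
          fun T hT => cent_self fun v hv => e' ▸ (hz l' hl'.1).2 v (hT hv))
      exact hr.one_lt.ne' (by rw [← (hz l hl.1).1, h3, orderOf_one])
  have hP' : ((P : Subgroup G) : Set G).ncard = p := h P
  rw [Set.ncard_prod, S.thru P, hP'] at low
  obtain ⟨v, rfl⟩ : ∃ v, w = v + 1 := ⟨w - 1, by omega⟩
  rw [Nat.add_sub_cancel] at up
  have := hp.pos
  nlinarith

end H25.SN
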