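import Cfsg.Agent.H19.Dh
import Cfsg.Agent.H3.Frobenius
import Cfsg.Agent.H3.NPC
import Cfsg.Agent.H2.Super

/-! Solvable groups with trivial odd core and `2`-nilpotent involution centralizers. -/

set_option autoImplicit false

namespace H25.SolNC
open Cfsg Subgroup H19

variable {G : Type*} [Group G] [Finite G]

theorem invol_pow {x : G} (h : 2 ∣ orderOf x) : ∃ t ∈ zpowers x, orderOf t = 2 :=
  exists_orderOf_eq_prime Nat.prime_two (by rwa [Nat.card_zpowers])

theorem main (hs : Group.IsSolvable G) (hO : oddCore G = ⊥)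
    (hI : ∀ t : G, orderOf t = 2 → HasNormalPComplement 2 C[t]) {X : Subgroup G} (hX : Hall {2}ᶜ X ⊤) :
    (∀ x ∈ X, x ≠ 1 → pCore 2 G ⊓ C[x] = ⊥) ∧ (pCore 2 G = ⊥ → Subsingleton G) ∧
      (X ⊔ pCore 2 G).Normal ∧ ∃ s : G, ∀ g : G, ∃ k : ℤ, (s ^ k)⁻¹ * g ∈ X ⊔ pCore 2 G := by
  have st : Sol (⊤ : Subgroup G) := H1.isSolvable_of_le le_top inferInstance
  have e2 : Oc {2} ⊤ = pCore 2 G := (Oc_top _).trans (H1.pCore_eq_piCore).symm
  have cY : C(pCore 2 G) ≤ pCore 2 G := by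
    have := cent_Fit_le st
    rwa [Fit_eq_Oc ((Oc_top _).trans ((H1.pPrimeCore_eq_piCore).symm.trans hO)), e2, top_inf_eq] at this
  have pY : PG 2 (pCore 2 G) := e2 ▸ Oc_pi _ _
  set Y := pCore 2 G
  have A : ∀ x : G, PiE {2}ᶜ x → ∀ y ∈ C[x], 2 ∣ orderOf y → x = 1 := fun x hx y hy h2 => by
    obtain ⟨t, ht, t2⟩ := invol_pow h2
    have xt : x ∈ C[t] := cent1_le_cent1_of_mem_zpowers ht (mem_cent1_symm.1 hy)
    refine PiN.e_eq_one (pY.elt (cY (zpowers_le.1 (PxQ pY (PiN.of_card Nat.prime_two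
      ((Nat.card_zpowers t).trans t2)) (piG_zpowers.2 hx) (by
        rw [cent_zpowers]; exact zpowers_le.2 (mem_cent1_symm.1 xt)) le_normalizer_of_normal
      le_normalizer_of_normal ?_)))) hx
    rw [cent_zpowers]
    exact cents_symm (zpowers_le.2 (H3.mem_centralizer_of_hasNPC_subgroup (hI t t2) inf_le_right
      (pY.infl _).isPGroup xt (norms_inf le_normalizer_of_normal le_normalizer xt)
      (hx.coprime_prime Nat.prime_two)))
  have fpf : ∀ x ∈ X, x ≠ 1 → Y ⊓ C[x] = ⊥ := fun x hx x1 => by_contra fun e =>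
    let ⟨y, hy, o⟩ := exists_orderOf_eq_prime Nat.prime_two ((pY.infl _).dvd_of_ne_bot e)
    x1 (A x (hX.pi.elt hx) y hy.2 o.symm.dvd)
  have triv : Y = ⊥ → Subsingleton G := fun e => (subsingleton_iff_forall_eq 1).2 fun g =>
    mem_bot.1 (e.le (cY (by rw [e]; exact mem_cent.2 fun h hh => by simp [mem_bot.1 hh])))
  refine ⟨fpf, triv, ?_⟩
  let f := QuotientGroup.mk' Y
  have sf : Function.Surjective f := QuotientGroup.mk'_surjective Y
  have hX' : Hall {2}ᶜ (X.map f) ⊤ := map_top_of_surjective f sf ▸ hX.map f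
  have eX : (X.map f).comap f = X ⊔ Y := by rw [comap_map_eq, QuotientGroup.ker_mk']
  have st' : Sol (⊤ : Subgroup (G ⧸ Y)) := H1.isSolvable_of_le le_top inferInstance
  have FX : Fit ⊤ ≤ X.map f := Fit_le_of_Oc fun p hp => by
    by_cases e : p = 2
    · subst e
      rw [Oc_top, ← H1.pCore_eq_piCore, H1.pCore_quotient_pCore]
      exact bot_le
    exact (Oc_mono (Set.singleton_subset_iff.2 e) _).trans (Oc_le_hall hX')
  obtain ⟨S, hS⟩ := exists_syl 2 (⊤ : Subgroup (G ⧸ Y))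
  have B : ∀ s : G ⧸ Y, 2 ∣ orderOf s → Fit ⊤ ⊓ C[s] = ⊥ := fun s hs => eq_bot_iff.2 fun x hx => by
    obtain ⟨x, xX, rfl⟩ := FX hx.1
    obtain ⟨s, rfl⟩ := sf s
    obtain ⟨n, hn, e⟩ := exists_mul_mem_cent (A := zpowers x) (H := Y) le_normalizer_of_normal
      (pY.coprime (piG_zpowers.2 (hX.pi.elt xX))) (.inl (sol_zpowers x)) (k := s) fun a ha => by
      rw [← QuotientGroup.ker_mk' Y, MonoidHom.mem_ker, map_mul, map_mul, map_mul, map_inv, map_inv,
        mem_cent1.1 ((zpowers_le.2 hx.2 : zpowers (f x) ≤ _) (f.map_zpowers x ▸ mem_map_of_mem f ha))]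
      simp [f]
    rw [A x (hX.pi.elt xX) (n * s) (cent_zpowers x ▸ e) (hs.trans (by
      have := orderOf_map_dvd f (n * s)
      rwa [map_mul, show f n = 1 from (QuotientGroup.eq_one_iff n).2 hn, one_mul] at this)), map_one]
    exact one_mem _
  have key : (X.map f).Normal ∧ IsCyclic S := by
    by_cases e : S = ⊥
    · subst e
      exact ⟨hX'.eq_self hS.pi'_of_eq_bot ▸ inferInstance, inferInstance⟩
    obtain ⟨s, -, s2⟩ := exists_orderOf_eq_prime Nat.prime_two (hS.pi.dvd_of_ne_bot e)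
    have nF : (Fit (⊤ : Subgroup (G ⧸ Y))).Normal := (Fit_normal ⊤).normal
    have inv := fun k => H3.conj_eq_inv_of_fpf (k := k) (le_normalizer_of_normal (mem_top s))
      (mul_self_of_two s2 ▸ one_mem _) (B s s2.symm.dvd)
    have ab : Ab (Fit (⊤ : Subgroup (G ⧸ Y))) := comm_iff_le_cent.2 fun a ha => mem_cent.2 fun b hb => by
      rw [← inv_inj, ← inv _ (mul_mem hb ha), ← conj_mul, inv _ ha, inv _ hb, mul_inv_rev]
    have Y1 : Y ≠ ⊥ := fun k => by
      have := triv k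
      exact e (eq_bot_iff.2 fun x _ => by obtain ⟨x, rfl⟩ := sf x; simp [Subsingleton.elim x 1])
    have : Ab (X ⊓ (Fit ⊤).comap f) := comm_iff_le_cent.2 fun a ha => mem_cent.2 fun b hb => by
      have k := mul_mem (mul_mem (X.mul_mem hb.1 ha.1) (X.inv_mem hb.1)) (X.inv_mem ha.1)
      rw [← mul_inv_eq_one, mul_inv_rev, ← mul_assoc]
      refine PiN.e_eq_one (pY.elt ((QuotientGroup.eq_one_iff _).1 ?_)) (hX.pi.elt k)
      change f _ = 1
      simp [mul_comm_of_comm ab hb.2 ha.2]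
    have cy := H3.isCyclic_of_fpf (A := X ⊓ (Fit ⊤).comap f) le_normalizer_of_normal Y1
      fun a ha => fpf a ha.1
    have : IsCyclic (Fit (⊤ : Subgroup (G ⧸ Y))) := isCyclic_of_surjective
      ((f.comp (X ⊓ (Fit ⊤).comap f).subtype).codRestrict _ fun x => x.2.2) fun ⟨y, hy⟩ => by
        obtain ⟨x, xX, rfl⟩ := FX hy
        exact ⟨⟨x, xX, hy⟩, rfl⟩
    have d : commutator (G ⧸ Y) ≤ Fit ⊤ := fun x hx =>
      cent_Fit_le st' ⟨mem_top x, H2.commutator_le_centralizer_of_isCyclic _ hx⟩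
    refine ⟨(normal_of_der_le (d.trans FX) le_top).normal, ?_⟩
    have : Ab S := comm_iff_der.2 (eq_bot_iff.2 ((le_inf (der_le S) ((der_mono le_top).trans
      (d.trans FX))).trans (hS.pi.inf_eq_bot hX'.pi).le))
    exact H3.isCyclic_of_fpf le_normalizer_of_normal (Fit_ne_bot st' (ne_bot_mono le_top e))
      fun a ha a1 => B a ((hS.pi.elt ha).dvd_of_ne_one (mt orderOf_eq_one_iff.1 a1)).2
  obtain ⟨n, ⟨s, hs⟩⟩ := key
  obtain ⟨s', e⟩ := sf s
  refine ⟨eX ▸ inferInstance, s', fun g => ?_⟩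
  obtain ⟨a, ha, b, hb, e1⟩ := (mem_sup_of_norm' le_normalizer_of_normal).1
    ((hS.sup_compl hX').ge (mem_top (f g)))
  obtain ⟨k, hk⟩ := hs ⟨a, ha⟩
  refine ⟨k, eX.le ?_⟩
  rwa [mem_comap, map_mul, map_inv, map_zpow, e, e1, show (s : G ⧸ Y) ^ k = a from
    congrArg Subtype.val hk, inv_mul_cancel_left]
end H25.SolNC
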